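import Cfsg.Agent.Lib.SUPres.Perm
import Cfsg.Agent.Lib.SLnPres.Proj
import Cfsg.Agent.Lib.ClassicalForms.Unitary.Two
import Cfsg.Agent.Lib.ClassicalForms.Unitary.Center
import Cfsg.Agent.Lib.SUAmalgam.Pairs

/-!
Presentations of `SU_n(q)` and `PSU_n(q)`, `n ≥ 4`, `q > 3`, from one of `SU₃(q)` and one of the alternating group:
one relation identifies the three-cycle, at most four make the blocks move coherently and three make two disjoint
blocks commute.
-/

set_option autoImplicit false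
set_option linter.unusedSectionVars false

namespace CfsgLib.SUPres

open CfsgLib.SUAmalgam CfsgLib.ClassicalForms CfsgLib.SLnPres CfsgLib.SL2Pres Equiv
open CfsgLib.ShortPres (HasPres)

universe u

variable {F : Type u} [Field F] [Finite F] {q : ℕ}

/-- `SU₂(q)` has two generators. -/
theorem exists_two_gens (hF : Nat.card F = q ^ 2) (c : Conj F q) :
    ∃ g₁ g₂ : SUg 2 F q, Subgroup.closure ({g₁, g₂} : Set (SUg 2 F q)) = ⊤ := by
  obtain ⟨e⟩ := nonempty_su_two_equiv (F := F) (K := c.fixed) hF (c.card_fixed hF)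
  obtain ⟨ω, hω⟩ := IsCyclic.exists_generator (α := (c.fixed)ˣ)
  set v : FreeGroup (Fin 3) → SUg 2 F q := fun w => e.symm (FreeGroup.lift (SL2Pres.fS ω) w)
  obtain ⟨w₁, w₂, hw⟩ : ∃ w₁ w₂, tauWords ω = [w₁, w₂] := by
    unfold tauWords
    split <;> exact ⟨_, _, rfl⟩
  refine ⟨v w₁, v w₂, ?_⟩
  have h : (Subgroup.closure ({v w₁, v w₂} : Set (SUg 2 F q))).comap e.symm.toMonoidHom = ⊤ :=
    eq_top_of_tauWords hω fun w hm => by
      rw [hw] at hm
      simp only [List.mem_cons, List.not_mem_nil, or_false] at hm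
      rcases hm with rfl | rfl
      · exact Subgroup.subset_closure (Or.inl rfl)
      · exact Subgroup.subset_closure (Or.inr rfl)
  rw [eq_top_iff]
  intro x _
  have hx : e x ∈ (Subgroup.closure ({v w₁, v w₂} : Set (SUg 2 F q))).comap e.symm.toMonoidHom :=
    h ▸ Subgroup.mem_top _
  simpa using hx

/-- A homomorphism whose values at two generators lie in a subgroup lands in it. -/
theorem mem_of_two {A G : Type*} [Group A] [Group G] {g₁ g₂ : A} (hg : Subgroup.closure ({g₁, g₂} : Set A) = ⊤)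
    (f : A →* G) (H : Subgroup G) (h1 : f g₁ ∈ H) (h2 : f g₂ ∈ H) (z : A) : f z ∈ H := by
  have h : Subgroup.closure ({g₁, g₂} : Set A) ≤ H.comap f := by
    rw [Subgroup.closure_le]; rintro x (rfl | rfl) <;> assumption
  exact h (hg ▸ Subgroup.mem_top z)

variable {k : ℕ}

theorem emb_e32 (c : Conj F q) (z : SUg 2 F q) :
    emb c 0 (show 0 + 3 ≤ k + 4 by omega) (e32 c z) = emb c 0 (show 0 + 2 ≤ k + 4 by omega) z :=
  emb_emb c 0 _ 0 _ z

/-- In the model the stabiliser of the first two points moves the first block to itself. -/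
theorem exists_stab_image (c : Conj F q) {σ : alternatingGroup (Fin (k + 4))}
    (h : (σ.1 0 = 0 ∧ σ.1 1 = 1) ∨ (σ.1 0 = 1 ∧ σ.1 1 = 0)) (z : SUg 2 F q) :
    ∃ z' : SUg 2 F q, pmU σ * emb c 0 (show 0 + 2 ≤ k + 4 by omega) z * (pmU σ)⁻¹ =
      emb c 0 (show 0 + 2 ≤ k + 4 by omega) z' := by
  have hm : pmU σ * emb c 0 (show 0 + 2 ≤ k + 4 by omega) z * (pmU σ)⁻¹ ∈
      (Blk c (k + 4) 0 2).map (MulAut.conj (pmU σ)).toMonoidHom := ⟨_, emb_mem_Blk c 0 _ z, rfl⟩
  have himg : σ.1 '' {l : Fin (k + 4) | 0 ≤ (l : ℕ) ∧ (l : ℕ) < 0 + 2} =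
      {l : Fin (k + 4) | 0 ≤ (l : ℕ) ∧ (l : ℕ) < 0 + 2} := by
    have e : {l : Fin (k + 4) | 0 ≤ (l : ℕ) ∧ (l : ℕ) < 0 + 2} = {0, 1} := by
      ext l
      simp only [Set.mem_ofPred_eq, Set.mem_insert_iff, Set.mem_singleton_iff, Fin.ext_iff, val_one', Fin.val_zero]
      omega
    rw [e, Set.image_pair]
    rcases h with ⟨a, b⟩ | ⟨a, b⟩ <;> rw [a, b]
    exact Set.pair_comm 1 0
  rw [Blk_eq_Fix, map_conj_Fix, himg, ← Blk_eq_Fix, ← range_emb c 0 (show 0 + 2 ≤ k + 4 by omega)] at hm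
  obtain ⟨z', e⟩ := hm
  exact ⟨z', e.symm⟩

/-- In the model two disjoint blocks commute. -/
theorem model_disj [Fintype F] (c : Conj F q) (z z' : SUg 2 F q) :
    Commute (emb c 0 (show 0 + 2 ≤ k + 4 by omega) z)
      (pmU shiftAlt * emb c 0 (show 0 + 2 ≤ k + 4 by omega) z' * (pmU shiftAlt)⁻¹) := by
  refine Blk_comm c (i := 0) (j := 2) (r := 2) (r' := 2) (emb_mem_Blk c 0 _ z) ?_ le_rfl
  have hm : pmU shiftAlt * emb c 0 (show 0 + 2 ≤ k + 4 by omega) z' * (pmU shiftAlt)⁻¹ ∈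
      (Blk c (k + 4) 0 2).map (MulAut.conj (pmU shiftAlt)).toMonoidHom := ⟨_, emb_mem_Blk c 0 _ z', rfl⟩
  rw [Blk_eq_Fix, map_conj_Fix] at hm
  rw [Blk_eq_Fix]
  convert hm using 2
  ext l
  have e : {l : Fin (k + 4) | 0 ≤ (l : ℕ) ∧ (l : ℕ) < 0 + 2} = {0, 1} := by
    ext l
    simp only [Set.mem_ofPred_eq, Set.mem_insert_iff, Set.mem_singleton_iff, Fin.ext_iff, val_one', Fin.val_zero]
    omega
  rw [e, Set.image_pair, shiftAlt_zero, shiftAlt_one]
  simp only [Set.mem_ofPred_eq, Set.mem_insert_iff, Set.mem_singleton_iff, Fin.ext_iff, val_two', val_three']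
  omega

theorem shiftAlt_mul_self : (shiftAlt : alternatingGroup (Fin (k + 4))) * shiftAlt = 1 := by
  refine Subtype.ext ?_
  show swap (0 : Fin (k + 4)) 2 * swap 1 3 * (swap 0 2 * swap 1 3) = 1
  have hd : Perm.Disjoint (swap (0 : Fin (k + 4)) 2) (swap 1 3) := fun x => by
    by_cases hx : x = 0 ∨ x = 2
    · right
      rcases hx with rfl | rfl
      · exact swap_apply_of_ne_of_ne SLnPres.zero_ne_one' zero_ne_three'
      · exact swap_apply_of_ne_of_ne (Ne.symm one_ne_two') two_ne_three'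
    · left
      rw [not_or] at hx
      exact swap_apply_of_ne_of_ne hx.1 hx.2
  rw [show swap (0 : Fin (k + 4)) 2 * swap 1 3 * (swap 0 2 * swap 1 3) =
    swap 0 2 * (swap 1 3 * swap 0 2) * swap 1 3 by group, ← hd.commute.eq, ← mul_assoc,
    swap_mul_self, one_mul, swap_mul_self]

/-- The relation count beyond the two given presentations. -/
def extra (k : ℕ) : ℕ := if k = 0 then 6 else 8

set_option maxHeartbeats 1600000 in
/-- The presentation. -/
theorem presentation [Fintype F] (hF : Nat.card F = q ^ 2) (hq : 3 < q) (k : ℕ) {a r ra : ℕ}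
    (hS : HasPres (SUg 3 F q) a r) (hA : HasPres (alternatingGroup (Fin (k + 4))) 2 ra) :
    HasPres (SUg (k + 4) F q) (a + 2) (r + ra + extra k) := by
  classical
  obtain ⟨c⟩ := exists_conj hF
  obtain ⟨g₁, g₂, hg⟩ := exists_two_gens hF c
  obtain ⟨Rs, hRs, ⟨es⟩⟩ := hS
  obtain ⟨Ra, hRa, ⟨ea⟩⟩ := hA
  let θS : FreeGroup (Fin a) →* SUg 3 F q := es.toMonoidHom.comp (PresentedGroup.mk _)
  let θA : FreeGroup (Fin 2) →* alternatingGroup (Fin (k + 4)) := ea.toMonoidHom.comp (PresentedGroup.mk _)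
  have hθS : Function.Surjective θS := es.surjective.comp (PresentedGroup.mk_surjective _)
  have hθA : Function.Surjective θA := ea.surjective.comp (PresentedGroup.mk_surjective _)
  choose wS hwS using hθS
  choose wA hwA using hθA
  have hflip : ((flipAlt : alternatingGroup (Fin (k + 4))).1 0 = 0 ∧ (flipAlt : alternatingGroup (Fin (k + 4))).1 1 = 1) ∨
      ((flipAlt : alternatingGroup (Fin (k + 4))).1 0 = 1 ∧ (flipAlt : alternatingGroup (Fin (k + 4))).1 1 = 0) :=
    Or.inr ⟨by simp [flipAlt, swap_apply_of_ne_of_ne zero_ne_two' zero_ne_three'],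
      by simp [flipAlt, swap_apply_of_ne_of_ne one_ne_two' one_ne_three']⟩
  have hfix : ((cycAlt : alternatingGroup (Fin (k + 4))).1 0 = 0 ∧ (cycAlt : alternatingGroup (Fin (k + 4))).1 1 = 1) ∨
      ((cycAlt : alternatingGroup (Fin (k + 4))).1 0 = 1 ∧ (cycAlt : alternatingGroup (Fin (k + 4))).1 1 = 0) :=
    Or.inl ⟨cycAlt_fix (by simp), cycAlt_fix (by rw [val_one']; omega)⟩
  choose fl hfl using exists_stab_image (F := F) c hflip
  choose fx hfx using exists_stab_image (F := F) c hfix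
  let ηS : FreeGroup (Fin a) →* FreeGroup (Fin (a + 2)) := FreeGroup.map (Fin.castAdd 2)
  let ηA : FreeGroup (Fin 2) →* FreeGroup (Fin (a + 2)) := FreeGroup.map (Fin.natAdd a)
  let b : SUg 2 F q → FreeGroup (Fin (a + 2)) := fun z => ηS (wS (e32 c z))
  let mv : alternatingGroup (Fin (k + 4)) → FreeGroup (Fin (a + 2)) → FreeGroup (Fin (a + 2)) :=
    fun σ w => ηA (wA σ) * w * (ηA (wA σ))⁻¹
  let cm : FreeGroup (Fin (a + 2)) → FreeGroup (Fin (a + 2)) → FreeGroup (Fin (a + 2)) :=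
    fun v w => v * w * (w * v)⁻¹
  let T : List (FreeGroup (Fin (a + 2))) :=
    if k = 0 then [] else [mv cycAlt (b g₁) * (b (fx g₁))⁻¹, mv cycAlt (b g₂) * (b (fx g₂))⁻¹]
  set L := Rs.toList.map ηS ++ Ra.toList.map ηA ++
    [ηS (wS (pmU rot3)) * (ηA (wA c012))⁻¹, mv flipAlt (b g₁) * (b (fl g₁))⁻¹,
      mv flipAlt (b g₂) * (b (fl g₂))⁻¹, cm (b g₁) (mv shiftAlt (b g₁)), cm (b g₁) (mv shiftAlt (b g₂)),
      cm (b g₂) (mv shiftAlt (b g₂))] ++ T with hL
  refine ⟨L.toFinset, (List.toFinset_card_le _).trans ?_, ?_⟩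
  · have hT : T.length + 6 ≤ extra k := by
      by_cases hk : k = 0 <;> simp [T, extra, hk]
    simp only [hL, List.length_append, List.length_map, Finset.length_toList, List.length_cons, List.length_nil]
    omega
  rw [List.coe_toFinset]
  -- the model
  let fs : Fin a → SUg (k + 4) F q := fun i => emb c 0 (by omega) (θS (FreeGroup.of i))
  let fa : Fin 2 → SUg (k + 4) F q := fun i => pmU (θA (FreeGroup.of i))
  let fM : Fin (a + 2) → SUg (k + 4) F q := Fin.append fs fa
  have hMS : ∀ w, FreeGroup.lift fM (ηS w) = emb c 0 (by omega) (θS w) := fun w => DFunLike.congr_fun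
    (show (FreeGroup.lift fM).comp ηS = (emb c 0 (show 0 + 3 ≤ k + 4 by omega)).comp θS from
      FreeGroup.ext_hom _ _ fun i => by simp [ηS, fM, fs, Fin.append_left]) w
  have hMA : ∀ w, FreeGroup.lift fM (ηA w) = pmU (θA w) := fun w => DFunLike.congr_fun
    (show (FreeGroup.lift fM).comp ηA = (pmU (q := q)).comp θA from
      FreeGroup.ext_hom _ _ fun i => by simp [ηA, fM, fa, Fin.append_right]) w
  have hMb : ∀ z, FreeGroup.lift fM (b z) = emb c 0 (show 0 + 2 ≤ k + 4 by omega) z := fun z => by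
    simp only [b]; rw [hMS, hwS, emb_e32]
  have hrel : ∀ x ∈ {x | x ∈ L}, FreeGroup.lift fM x = 1 := by
    intro x hx
    simp only [Set.mem_ofPred_eq, hL, List.mem_append, List.mem_map, List.mem_cons, List.not_mem_nil, or_false] at hx
    rcases hx with ((⟨x, hx, rfl⟩ | ⟨x, hx, rfl⟩) | hx) | hx
    · rw [hMS]
      show emb c 0 _ (es (PresentedGroup.mk _ x)) = 1
      rw [PresentedGroup.one_of_mem (Finset.mem_toList.1 hx), map_one, map_one]
    · rw [hMA]
      show pmU (ea (PresentedGroup.mk _ x)) = 1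
      rw [PresentedGroup.one_of_mem (Finset.mem_toList.1 hx), map_one, map_one]
    · rcases hx with rfl | rfl | rfl | rfl | rfl | rfl <;>
        simp only [mv, cm, map_mul, map_inv, hMb, hMA, hwA, mul_inv_eq_one]
      · rw [hMS, hwS]; exact emb_pmU_rot3 c
      · exact hfl g₁
      · exact hfl g₂
      · exact (model_disj c _ _).eq
      · exact (model_disj c _ _).eq
      · exact (model_disj c _ _).eq
    · by_cases hk : k = 0
      · simp [T, hk] at hx
      simp only [T, hk, if_false, List.mem_cons, List.not_mem_nil, or_false] at hx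
      rcases hx with rfl | rfl <;> simp only [mv, map_mul, map_inv, hMb, hMA, hwA, mul_inv_eq_one]
      exacts [hfx g₁, hfx g₂]
  -- the presented group
  set P := PresentedGroup.of (rels := {x | x ∈ L}) with hP
  have hl : ∀ x ∈ L, FreeGroup.lift P x = 1 := fun x hx => lift_of_eq_one hx
  have hPS : ∀ w, FreeGroup.lift P (ηS w) = FreeGroup.lift (P ∘ Fin.castAdd 2) w := fun w => DFunLike.congr_fun
    (show (FreeGroup.lift P).comp ηS = FreeGroup.lift (P ∘ Fin.castAdd 2) from
      FreeGroup.ext_hom _ _ fun i => by simp [ηS]) w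
  have hPA : ∀ w, FreeGroup.lift P (ηA w) = FreeGroup.lift (P ∘ Fin.natAdd a) w := fun w => DFunLike.congr_fun
    (show (FreeGroup.lift P).comp ηA = FreeGroup.lift (P ∘ Fin.natAdd a) from
      FreeGroup.ext_hom _ _ fun i => by simp [ηA]) w
  have hSrel : ∀ x ∈ (↑Rs : Set (FreeGroup (Fin a))), FreeGroup.lift (P ∘ Fin.castAdd 2) x = 1 := fun x hx => by
    rw [← hPS]
    exact hl _ (List.mem_append_left _ (List.mem_append_left _ (List.mem_append_left _
      (List.mem_map.2 ⟨x, Finset.mem_toList.2 hx, rfl⟩))))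
  have hArel : ∀ x ∈ (↑Ra : Set (FreeGroup (Fin 2))), FreeGroup.lift (P ∘ Fin.natAdd a) x = 1 := fun x hx => by
    rw [← hPA]
    exact hl _ (List.mem_append_left _ (List.mem_append_left _ (List.mem_append_right _
      (List.mem_map.2 ⟨x, Finset.mem_toList.2 hx, rfl⟩))))
  let α : SUg 3 F q →* PresentedGroup {x | x ∈ L} := (PresentedGroup.toGroup hSrel).comp es.symm.toMonoidHom
  let ρ : alternatingGroup (Fin (k + 4)) →* PresentedGroup {x | x ∈ L} :=
    (PresentedGroup.toGroup hArel).comp ea.symm.toMonoidHom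
  have hα : ∀ w, α (θS w) = FreeGroup.lift P (ηS w) := by
    intro w
    show PresentedGroup.toGroup hSrel (es.symm (es _)) = _
    rw [es.symm_apply_apply, hPS]
    exact DFunLike.congr_fun (FreeGroup.ext_hom ((PresentedGroup.toGroup hSrel).comp (PresentedGroup.mk _))
      (FreeGroup.lift (P ∘ Fin.castAdd 2)) fun i => by
        show PresentedGroup.toGroup hSrel (PresentedGroup.of i) = _
        rw [PresentedGroup.toGroup.of, FreeGroup.lift_apply_of]) w
  have hρ : ∀ w, ρ (θA w) = FreeGroup.lift P (ηA w) := by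
    intro w
    show PresentedGroup.toGroup hArel (ea.symm (ea _)) = _
    rw [ea.symm_apply_apply, hPA]
    exact DFunLike.congr_fun (FreeGroup.ext_hom ((PresentedGroup.toGroup hArel).comp (PresentedGroup.mk _))
      (FreeGroup.lift (P ∘ Fin.natAdd a)) fun i => by
        show PresentedGroup.toGroup hArel (PresentedGroup.of i) = _
        rw [PresentedGroup.toGroup.of, FreeGroup.lift_apply_of]) w
  have eb : ∀ z, FreeGroup.lift P (b z) = α (e32 c z) := fun z => by
    simp only [b]; rw [← hα, hwS]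
  have eA : ∀ σ, FreeGroup.lift P (ηA (wA σ)) = ρ σ := fun σ => by rw [← hρ, hwA]
  let π := PresentedGroup.toGroup (rels := {x | x ∈ L}) (f := fM) hrel
  have hπP : ∀ w, π (FreeGroup.lift P w) = FreeGroup.lift fM w := fun w =>
    DFunLike.congr_fun (FreeGroup.ext_hom (π.comp (FreeGroup.lift P)) (FreeGroup.lift fM) fun i => by
      simp [π, hP]) w
  have hmove : ∀ (σ : alternatingGroup (Fin (k + 4))) (f : SUg 2 F q → SUg 2 F q),
      FreeGroup.lift P (mv σ (b g₁) * (b (f g₁))⁻¹) = 1 → FreeGroup.lift P (mv σ (b g₂) * (b (f g₂))⁻¹) = 1 →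
      ∀ z : SUg 2 F q, ∃ z', ρ σ * α (e32 c z) * (ρ σ)⁻¹ = α (e32 c z') := by
    intro σ f h1 h2 z
    simp only [mv, map_mul, map_inv, eb, eA, mul_inv_eq_one] at h1 h2
    obtain ⟨z', e⟩ := mem_of_two hg ((MulAut.conj (ρ σ)).toMonoidHom.comp (α.comp (e32 c)))
      (α.comp (e32 c)).range ⟨_, h1.symm⟩ ⟨_, h2.symm⟩ z
    exact ⟨z', e.symm⟩
  have h6 : ∀ x ∈ [ηS (wS (pmU rot3)) * (ηA (wA c012))⁻¹, mv flipAlt (b g₁) * (b (fl g₁))⁻¹,
      mv flipAlt (b g₂) * (b (fl g₂))⁻¹, cm (b g₁) (mv shiftAlt (b g₁)), cm (b g₁) (mv shiftAlt (b g₂)),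
      cm (b g₂) (mv shiftAlt (b g₂))], FreeGroup.lift P x = 1 := fun x hx =>
    hl x (List.mem_append_left _ (List.mem_append_right _ hx))
  have hcyc : α (pmU rot3) = ρ c012 := by
    have h := h6 (ηS (wS (pmU rot3)) * (ηA (wA c012))⁻¹) List.mem_cons_self
    rw [map_mul, map_inv, eA, ← hα, hwS, mul_inv_eq_one] at h
    exact h
  have hfixP : ∀ z : SUg 2 F q, ∃ z', ρ cycAlt * α (e32 c z) * (ρ cycAlt)⁻¹ = α (e32 c z') := by
    by_cases hk : k = 0
    · subst hk
      intro z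
      exact ⟨z, by rw [cycAlt_zero, map_one, one_mul, inv_one, mul_one]⟩
    · exact hmove cycAlt fx (hl _ (List.mem_append_right _ (by simp [T, hk])))
        (hl _ (List.mem_append_right _ (by simp [T, hk])))
  have hdisj : ∀ z z' : SUg 2 F q, Commute (α (e32 c z)) (ρ shiftAlt * α (e32 c z') * (ρ shiftAlt)⁻¹) := by
    set τ := ρ (shiftAlt : alternatingGroup (Fin (k + 4)))
    have hττ : τ * τ = 1 := by
      rw [← map_mul, show (shiftAlt : alternatingGroup (Fin (k + 4))) * shiftAlt = 1 from ?_, map_one]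
      exact shiftAlt_mul_self
    have hsym : ∀ x y, Commute x (τ * y * τ⁻¹) → Commute y (τ * x * τ⁻¹) := by
      intro x y h
      have hi : τ⁻¹ = τ := inv_eq_of_mul_eq_one_right hττ
      have h' := (h.map (MulAut.conj τ).toMonoidHom).symm
      simp only [MulEquiv.coe_toMonoidHom, MulAut.conj_apply] at h'
      rwa [show τ * (τ * y * τ⁻¹) * τ⁻¹ = τ * τ * y * (τ * τ)⁻¹ by group, hττ, one_mul, inv_one, mul_one] at h'
    have base : Commute (α (e32 c g₁)) (τ * α (e32 c g₁) * τ⁻¹) ∧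
        Commute (α (e32 c g₁)) (τ * α (e32 c g₂) * τ⁻¹) ∧ Commute (α (e32 c g₂)) (τ * α (e32 c g₂) * τ⁻¹) := by
      simp only [List.forall_mem_cons, cm, mv, map_mul, map_inv, eb, eA, mul_inv_eq_one] at h6
      exact ⟨h6.2.2.2.1, h6.2.2.2.2.1, h6.2.2.2.2.2.1⟩
    have col : ∀ x, Commute x (τ * α (e32 c g₁) * τ⁻¹) → Commute x (τ * α (e32 c g₂) * τ⁻¹) →
        ∀ z', Commute x (τ * α (e32 c z') * τ⁻¹) := fun x h1 h2 z' =>
      (Subgroup.mem_centralizer_singleton_iff.1
        (mem_of_two hg ((MulAut.conj τ).toMonoidHom.comp (α.comp (e32 c))) (Subgroup.centralizer {x})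
          (Subgroup.mem_centralizer_singleton_iff.2 h1.eq.symm) (Subgroup.mem_centralizer_singleton_iff.2 h2.eq.symm)
          z')).symm
    intro z z'
    have r1 := col _ base.1 base.2.1 z'
    have r2 := col _ (hsym _ _ base.2.1) base.2.2 z'
    exact Subgroup.mem_centralizer_singleton_iff.1
      (mem_of_two hg (α.comp (e32 c)) (Subgroup.centralizer {τ * α (e32 c z') * τ⁻¹})
        (Subgroup.mem_centralizer_singleton_iff.2 r1.eq) (Subgroup.mem_centralizer_singleton_iff.2 r2.eq) z)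
  let S : Setting c k (PresentedGroup {x | x ∈ L}) :=
    { π := π, ρ := ρ, α := α
      π_ρ := fun σ => by rw [← eA, hπP, hMA, hwA]
      π_α := fun z => by rw [← hwS z, hα, hπP, hMS]
      cyc := hcyc
      flip := hmove flipAlt fl (h6 _ (by simp)) (h6 _ (by simp))
      fix := hfixP
      disj := hdisj }
  refine ⟨MulEquiv.ofBijective S.π (S.bijective hF hq ?_)⟩
  rw [eq_top_iff, ← PresentedGroup.closure_range_of, Subgroup.closure_le]
  rintro _ ⟨i, rfl⟩
  refine Fin.addCases (fun i => ?_) (fun i => ?_) i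
  · refine Subgroup.mem_sup_right ⟨θS (FreeGroup.of i), ?_⟩
    show α _ = _
    rw [hα, hPS, FreeGroup.lift_apply_of]; rfl
  · refine Subgroup.mem_sup_left ⟨θA (FreeGroup.of i), ?_⟩
    show ρ _ = _
    rw [hρ, hPA, FreeGroup.lift_apply_of]; rfl

/-- The centre of `SU_n(q)` is cyclic. -/
theorem isCyclic_center (hF : Nat.card F = q ^ 2) {n : ℕ} (hn : 2 ≤ n) :
    IsCyclic (Subgroup.center (Cfsg.SU n F q)) := by
  have : NeZero n := ⟨by omega⟩
  have hscal : ∀ z ∈ Subgroup.center (Cfsg.SU n F q), ∃ a : F, ∀ x, act z x = a • x := fun z hz => by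
    obtain ⟨a, ha⟩ := exists_scalar_of_commute_su hF hn (suToGU z) fun s hs => by
      rw [← suToGU_suOfGU s hs]
      exact (Commute.map (Subgroup.mem_center_iff.1 hz (suOfGU s hs)).symm suToGU)
    exact ⟨a, ha⟩
  let f : Subgroup.center (Cfsg.SU n F q) →* F :=
    { toFun := fun z => act z.1 (Pi.single 0 1) 0
      map_one' := by simp
      map_mul' := fun z w => by
        obtain ⟨b, hb⟩ := hscal w.1 w.2
        simp [act_mul, hb, act_smul, mul_comm] }
  refine isCyclic_of_injective_ringHom f fun z w h => Subtype.ext (ext_act fun l => ?_)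
  obtain ⟨a, ha⟩ := hscal z.1 z.2
  obtain ⟨b, hb⟩ := hscal w.1 w.2
  have h' : act z.1 (Pi.single 0 (1 : F)) 0 = act w.1 (Pi.single 0 (1 : F)) 0 := h
  simp only [ha, hb, Pi.smul_apply, Pi.single_eq_same, smul_eq_mul, mul_one] at h'
  rw [ha, hb, h']

/-- The centre costs one relation. -/
theorem hasPres_psu (hF : Nat.card F = q ^ 2) {n a r : ℕ} (hn : 2 ≤ n) (h : HasPres (Cfsg.SU n F q) a r) :
    HasPres (Cfsg.PSU n F q) a (r + 1) := by
  obtain ⟨R, hR, ⟨e⟩⟩ := h
  obtain ⟨g, hg⟩ := (isCyclic_center hF hn).exists_generator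
  obtain ⟨w, hw⟩ := (e.surjective.comp (PresentedGroup.mk_surjective _)) g.1
  have hw' : e (PresentedGroup.mk _ w) = g.1 := hw
  obtain ⟨R', hR', e'⟩ := Sp4Pres.exists_quotient_presentation R e w
    (fun c hc => by
      rw [hw']
      obtain ⟨n, hn⟩ := hg ⟨c, hc⟩
      exact ⟨n, congrArg Subtype.val hn⟩)
    (by rw [hw']; exact g.2)
  exact ⟨R', hR'.trans (by omega), e'⟩

end CfsgLib.SUPres
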