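import Cfsg.Agent.Lib.SUPres.Quad
import Cfsg.Agent.Lib.SUPres.Main

/-!
A presentation of `SU_n(q)`, `n ≥ 5`, for every `q` for which `SU₃(q)` has two generators, from one of `SU₄(q)` and
one of the alternating group: two relations identify the alternating group of degree four, four make the triple blocks
move coherently and four make two disjoint blocks commute.
-/

set_option autoImplicit false
set_option linter.unusedSectionVars false

namespace CfsgLib.SUPres

open CfsgLib.SUAmalgam CfsgLib.ClassicalForms CfsgLib.SLnPres CfsgLib.SL2Pres Equiv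
open CfsgLib.ShortPres (HasPres)

universe u

variable {F : Type u} [Field F] [Finite F] {q k : ℕ}

/-- The first triple block inside `SU₄(q)`. -/
noncomputable abbrev e43 (c : Conj F q) : SUg 3 F q →* SUg 4 F q := emb c 0 (show 0 + 3 ≤ 4 by omega)

/-- A shift carrying the first triple away. -/
theorem exists_sh (k : ℕ) : ∃ σ : alternatingGroup (Fin (k + 1 + 4)),
    (k = 0 → img σ = {l : Fin (k + 1 + 4) | 2 ≤ (l : ℕ)}) ∧
    (1 ≤ k → img σ = {l : Fin (k + 1 + 4) | 3 ≤ (l : ℕ) ∧ (l : ℕ) < 6}) := by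
  rcases Nat.eq_zero_or_pos k with hk | hk
  · obtain ⟨σ, h⟩ := Setting4.exists_window (k := k) (i := 2) (by omega)
    refine ⟨σ, fun _ => ?_, fun h1 => absurd hk (by omega)⟩
    rw [h]; ext l
    simp only [Setting4.window, Set.mem_ofPred_eq]
    have := l.isLt
    omega
  · obtain ⟨σ, h⟩ := Setting4.exists_window (k := k) (i := 3) (by omega)
    exact ⟨σ, fun h0 => absurd hk (by omega), fun _ => h⟩

/-- In the model an evened tail moves the first triple block to itself. -/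
theorem exists_evTail_image (c : Conj F q) (μ : Perm (Fin (k + 2))) (z : SUg 3 F q) :
    ∃ z' : SUg 3 F q, pmU (evTail μ) * emb c 0 (show 0 + 3 ≤ k + 1 + 4 by omega) z * (pmU (evTail μ))⁻¹ =
      emb c 0 (show 0 + 3 ≤ k + 1 + 4 by omega) z' := by
  have hm : pmU (evTail μ) * emb c 0 (show 0 + 3 ≤ k + 1 + 4 by omega) z * (pmU (evTail μ))⁻¹ ∈
      (Blk c (k + 1 + 4) 0 3).map (MulAut.conj (pmU (evTail μ))).toMonoidHom := ⟨_, emb_mem_Blk c 0 _ z, rfl⟩
  have himg : (evTail (k := k) μ).1 '' {l : Fin (k + 1 + 4) | 0 ≤ (l : ℕ) ∧ (l : ℕ) < 0 + 3} =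
      {l : Fin (k + 1 + 4) | 0 ≤ (l : ℕ) ∧ (l : ℕ) < 0 + 3} := by
    have e : {l : Fin (k + 1 + 4) | 0 ≤ (l : ℕ) ∧ (l : ℕ) < 0 + 3} = tri k := by ext l; simp [tri]
    rw [e]; exact img_evTail μ
  rw [Blk_eq_Fix, map_conj_Fix, himg, ← Blk_eq_Fix, ← range_emb c 0 (show 0 + 3 ≤ k + 1 + 4 by omega)] at hm
  obtain ⟨z', e⟩ := hm
  exact ⟨z', e.symm⟩

/-- In the model a small block commutes with a triple block moved away from it. -/
theorem model_comm [Fintype F] (c : Conj F q) {r i : ℕ} (hr : 0 + r ≤ k + 1 + 4) (hi : r ≤ i)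
    (σ : alternatingGroup (Fin (k + 1 + 4))) (h : ∀ l ∈ img σ, i ≤ (l : ℕ)) (x : SUg r F q) (z : SUg 3 F q) :
    Commute (emb c 0 hr x) (pmU σ * emb c 0 (show 0 + 3 ≤ k + 1 + 4 by omega) z * (pmU σ)⁻¹) := by
  refine Blk_comm c (i := 0) (j := i) (r := r) (r' := k + 1 + 4) (emb_mem_Blk c 0 _ x) ?_ (by omega)
  have hm : pmU σ * emb c 0 (show 0 + 3 ≤ k + 1 + 4 by omega) z * (pmU σ)⁻¹ ∈
      (Blk c (k + 1 + 4) 0 3).map (MulAut.conj (pmU σ)).toMonoidHom := ⟨_, emb_mem_Blk c 0 _ z, rfl⟩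
  rw [Blk_eq_Fix, map_conj_Fix] at hm
  rw [Blk_eq_Fix]
  refine Fix_mono (fun l hl => ?_) hm
  have hl' : l ∈ img σ := by
    obtain ⟨j, hj, rfl⟩ := hl
    exact ⟨j, show _ < 3 by simp only [Set.mem_ofPred_eq] at hj; omega, rfl⟩
  have := h l hl'
  simp only [Set.mem_ofPred_eq]
  omega

set_option maxHeartbeats 1600000 in
/-- The presentation. -/
theorem presentation_quad [Fintype F] (hF : Nat.card F = q ^ 2) (k : ℕ) {a r ra : ℕ}
    (hS : HasPres (SUg 4 F q) a r) (hA : HasPres (alternatingGroup (Fin (k + 1 + 4))) 2 ra)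
    (hG : ∃ g₁ g₂ : SUg 3 F q, Subgroup.closure ({g₁, g₂} : Set (SUg 3 F q)) = ⊤) :
    HasPres (SUg (k + 1 + 4) F q) (a + 2) (r + ra + 10) := by
  classical
  obtain ⟨c⟩ := exists_conj hF
  obtain ⟨g₁, g₂, hg⟩ := hG
  obtain ⟨u₁, u₂, hu⟩ := exists_two_gens hF c
  obtain ⟨sh, hsh5, hsh6⟩ := exists_sh k
  obtain ⟨Rs, hRs, ⟨es⟩⟩ := hS
  obtain ⟨Ra, hRa, ⟨ea⟩⟩ := hA
  let θS : FreeGroup (Fin a) →* SUg 4 F q := es.toMonoidHom.comp (PresentedGroup.mk _)
  let θA : FreeGroup (Fin 2) →* alternatingGroup (Fin (k + 1 + 4)) := ea.toMonoidHom.comp (PresentedGroup.mk _)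
  have hθS : Function.Surjective θS := es.surjective.comp (PresentedGroup.mk_surjective _)
  have hθA : Function.Surjective θA := ea.surjective.comp (PresentedGroup.mk_surjective _)
  choose wS hwS using hθS
  choose wA hwA using hθA
  let μ₁ : Perm (Fin (k + 2)) := finRotate (k + 2)
  let μ₂ : Perm (Fin (k + 2)) := swap 0 (finRotate (k + 2) 0)
  choose f₁ hf₁ using exists_evTail_image (F := F) c μ₁
  choose f₂ hf₂ using exists_evTail_image (F := F) c μ₂
  let ηS : FreeGroup (Fin a) →* FreeGroup (Fin (a + 2)) := FreeGroup.map (Fin.castAdd 2)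
  let ηA : FreeGroup (Fin 2) →* FreeGroup (Fin (a + 2)) := FreeGroup.map (Fin.natAdd a)
  let b : SUg 3 F q → FreeGroup (Fin (a + 2)) := fun z => ηS (wS (e43 c z))
  let mv : alternatingGroup (Fin (k + 1 + 4)) → FreeGroup (Fin (a + 2)) → FreeGroup (Fin (a + 2)) :=
    fun σ w => ηA (wA σ) * w * (ηA (wA σ))⁻¹
  let cm : FreeGroup (Fin (a + 2)) → FreeGroup (Fin (a + 2)) → FreeGroup (Fin (a + 2)) :=
    fun v w => v * w * (w * v)⁻¹
  let d₁ : SUg 4 F q := if k = 0 then emb c 0 (show 0 + 2 ≤ 4 by omega) u₁ else e43 c g₁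
  let d₂ : SUg 4 F q := if k = 0 then emb c 0 (show 0 + 2 ≤ 4 by omega) u₂ else e43 c g₂
  set L := Rs.toList.map ηS ++ Ra.toList.map ηA ++
    [ηS (wS (pmU rot4)) * (ηA (wA (lowHom rot4)))⁻¹, ηS (wS (pmU flip4)) * (ηA (wA (lowHom flip4)))⁻¹,
      mv (evTail μ₁) (b g₁) * (b (f₁ g₁))⁻¹, mv (evTail μ₁) (b g₂) * (b (f₁ g₂))⁻¹,
      mv (evTail μ₂) (b g₁) * (b (f₂ g₁))⁻¹, mv (evTail μ₂) (b g₂) * (b (f₂ g₂))⁻¹,
      cm (ηS (wS d₁)) (mv sh (b g₁)), cm (ηS (wS d₁)) (mv sh (b g₂)),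
      cm (ηS (wS d₂)) (mv sh (b g₁)), cm (ηS (wS d₂)) (mv sh (b g₂))] with hL
  refine ⟨L.toFinset, (List.toFinset_card_le _).trans ?_, ?_⟩
  · simp only [hL, List.length_append, List.length_map, Finset.length_toList, List.length_cons, List.length_nil]
    omega
  rw [List.coe_toFinset]
  -- the model
  let fs : Fin a → SUg (k + 1 + 4) F q := fun i => emb c 0 (by omega) (θS (FreeGroup.of i))
  let fa : Fin 2 → SUg (k + 1 + 4) F q := fun i => pmU (θA (FreeGroup.of i))
  let fM : Fin (a + 2) → SUg (k + 1 + 4) F q := Fin.append fs fa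
  have hMS : ∀ w, FreeGroup.lift fM (ηS w) = emb c 0 (by omega) (θS w) := fun w => DFunLike.congr_fun
    (show (FreeGroup.lift fM).comp ηS = (emb c 0 (show 0 + 4 ≤ k + 1 + 4 by omega)).comp θS from
      FreeGroup.ext_hom _ _ fun i => by simp [ηS, fM, fs, Fin.append_left]) w
  have hMA : ∀ w, FreeGroup.lift fM (ηA w) = pmU (θA w) := fun w => DFunLike.congr_fun
    (show (FreeGroup.lift fM).comp ηA = (pmU (q := q)).comp θA from
      FreeGroup.ext_hom _ _ fun i => by simp [ηA, fM, fa, Fin.append_right]) w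
  have hMb : ∀ z, FreeGroup.lift fM (b z) = emb c 0 (show 0 + 3 ≤ k + 1 + 4 by omega) z := fun z => by
    simp only [b]; rw [hMS, hwS, emb_emb]
  have hd : ∀ z, Commute (FreeGroup.lift fM (ηS (wS d₁))) (FreeGroup.lift fM (mv sh (b z))) ∧
      Commute (FreeGroup.lift fM (ηS (wS d₂))) (FreeGroup.lift fM (mv sh (b z))) := by
    intro z
    simp only [mv, map_mul, map_inv, hMb, hMA, hwA, hMS, hwS]
    by_cases hk : k = 0
    · simp only [d₁, d₂, hk, if_true, emb_emb]
      refine ⟨?_, ?_⟩ <;>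
      · refine model_comm c _ (i := 2) le_rfl sh (fun l hl => ?_) _ z
        rw [hsh5 hk] at hl; exact hl
    · simp only [d₁, d₂, hk, if_false, emb_emb]
      refine ⟨?_, ?_⟩ <;>
      · refine model_comm c _ (i := 3) le_rfl sh (fun l hl => ?_) _ z
        rw [hsh6 (by omega)] at hl; exact hl.1
  have hrel : ∀ x ∈ {x | x ∈ L}, FreeGroup.lift fM x = 1 := by
    intro x hx
    simp only [Set.mem_ofPred_eq, hL, List.mem_append, List.mem_map, List.mem_cons, List.not_mem_nil, or_false] at hx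
    rcases hx with (⟨x, hx, rfl⟩ | ⟨x, hx, rfl⟩) | hx
    · rw [hMS]
      show emb c 0 _ (es (PresentedGroup.mk _ x)) = 1
      rw [PresentedGroup.one_of_mem (Finset.mem_toList.1 hx), map_one, map_one]
    · rw [hMA]
      show pmU (ea (PresentedGroup.mk _ x)) = 1
      rw [PresentedGroup.one_of_mem (Finset.mem_toList.1 hx), map_one, map_one]
    · rcases hx with rfl | rfl | rfl | rfl | rfl | rfl | rfl | rfl | rfl | rfl
      · rw [map_mul, map_inv, mul_inv_eq_one, hMS, hwS, hMA, hwA]; exact emb_pmU_low c rot4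
      · rw [map_mul, map_inv, mul_inv_eq_one, hMS, hwS, hMA, hwA]; exact emb_pmU_low c flip4
      · simp only [mv, map_mul, map_inv, hMb, hMA, hwA, mul_inv_eq_one]; exact hf₁ g₁
      · simp only [mv, map_mul, map_inv, hMb, hMA, hwA, mul_inv_eq_one]; exact hf₁ g₂
      · simp only [mv, map_mul, map_inv, hMb, hMA, hwA, mul_inv_eq_one]; exact hf₂ g₁
      · simp only [mv, map_mul, map_inv, hMb, hMA, hwA, mul_inv_eq_one]; exact hf₂ g₂
      all_goals
        simp only [cm, map_mul, map_inv, mul_inv_eq_one]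
      exacts [(hd g₁).1.eq, (hd g₂).1.eq, (hd g₁).2.eq, (hd g₂).2.eq]
  -- the presented group
  set P := PresentedGroup.of (rels := {x | x ∈ L}) with hP
  have hl : ∀ x ∈ L, FreeGroup.lift P x = 1 := fun x hx => lift_of_eq_one hx
  have hPS : ∀ w, FreeGroup.lift P (ηS w) = FreeGroup.lift (P ∘ Fin.castAdd 2) w := fun w => DFunLike.congr_fun
    (show (FreeGroup.lift P).comp ηS = FreeGroup.lift (P ∘ Fin.castAdd 2) from
      FreeGroup.ext_hom _ _ fun i => by simp [ηS]) w
  have hPA : ∀ w, FreeGroup.lift P (ηA w) = FreeGroup.lift (P ∘ Fin.natAdd a) w := fun w => DFunLike.congr_fun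
    (show (FreeGroup.lift P).comp ηA = FreeGroup.lift (P ∘ Fin.natAdd a) from
      FreeGroup.ext_hom _ _ fun i => by simp [ηA]) w
  have hSrel : ∀ x ∈ (↑Rs : Set (FreeGroup (Fin a))), FreeGroup.lift (P ∘ Fin.castAdd 2) x = 1 := fun x hx => by
    rw [← hPS]
    exact hl _ (List.mem_append_left _ (List.mem_append_left _ (List.mem_map.2 ⟨x, Finset.mem_toList.2 hx, rfl⟩)))
  have hArel : ∀ x ∈ (↑Ra : Set (FreeGroup (Fin 2))), FreeGroup.lift (P ∘ Fin.natAdd a) x = 1 := fun x hx => by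
    rw [← hPA]
    exact hl _ (List.mem_append_left _ (List.mem_append_right _ (List.mem_map.2 ⟨x, Finset.mem_toList.2 hx, rfl⟩)))
  let β : SUg 4 F q →* PresentedGroup {x | x ∈ L} := (PresentedGroup.toGroup hSrel).comp es.symm.toMonoidHom
  let ρ : alternatingGroup (Fin (k + 1 + 4)) →* PresentedGroup {x | x ∈ L} :=
    (PresentedGroup.toGroup hArel).comp ea.symm.toMonoidHom
  have hβ : ∀ w, β (θS w) = FreeGroup.lift P (ηS w) := by
    intro w
    show PresentedGroup.toGroup hSrel (es.symm (es _)) = _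
    rw [es.symm_apply_apply, hPS]
    exact DFunLike.congr_fun (FreeGroup.ext_hom ((PresentedGroup.toGroup hSrel).comp (PresentedGroup.mk _))
      (FreeGroup.lift (P ∘ Fin.castAdd 2)) fun i => by
        show PresentedGroup.toGroup hSrel (PresentedGroup.of i) = _
        rw [PresentedGroup.toGroup.of, FreeGroup.lift_apply_of]) w
  have hρ : ∀ w, ρ (θA w) = FreeGroup.lift P (ηA w) := by
    intro w
    show PresentedGroup.toGroup hArel (ea.symm (ea _)) = _
    rw [ea.symm_apply_apply, hPA]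
    exact DFunLike.congr_fun (FreeGroup.ext_hom ((PresentedGroup.toGroup hArel).comp (PresentedGroup.mk _))
      (FreeGroup.lift (P ∘ Fin.natAdd a)) fun i => by
        show PresentedGroup.toGroup hArel (PresentedGroup.of i) = _
        rw [PresentedGroup.toGroup.of, FreeGroup.lift_apply_of]) w
  have eS : ∀ y, FreeGroup.lift P (ηS (wS y)) = β y := fun y => by rw [← hβ, hwS]
  have eb : ∀ z, FreeGroup.lift P (b z) = β (e43 c z) := fun z => eS _
  have eA : ∀ σ, FreeGroup.lift P (ηA (wA σ)) = ρ σ := fun σ => by rw [← hρ, hwA]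
  let π := PresentedGroup.toGroup (rels := {x | x ∈ L}) (f := fM) hrel
  have hπP : ∀ w, π (FreeGroup.lift P w) = FreeGroup.lift fM w := fun w =>
    DFunLike.congr_fun (FreeGroup.ext_hom (π.comp (FreeGroup.lift P)) (FreeGroup.lift fM) fun i => by
      simp [π, hP]) w
  have h10 : ∀ x ∈ [ηS (wS (pmU rot4)) * (ηA (wA (lowHom rot4)))⁻¹, ηS (wS (pmU flip4)) * (ηA (wA (lowHom flip4)))⁻¹,
      mv (evTail μ₁) (b g₁) * (b (f₁ g₁))⁻¹, mv (evTail μ₁) (b g₂) * (b (f₁ g₂))⁻¹,
      mv (evTail μ₂) (b g₁) * (b (f₂ g₁))⁻¹, mv (evTail μ₂) (b g₂) * (b (f₂ g₂))⁻¹,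
      cm (ηS (wS d₁)) (mv sh (b g₁)), cm (ηS (wS d₁)) (mv sh (b g₂)),
      cm (ηS (wS d₂)) (mv sh (b g₁)), cm (ηS (wS d₂)) (mv sh (b g₂))], FreeGroup.lift P x = 1 := fun x hx =>
    hl x (List.mem_append_right _ hx)
  simp only [List.forall_mem_cons, cm, mv, map_mul, map_inv, eb, eA, eS, mul_inv_eq_one] at h10
  obtain ⟨l1, l2, s11, s12, s21, s22, c11, c12, c21, c22, -⟩ := h10
  have hlow : ∀ τ, ρ (lowHom τ) = β (pmU τ) := by
    intro τ
    have h : Subgroup.closure ({rot4, flip4} : Set (alternatingGroup (Fin 4))) ≤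
        (ρ.comp lowHom).eqLocus (β.comp pmU) := by
      rw [Subgroup.closure_le]
      rintro x (rfl | rfl)
      exacts [l1.symm, l2.symm]
    exact h (closure_alt_four ▸ Subgroup.mem_top τ)
  let N : Subgroup (alternatingGroup (Fin (k + 1 + 4))) :=
    { carrier := {σ | (β.comp (e43 c)).range.map (MulAut.conj (ρ σ)).toMonoidHom = (β.comp (e43 c)).range}
      one_mem' := by
        show Subgroup.map (MulAut.conj (ρ 1)).toMonoidHom _ = _
        rw [map_one, map_one]; exact Subgroup.map_id _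
      mul_mem' := fun {x y} hx hy => by
        show Subgroup.map (MulAut.conj (ρ (x * y))).toMonoidHom _ = _
        rw [map_mul, map_mul]
        show Subgroup.map ((MulAut.conj (ρ x)).toMonoidHom.comp (MulAut.conj (ρ y)).toMonoidHom) _ = _
        rw [← Subgroup.map_map, show Subgroup.map (MulAut.conj (ρ y)).toMonoidHom _ = _ from hy]
        exact hx
      inv_mem' := fun {x} hx => by
        show Subgroup.map (MulAut.conj (ρ x⁻¹)).toMonoidHom _ = _
        conv_lhs => rw [← show Subgroup.map (MulAut.conj (ρ x)).toMonoidHom _ = _ from hx]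
        rw [Subgroup.map_map]
        convert Subgroup.map_id _
        ext g
        simp [mul_assoc] }
  have hN : ∀ (μ : Perm (Fin (k + 2))) (f : SUg 3 F q → SUg 3 F q),
      ρ (evTail μ) * β (e43 c g₁) * (ρ (evTail μ))⁻¹ = β (e43 c (f g₁)) →
      ρ (evTail μ) * β (e43 c g₂) * (ρ (evTail μ))⁻¹ = β (e43 c (f g₂)) → evTail μ ∈ N := by
    intro μ f h1 h2
    have : Finite (β.comp (e43 c)).range := Set.finite_coe_iff.2 (Set.finite_range _)
    refine Subgroup.eq_of_le_of_card_ge ?_ ?_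
    · rintro _ ⟨_, ⟨z, rfl⟩, rfl⟩
      exact mem_of_two hg ((MulAut.conj (ρ (evTail μ))).toMonoidHom.comp (β.comp (e43 c)))
        (β.comp (e43 c)).range ⟨_, h1.symm⟩ ⟨_, h2.symm⟩ z
    · rw [Nat.card_congr ((β.comp (e43 c)).range.equivMapOfInjective (MulAut.conj (ρ (evTail μ))).toMonoidHom
        (MulAut.conj (ρ (evTail μ))).injective).toEquiv]
  have hfix : ∀ μ : Perm (Fin (k + 2)), evTail μ ∈ N := evTail_mem (hN μ₁ f₁ s11 s12) (hN μ₂ f₂ s21 s22)
  have col : ∀ x, Commute x (ρ sh * β (e43 c g₁) * (ρ sh)⁻¹) → Commute x (ρ sh * β (e43 c g₂) * (ρ sh)⁻¹) →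
      ∀ z, Commute x (ρ sh * β (e43 c z) * (ρ sh)⁻¹) := fun x h1 h2 z =>
    (Subgroup.mem_centralizer_singleton_iff.1
      (mem_of_two hg ((MulAut.conj (ρ sh)).toMonoidHom.comp (β.comp (e43 c))) (Subgroup.centralizer {x})
        (Subgroup.mem_centralizer_singleton_iff.2 h1.eq.symm) (Subgroup.mem_centralizer_singleton_iff.2 h2.eq.symm)
        z)).symm
  let S : Setting4 c k (PresentedGroup {x | x ∈ L}) :=
    { π := π, ρ := ρ, β := β
      π_ρ := fun σ => by rw [← eA, hπP, hMA, hwA]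
      π_β := fun z => by rw [← hwS z, hβ, hπP, hMS]
      low := hlow
      fix := fun μ z => by
        have h : ρ (evTail μ) * β (e43 c z) * (ρ (evTail μ))⁻¹ ∈ (β.comp (e43 c)).range :=
          (show _ = (β.comp (e43 c)).range from hfix μ) ▸ ⟨_, ⟨z, rfl⟩, rfl⟩
        obtain ⟨z', e⟩ := h
        exact ⟨z', e.symm⟩
      sh := sh
      sh_five := hsh5
      sh_six := hsh6
      disj_five := fun hk x z => by
        simp only [d₁, d₂, hk, if_true] at c11 c12 c21 c22
        exact Subgroup.mem_centralizer_singleton_iff.1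
          (mem_of_two hu (β.comp (emb c 0 (show 0 + 2 ≤ 4 by omega)))
            (Subgroup.centralizer {ρ sh * β (e43 c z) * (ρ sh)⁻¹})
            (Subgroup.mem_centralizer_singleton_iff.2 (col _ c11 c12 z).eq)
            (Subgroup.mem_centralizer_singleton_iff.2 (col _ c21 c22 z).eq) x)
      disj_six := fun hk x z => by
        simp only [d₁, d₂, show ¬ k = 0 by omega, if_false] at c11 c12 c21 c22
        exact Subgroup.mem_centralizer_singleton_iff.1
          (mem_of_two hg (β.comp (e43 c)) (Subgroup.centralizer {ρ sh * β (e43 c z) * (ρ sh)⁻¹})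
            (Subgroup.mem_centralizer_singleton_iff.2 (col _ c11 c12 z).eq)
            (Subgroup.mem_centralizer_singleton_iff.2 (col _ c21 c22 z).eq) x) }
  refine ⟨MulEquiv.ofBijective S.π (S.bijective hF ?_)⟩
  rw [eq_top_iff, ← PresentedGroup.closure_range_of, Subgroup.closure_le]
  rintro _ ⟨i, rfl⟩
  refine Fin.addCases (fun i => ?_) (fun i => ?_) i
  · refine Subgroup.mem_sup_right ⟨θS (FreeGroup.of i), ?_⟩
    show β _ = _
    rw [hβ, hPS, FreeGroup.lift_apply_of]; rfl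
  · refine Subgroup.mem_sup_left ⟨θA (FreeGroup.of i), ?_⟩
    show ρ _ = _
    rw [hρ, hPA, FreeGroup.lift_apply_of]; rfl

end CfsgLib.SUPres
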