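import Cfsg.Agent.Lib.SUPres.Main
import Cfsg.Agent.Lib.SUPres.QuadMain
import Cfsg.Agent.Lib.SUPres.Base.SU42Pres
import Cfsg.Agent.Lib.SUPres.Base.SU43Pres
import Cfsg.Agent.Lib.SUPres.Base.SU33Pres
import Cfsg.Agent.Lib.SUPres.Base.SU35Pres
import Cfsg.Agent.Lib.SUPres.Base.Small
import Cfsg.Agent.Lib.SLnPres.SmallAlt
import Cfsg.Agent.Lib.SLnPres.Main
import Cfsg.Agent.S2289

/-!
Short presentations of `SU_n(q)` and `PSU_n(q)` for all prime powers `q`.
-/

set_option autoImplicit false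
set_option linter.unusedSectionVars false

namespace CfsgLib.SUPres

open CfsgLib.SUAmalgam CfsgLib.ClassicalForms
open CfsgLib.ShortPres (HasPres)

universe u

variable {F : Type u} [Field F] [Finite F] {q : ℕ}

theorem two_le_base (hF : Nat.card F = q ^ 2) : 2 ≤ q := by
  have := Finite.one_lt_card (α := F)
  rcases q with _ | _ | q <;> simp_all

/-- `SU₃(q)` on three generators, `q > 2`. -/
theorem su_three (hF : Nat.card F = q ^ 2) (hq : 2 < q) : HasPres (SUg 3 F q) 3 23 := by
  have := Fintype.ofFinite F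
  by_cases h3 : q = 3
  · subst h3; exact (Base.su_three_three hF).mono (by decide +kernel)
  by_cases h5 : q = 5
  · subst h5; exact (Base.su_three_five hF).mono (by decide +kernel)
  exact (Cfsg.Agent.S2289.result q (by rw [← Nat.card_eq_fintype_card, hF]) (by omega) h3 h5).1

/-- The alternating groups on at most three or six relations. -/
theorem alt_small (n : ℕ) : HasPres ↥(alternatingGroup (Fin n)) 2 (if n = 4 ∨ n = 5 then 3 else 6) := by
  split_ifs with h
  · rcases h with rfl | rfl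
    exacts [CfsgLib.SLnPres.alt_four', Base.alt_five_three]
  · exact CfsgLib.ShortPres.alt_pres n

/-- `SU_n(q)`, `n ≥ 4`, on six generators. -/
theorem su_six (hF : Nat.card F = q ^ 2) {n : ℕ} (hn : 4 ≤ n) :
    HasPres (SUg n F q) 6 (if n ≤ 5 then 35 else 39) := by
  have := Fintype.ofFinite F
  have h2 := two_le_base hF
  obtain ⟨k, rfl⟩ : ∃ k, n = k + 4 := ⟨n - 4, by omega⟩
  by_cases hq : 3 < q
  · have h := presentation hF hq k (su_three hF (by omega)) (alt_small (k + 4))
    refine (CfsgLib.SLnPres.hasPres_succ h).mono ?_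
    rw [extra]
    split_ifs <;> omega
  obtain ⟨r, hr, h4, hG⟩ : ∃ r, r ≤ 16 ∧ HasPres (SUg 4 F q) 4 r ∧
      ∃ g₁ g₂ : SUg 3 F q, Subgroup.closure ({g₁, g₂} : Set (SUg 3 F q)) = ⊤ := by
    rcases (show q = 2 ∨ q = 3 by omega) with rfl | rfl
    · exact ⟨_, by decide +kernel, Base.su_four_two hF, Base.su_three_two_gens hF⟩
    · exact ⟨_, by decide +kernel, Base.su_four_three hF, Base.su_three_three_gens hF⟩
  rcases k with _ | k
  · refine (CfsgLib.SLnPres.hasPres_succ (CfsgLib.SLnPres.hasPres_succ h4)).mono ?_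
    split_ifs <;> omega
  · refine (presentation_quad hF k h4 (alt_small (k + 1 + 4)) hG).mono ?_
    split_ifs <;> omega

/-- `PSU_n(q)`, `n ≥ 3`, `(n, q) ≠ (3, 2)`, on few relations. -/
theorem psu_any (hF : Nat.card F = q ^ 2) {n : ℕ} (hn : 3 ≤ n) (h32 : ¬ (n = 3 ∧ q = 2)) :
    ∃ a, HasPres (Cfsg.PSU n F q) a 40 := by
  have h2 := two_le_base hF
  rcases (show n = 3 ∨ 4 ≤ n by omega) with rfl | h
  · exact ⟨3, (hasPres_psu hF (by omega) (su_three hF (by omega))).mono (by omega)⟩
  · refine ⟨6, (hasPres_psu hF (by omega) (su_six hF h)).mono ?_⟩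
    split_ifs <;> omega

end CfsgLib.SUPres
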