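import Cfsg.Agent.Lib.SUPres.Trans
import Cfsg.Agent.Lib.SUAmalgam.Cover
import Cfsg.Agent.Lib.SUAmalgam.Pairs

/-!
For every field order, a group over `SU_m(q)` generated by copies of the blocks on three consecutive coordinates is
`SU_m(q)` as soon as neighbouring blocks generate faithfully and the usual commutations hold.
-/

set_option autoImplicit false
set_option linter.unusedSectionVars false

open Matrix

namespace CfsgLib.SUPres

open CfsgLib.SUAmalgam CfsgLib.ClassicalForms

variable {F : Type*} [Field F] [Finite F] {q m : ℕ}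

/-- A group over the special unitary group with copies of the blocks on three consecutive coordinates. -/
structure Cover3 (c : Conj F q) (m : ℕ) (K : Type*) [Group K] where
  π : K →* SUg m F q
  T : ℕ → Subgroup K
  hm : 4 ≤ m
  map_T : ∀ i, i + 3 ≤ m → (T i).map π = Blk c m i 3
  inj : ∀ i, i + 4 ≤ m → KerFree π (T i ⊔ T (i + 1))
  comm : ∀ i j, i + 3 ≤ j → j + 3 ≤ m → ∀ a ∈ T i, ∀ b ∈ T j, Commute a b
  commL : ∀ i, i + 5 ≤ m → ∀ a ∈ T i, π a ∈ Blk c m i 2 → ∀ b ∈ T (i + 2), Commute a b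
  commR : ∀ i, i + 5 ≤ m → ∀ a ∈ T i, ∀ b ∈ T (i + 2), π b ∈ Blk c m (i + 3) 2 → Commute a b

namespace Cover3

variable {c : Conj F q} {K : Type*} [Group K] (C : Cover3 c m K)

/-- The group generated by the blocks inside an interval. -/
def G (a l : ℕ) : Subgroup K :=
  Subgroup.closure {x | ∃ i, a ≤ i ∧ i + 3 ≤ a + l ∧ x ∈ C.T i}

theorem T_le_G {a l i : ℕ} (h : a ≤ i) (h' : i + 3 ≤ a + l) : C.T i ≤ C.G a l := fun _ hx =>
  Subgroup.subset_closure ⟨i, h, h', hx⟩

theorem G_le {a l : ℕ} {H : Subgroup K} (h : ∀ i, a ≤ i → i + 3 ≤ a + l → C.T i ≤ H) : C.G a l ≤ H :=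
  (Subgroup.closure_le _).2 (by rintro x ⟨i, h1, h2, hx⟩; exact h i h1 h2 hx)

theorem G_mono {a l a' l' : ℕ} (h : a' ≤ a) (h' : a + l ≤ a' + l') : C.G a l ≤ C.G a' l' :=
  C.G_le fun _ h1 h2 => C.T_le_G (h.trans h1) (h2.trans h')

theorem map_mem_T {i : ℕ} (hi : i + 3 ≤ m) {x : K} (hx : x ∈ C.T i) : C.π x ∈ Blk c m i 3 :=
  (C.map_T i hi).le ⟨x, hx, rfl⟩

theorem map_mem_G {a l : ℕ} (hal : a + l ≤ m) {x : K} (hx : x ∈ C.G a l) : C.π x ∈ Blk c m a l := by
  suffices h : C.G a l ≤ (Blk c m a l).comap C.π from h hx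
  exact C.G_le fun i h1 h2 y hy => Blk_mono c h1 h2 (C.map_mem_T (by omega) hy)

/-- The interval is faithfully covered. -/
structure Good (a l : ℕ) : Prop where
  inj : KerFree C.π (C.G a l)
  map : Blk c m a l ≤ (C.G a l).map C.π

variable {C}

/-- Membership can be checked in the model. -/
theorem Good.pull {a l : ℕ} (h : C.Good a l) {Y : Subgroup K} (hY : Y ≤ C.G a l) {x : K} (hx : x ∈ C.G a l)
    (hπ : C.π x ∈ Y.map C.π) : x ∈ Y := by
  obtain ⟨y, hy, e⟩ := hπ
  rwa [h.inj.eq hx (hY hy) e.symm]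

theorem Good.exists_of_mem {a l : ℕ} (h : C.Good a l) {g : SUg m F q} (hg : g ∈ Blk c m a l) :
    ∃ x ∈ C.G a l, C.π x = g := h.map hg

variable (C)

theorem good_three {a : ℕ} (ha : a + 3 ≤ m) : C.Good a 3 := by
  have hle : C.G a 3 ≤ C.T a := C.G_le fun i h1 h2 => le_of_eq (congrArg C.T (show i = a by omega))
  refine ⟨fun x hx h1 => ?_, fun g hg => ?_⟩
  · by_cases h : a + 4 ≤ m
    · exact C.inj a h x (Subgroup.mem_sup_left (hle hx)) h1
    · have := C.hm
      obtain ⟨b, rfl⟩ : ∃ b, a = b + 1 := ⟨a - 1, by omega⟩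
      exact C.inj b (by omega) x (Subgroup.mem_sup_right (hle hx)) h1
  · obtain ⟨x, hx, rfl⟩ := (C.map_T a ha).ge hg
    exact ⟨x, C.T_le_G le_rfl le_rfl hx, rfl⟩

theorem good_four (hF : Nat.card F = q ^ 2) {a : ℕ} (ha : a + 4 ≤ m) : C.Good a 4 := by
  have hle : C.G a 4 ≤ C.T a ⊔ C.T (a + 1) := C.G_le fun i h1 h2 => by
    rcases (show i = a ∨ i = a + 1 by omega) with rfl | rfl
    exacts [le_sup_left, le_sup_right]
  refine ⟨fun x hx h1 => C.inj a ha x (hle hx) h1, fun g hg => ?_⟩
  have h := Blk_le_sup c hF le_rfl ha hg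
  suffices e : Blk c m a 2 ⊔ Blk c m (a + 1) (4 - 1) ≤ (C.G a 4).map C.π from e h
  refine sup_le ?_ ?_
  · refine (Blk_mono c (r' := 3) le_rfl (by omega)).trans ?_
    rw [← C.map_T a (by omega)]
    exact Subgroup.map_mono (C.T_le_G le_rfl (by omega))
  · rw [← C.map_T (a + 1) (by omega)]
    exact Subgroup.map_mono (C.T_le_G (by omega) (by omega))

/-- One step of the induction. -/
structure Lvl where
  k : ℕ
  l : ℕ
  hl : 5 ≤ l
  hkl : k + l ≤ m
  hG : ∀ a l', 3 ≤ l' → l' < l → a + l' ≤ m → C.Good a l'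
  hF : Nat.card F = q ^ 2

namespace Lvl

variable {C} (D : C.Lvl)

/-- The interval without its last coordinate. -/
def A : Subgroup K := C.G D.k (D.l - 1)

/-- The interval without its first coordinate. -/
def B : Subgroup K := C.G (D.k + 1) (D.l - 1)

/-- The interval without its two ends. -/
def M : Subgroup K := C.G (D.k + 1) (D.l - 2)

/-- The interval without its first two coordinates. -/
def U : Subgroup K := C.G (D.k + 2) (D.l - 2)

/-- The first small block. -/
def P : Subgroup K := C.T D.k ⊓ (Blk c m D.k 2).comap C.π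

/-- The last coordinates, from the fourth on. -/
def R : Subgroup K := D.U ⊓ (Blk c m (D.k + 3) (D.l - 3)).comap C.π

/-- The first coordinate vector. -/
def e : Fin m → F := ev m F D.k

theorem goodA : C.Good D.k (D.l - 1) := by
  have := D.hl; have := D.hkl; exact D.hG _ _ (by omega) (by omega) (by omega)

theorem goodB : C.Good (D.k + 1) (D.l - 1) := by
  have := D.hl; have := D.hkl; exact D.hG _ _ (by omega) (by omega) (by omega)

theorem goodM : C.Good (D.k + 1) (D.l - 2) := by
  have := D.hl; have := D.hkl; exact D.hG _ _ (by omega) (by omega) (by omega)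

theorem goodU : C.Good (D.k + 2) (D.l - 2) := by
  have := D.hl; have := D.hkl; exact D.hG _ _ (by omega) (by omega) (by omega)

theorem M_le_A : D.M ≤ D.A := by have := D.hl; exact C.G_mono (by omega) (by omega)

theorem M_le_B : D.M ≤ D.B := by have := D.hl; exact C.G_mono le_rfl (by omega)

theorem U_le_B : D.U ≤ D.B := by have := D.hl; exact C.G_mono (by omega) (by omega)

theorem R_le_B : D.R ≤ D.B := inf_le_left.trans D.U_le_B

theorem T_le_A : C.T D.k ≤ D.A := by have := D.hl; exact C.T_le_G le_rfl (by omega)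

theorem P_le_A : D.P ≤ D.A := inf_le_left.trans D.T_le_A

theorem π_A {x : K} (hx : x ∈ D.A) : C.π x ∈ Blk c m D.k (D.l - 1) :=
  C.map_mem_G (by have := D.hkl; omega) hx

theorem π_B {x : K} (hx : x ∈ D.B) : C.π x ∈ Blk c m (D.k + 1) (D.l - 1) :=
  C.map_mem_G (by have := D.hl; have := D.hkl; omega) hx

theorem π_M {x : K} (hx : x ∈ D.M) : C.π x ∈ Blk c m (D.k + 1) (D.l - 2) :=
  C.map_mem_G (by have := D.hl; have := D.hkl; omega) hx

theorem π_U {x : K} (hx : x ∈ D.U) : C.π x ∈ Blk c m (D.k + 2) (D.l - 2) :=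
  C.map_mem_G (by have := D.hl; have := D.hkl; omega) hx

theorem B_fix {x : K} (hx : x ∈ D.B) : act (C.π x) D.e = D.e :=
  act_ev_Blk c (D.π_B hx) (Or.inl (Nat.lt_succ_self _))

theorem exists_P {g : SUg m F q} (hg : g ∈ Blk c m D.k 2) : ∃ x ∈ D.P, C.π x = g := by
  have := D.hl; have := D.hkl
  obtain ⟨x, hx, rfl⟩ := (C.map_T D.k (by omega)).ge (Blk_mono c le_rfl (by omega) hg)
  exact ⟨x, ⟨hx, hg⟩, rfl⟩

theorem exists_T {g : SUg m F q} (hg : g ∈ Blk c m D.k 3) : ∃ x ∈ C.T D.k, C.π x = g := by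
  have := D.hl; have := D.hkl
  exact (C.map_T D.k (by omega)).ge hg

theorem exists_R {g : SUg m F q} (hg : g ∈ Blk c m (D.k + 3) (D.l - 3)) : ∃ x ∈ D.R, C.π x = g := by
  have := D.hl; have := D.hkl
  obtain ⟨x, hx, rfl⟩ := D.goodU.exists_of_mem (Blk_mono c (by omega) (by omega) hg)
  exact ⟨x, ⟨hx, hg⟩, rfl⟩

theorem comm_P_U {s b : K} (hs : s ∈ D.P) (hb : b ∈ D.U) : Commute s b := by
  suffices h : D.U ≤ Subgroup.centralizer {s} from (Subgroup.mem_centralizer_singleton_iff.1 (h hb)).symm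
  have := D.hl; have := D.hkl
  refine C.G_le fun i h1 h2 y hy => Subgroup.mem_centralizer_singleton_iff.2 ?_
  rcases eq_or_lt_of_le h1 with rfl | h1'
  · exact (C.commL D.k (by omega) s hs.1 hs.2 y hy).eq.symm
  · exact (C.comm D.k i (by omega) (by omega) s hs.1 y hy).eq.symm

theorem comm_T_R {t b : K} (ht : t ∈ C.T D.k) (hb : b ∈ D.R) : Commute t b := by
  have := D.hl; have := D.hkl
  rcases (show D.l = 5 ∨ 6 ≤ D.l by omega) with h5 | h6
  · have hle : D.U ≤ C.T (D.k + 2) := C.G_le fun i h1 h2 => le_of_eq (congrArg C.T (by omega))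
    refine C.commR D.k (by omega) t ht b (hle hb.1) ?_
    have h : C.π b ∈ Blk c m (D.k + 3) (D.l - 3) := hb.2
    rwa [show D.l - 3 = 2 by omega] at h
  · have hV : C.Good (D.k + 3) (D.l - 3) := D.hG _ _ (by omega) (by omega) (by omega)
    have hb' : b ∈ C.G (D.k + 3) (D.l - 3) :=
      D.goodU.pull (C.G_mono (by omega) (by omega)) hb.1 (hV.map hb.2)
    suffices h : C.G (D.k + 3) (D.l - 3) ≤ Subgroup.centralizer {t} from
      (Subgroup.mem_centralizer_singleton_iff.1 (h hb')).symm
    exact C.G_le fun i h1 h2 y hy => Subgroup.mem_centralizer_singleton_iff.2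
      (C.comm D.k i (by omega) (by omega) t ht y hy).eq.symm

theorem B_le : D.B ≤ D.M ⊔ D.U := by
  have := D.hl; have := D.hkl
  refine C.G_le fun i h1 h2 => ?_
  rcases eq_or_lt_of_le h1 with rfl | h1'
  · exact le_sup_of_le_left (C.T_le_G le_rfl (by omega))
  · exact le_sup_of_le_right (C.T_le_G h1' (by omega))

theorem A_le : D.A ≤ D.M ⊔ D.P := by
  have := D.hl; have := D.hkl
  intro x hx
  refine D.goodA.pull (sup_le D.M_le_A D.P_le_A) hx ?_
  have h := Blk_le_sup c D.hF (show 4 ≤ D.l - 1 by omega) (show D.k + (D.l - 1) ≤ m by omega) (D.π_A hx)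
  rw [show D.l - 1 - 1 = D.l - 2 by omega] at h
  suffices e : Blk c m D.k 2 ⊔ Blk c m (D.k + 1) (D.l - 2) ≤ (D.M ⊔ D.P).map C.π from e h
  refine sup_le (fun g hg => ?_) (D.goodM.map.trans (Subgroup.map_mono le_sup_left))
  obtain ⟨y, hy, rfl⟩ := D.exists_P hg
  exact ⟨y, Subgroup.mem_sup_right hy, rfl⟩

theorem whole_le : C.G D.k D.l ≤ D.B ⊔ D.P := by
  have := D.hl; have := D.hkl
  refine C.G_le fun i h1 h2 => ?_
  rcases eq_or_lt_of_le h1 with rfl | h1'
  · exact D.T_le_A.trans (D.A_le.trans (sup_le_sup_right D.M_le_B _))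
  · exact le_sup_of_le_left (C.T_le_G h1' (by omega))

/-- The stabiliser of the first vector inside the interval without its last coordinate. -/
theorem mem_M {x : K} (hx : x ∈ D.A) (he : act (C.π x) D.e = D.e) : x ∈ D.M := by
  have := D.hl; have := D.hkl
  have h := D.π_A hx
  rw [show D.l - 1 = D.l - 2 + 1 by omega] at h
  exact D.goodA.pull D.M_le_A hx (D.goodM.map (Blk_step c h he))

/-- Points of the orbit of the first vector inside the interval without its last coordinate. -/
theorem exists_A {y : Fin m → F} (hy : Ins D.k (D.k + D.l - 1) y) (h1 : Cfsg.hermForm m F q y y = 1) :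
    ∃ a ∈ D.A, act (C.π a) D.e = y := by
  have := D.hl; have := D.hkl
  have hout : ∀ j, j < D.k ∨ D.k + (D.l - 1) ≤ j → co D.e j = co y j := fun j hj => by
    rw [e, co_ev (by omega), if_neg (by omega), hy j (by omega)]
  obtain ⟨g, hg, hge⟩ := move_two' c D.hF (show 2 ≤ D.l - 1 by omega) (show D.k + (D.l - 1) ≤ m by omega)
    (x := D.e) (y := y) hout (by rw [e, herm_ev c (by omega), h1]) (by
      rw [herm_split c D.k (r := D.l - 1) (by omega) y y, finsum_eq_zero_of_forall_eq_zero fun k => ?_,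
        add_zero] at h1
      · unfold win
        rw [h1]; exact one_ne_zero
      · have := hy _ ((notMem_range_shift D.k (by omega)).1 k.2 |>.imp_right (by omega))
        rw [co_apply] at this
        rw [this, zero_mul])
  obtain ⟨a, ha, rfl⟩ := D.goodA.exists_of_mem hg
  exact ⟨a, ha, hge⟩

/-- An element of the inner block moving the third coordinate vector by a multiple of an isotropic vector that it
fixes. -/
theorem exists_eichler {z : Fin m → F} (hz : Ins (D.k + 1) (D.k + 3) z)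
    (hzz : Cfsg.hermForm m F q z z = 0) (t : F) :
    ∃ g ∈ Blk c m (D.k + 1) 3, act g z = z ∧ act g (t • z + ev m F (D.k + 3)) = ev m F (D.k + 3) := by
  have := D.hl; have := D.hkl
  obtain ⟨θ, hθ⟩ := c.exists_trace_one
  set d := ev m F (D.k + 3)
  set z1 := co z (D.k + 1) with hz1
  set z2 := co z (D.k + 2) with hz2
  have hn : z1 * c.σ z1 + z2 * c.σ z2 = 0 := by
    rw [herm_pair c (by omega) hz] at hzz; exact hzz
  set p := -(θ * (t * c.σ t)) with hp
  have hpp : p + c.σ p + t * c.σ t = 0 := by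
    rw [hp, map_neg, map_mul, map_mul, c.invol]
    linear_combination -(t * c.σ t) * hθ
  let A : Matrix (Fin 3) (Fin 3) F := !![1 + p * z1 * c.σ z1, p * z1 * c.σ z2, -(t * z1);
    p * z2 * c.σ z1, 1 + p * z2 * c.σ z2, -(t * z2);
    c.σ t * c.σ z1, c.σ t * c.σ z2, 1]
  have hdet : A.det = 1 := by
    simp only [A, Matrix.det_fin_three, Matrix.of_apply, Matrix.cons_val', Matrix.cons_val_zero,
      Matrix.cons_val_one, Matrix.cons_val, Matrix.cons_val_fin_one]
    linear_combination (p + t * c.σ t) * hn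
  have hA : ∀ x y, Cfsg.hermForm 3 F q (A *ᵥ x) (A *ᵥ y) = Cfsg.hermForm 3 F q x y := by
    intro x y
    simp only [c.herm_apply, A, Fin.sum_univ_three, Matrix.mulVec, dotProduct, Matrix.of_apply,
      Matrix.cons_val', Matrix.cons_val_zero, Matrix.cons_val_one, Matrix.cons_val, Matrix.cons_val_fin_one,
      map_add, map_mul, map_one, map_neg, c.invol]
    linear_combination
      ((x 0 * c.σ z1 + x 1 * c.σ z2) * (c.σ (y 0) * z1 + c.σ (y 1) * z2)) * hpp +
      ((p * (x 0 * c.σ z1 + x 1 * c.σ z2) - t * x 2) *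
        (c.σ p * (c.σ (y 0) * z1 + c.σ (y 1) * z2) - c.σ t * c.σ (y 2))) * hn
  have hfix : ∀ x, Ins (D.k + 1) (D.k + 4) x → ∀ w : Fin 3 → F,
      act (SUAmalgam.mk A hdet hA) ![co x (D.k + 1), co x (D.k + 2), co x (D.k + 3)] = w →
      ∀ y : Fin m → F, Ins (D.k + 1) (D.k + 4) y →
      w = ![co y (D.k + 1), co y (D.k + 2), co y (D.k + 3)] →
      act (emb c (D.k + 1) (show D.k + 1 + 3 ≤ m by omega) (SUAmalgam.mk A hdet hA)) x = y := by
    intro x hx w hw y hy hwy
    have hwin : ∀ x : Fin m → F, win (D.k + 1) (show D.k + 1 + 3 ≤ m by omega) x =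
        ![co x (D.k + 1), co x (D.k + 2), co x (D.k + 3)] := fun x => funext fun a => by
      fin_cases a <;> simp [win, shift, co, show D.k + 1 < m by omega, show D.k + 2 < m by omega,
        show D.k + 3 < m by omega]
    refine act_emb_eq c _ (fun j hj => by rw [hx j hj, hy j hj]) ?_
    rw [hwin, hwin, hw, hwy]
  refine ⟨emb c (D.k + 1) (show D.k + 1 + 3 ≤ m by omega) (SUAmalgam.mk A hdet hA), emb_mem_Blk c _ _ _, ?_, ?_⟩
  · have hz' : Ins (D.k + 1) (D.k + 4) z := hz.mono le_rfl (by omega)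
    refine hfix z hz' _ rfl z hz' ?_
    rw [← hz1, ← hz2, hz (D.k + 3) (Or.inr le_rfl)]
    funext a
    fin_cases a <;>
      simp [act, A, Matrix.mulVec, dotProduct, Fin.sum_univ_three]
    · linear_combination (p * z1) * hn
    · linear_combination (p * z2) * hn
    · linear_combination c.σ t * hn
  · have hd : ∀ j, co d j = if j = D.k + 3 then 1 else 0 := fun j => co_ev (by omega) j
    refine hfix _ (fun j hj => by rw [co_add, co_smul, hz j (by omega), hd, if_neg (by omega)]; simp) _ rfl d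
      (ins_ev (by omega) (by omega) (by omega)) ?_
    rw [co_add, co_add, co_add, co_smul, co_smul, co_smul, ← hz1, ← hz2, hz (D.k + 3) (Or.inr le_rfl), hd, hd, hd]
    funext a
    fin_cases a <;>
      simp [act, A, Matrix.mulVec, dotProduct, Fin.sum_univ_three]
    · linear_combination (p * t * z1) * hn
    · linear_combination (p * t * z2) * hn
    · linear_combination (t * c.σ t) * hn

/-- The stabiliser of an isotropic vector on the second and third coordinates. -/
theorem stab_iso {z : Fin m → F} (hz : Ins (D.k + 1) (D.k + 3) z) (hzz : Cfsg.hermForm m F q z z = 0)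
    (hz0 : co z (D.k + 1) ≠ 0) {d : K} (hd : d ∈ D.B) (hdz : act (C.π d) z = z) :
    d ∈ Subgroup.closure ({x | x ∈ D.M ∧ act (C.π x) z = z} ∪ (D.R : Set K)) := by
  have := D.hl; have := D.hkl
  set H := Subgroup.closure ({x | x ∈ D.M ∧ act (C.π x) z = z} ∪ (D.R : Set K))
  have hHB : H ≤ D.B := by
    rw [Subgroup.closure_le]
    rintro x (hx | hx)
    exacts [D.M_le_B hx.1, D.R_le_B hx]
  have hRz : ∀ x ∈ D.R, act (C.π x) z = z := fun x hx => act_fix_of_support fun j => by
    by_cases hj : (j : ℕ) < D.k + 3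
    · exact Or.inl (hx.2 j (Or.inl hj))
    · exact Or.inr (by rw [← co_apply z]; exact hz j (Or.inr (by omega)))
  have hiR : ∀ {g}, g ∈ Blk c m (D.k + 3) (D.l - 3) → ∃ x ∈ H, C.π x = g := fun hg => by
    obtain ⟨x, hx, e⟩ := D.exists_R hg
    exact ⟨x, Subgroup.subset_closure (Or.inr hx), e⟩
  set last := D.k + D.l - 1
  set v := act (C.π d) (ev m F last) with hv
  have hvI : Ins (D.k + 1) (D.k + D.l) v :=
    Ins.act (D.π_B hd) le_rfl (by omega) (ins_ev (by omega) (by omega) (by omega))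
  have hvv : Cfsg.hermForm m F q v v = 1 := by rw [hv, herm_act, herm_ev c (by omega)]
  have hzv : Cfsg.hermForm m F q z v = 0 := by
    conv_lhs => rw [← hdz, hv]
    rw [herm_act, show ev m F last = Pi.single (⟨last, by omega⟩ : Fin m) 1 from ev_eq_single ⟨last, by omega⟩,
      c.single_right, ← co_mk z, hz last (Or.inr (by omega))]
  rw [herm_pair c (by omega) hz] at hzz hzv
  set t := co v (D.k + 1) / co z (D.k + 1) with ht
  have hv1 : co v (D.k + 1) = t * co z (D.k + 1) := by rw [ht, div_mul_cancel₀ _ hz0]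
  have hz2 : co z (D.k + 2) ≠ 0 := fun e => by
    rw [e, zero_mul, add_zero, mul_eq_zero] at hzz
    exact hz0 (hzz.elim id c.eq_zero)
  have hv2 : co v (D.k + 2) = t * co z (D.k + 2) := by
    have h1 := congrArg c.σ hzv
    rw [map_add, map_mul, map_mul, c.invol, c.invol, map_zero, hv1] at h1
    have h2 : c.σ (co z (D.k + 2)) * (co v (D.k + 2) - t * co z (D.k + 2)) = 0 := by
      linear_combination h1 - t * hzz
    rcases mul_eq_zero.1 h2 with h | h
    · exact absurd (c.eq_zero h) hz2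
    · exact sub_eq_zero.1 h
  set y := t • z + ev m F (D.k + 3) with hy
  have hyc : ∀ j, co y j = t * co z j + if j = D.k + 3 then 1 else 0 := fun j => by
    rw [hy, co_add, co_smul, co_ev (by omega)]
  have hyy : Cfsg.hermForm m F q y y = 1 := by
    have e : ev m F (D.k + 3) = Pi.single (⟨D.k + 3, by omega⟩ : Fin m) 1 := ev_eq_single ⟨D.k + 3, by omega⟩
    rw [hy, c.add_left, c.add_right, c.add_right, c.smul_left, c.smul_left, c.smul_right, herm_pair c (by omega) hz,
      hzz, e, c.single_right, c.single_left]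
    simp [c.smul_right, ← co_mk z, hz (D.k + 3) (Or.inr le_rfl), c.single_right]
  obtain ⟨g1, hg1, e1⟩ := move_two' c D.hF (show 2 ≤ D.l - 3 by omega) (i := D.k + 3) (by omega) (x := v) (y := y)
    (fun j hj => by
      rw [hyc, if_neg (show j ≠ D.k + 3 by omega), add_zero]
      rcases (show j = D.k + 1 ∨ j = D.k + 2 ∨ (j < D.k + 1 ∨ D.k + D.l ≤ j) by omega) with rfl | rfl | hj'
      · exact hv1
      · exact hv2
      · rw [hvI j hj', hz j (by omega), mul_zero])
    (hvv.trans hyy.symm) (by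
      rw [c.herm_apply, Finset.sum_eq_single ⟨0, by omega⟩]
      · simp [win, ← co_apply y, shift, hyc, hz (D.k + 3) (Or.inr le_rfl)]
      · intro a _ ha
        have : (a : ℕ) ≠ 0 := fun h => ha (Fin.ext h)
        simp [win, ← co_apply y, shift, hyc, hz (D.k + 3 + a) (Or.inr (by omega)), this]
      · simp)
  obtain ⟨g2, hg2, e2z, e2⟩ := D.exists_eichler hz (by rw [herm_pair c (by omega) hz]; exact hzz) t
  obtain ⟨g3, hg3, e3⟩ := move_two' c D.hF (show 2 ≤ D.l - 3 by omega) (i := D.k + 3) (by omega)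
    (x := ev m F (D.k + 3)) (y := ev m F last)
    (fun j hj => by rw [co_ev (by omega), co_ev (by omega), if_neg (by omega), if_neg (by omega)])
    (by rw [herm_ev c (by omega), herm_ev c (by omega)]) (by
      rw [c.herm_apply, Finset.sum_eq_single ⟨D.l - 4, by omega⟩]
      · simp [win, ev, shift, show D.k + 3 + (D.l - 4) = last by omega]
      · intro a _ ha
        have : (a : ℕ) ≠ D.l - 4 := fun h => ha (Fin.ext h)
        simp [win, ev, shift, show D.k + 3 + (a : ℕ) ≠ last by omega]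
      · simp)
  obtain ⟨r1, hr1, p1⟩ := hiR hg1
  obtain ⟨r3, hr3, p3⟩ := hiR hg3
  obtain ⟨c2, hc2, p2⟩ := D.goodM.exists_of_mem (Blk_mono c le_rfl (by omega) hg2)
  have hc2H : c2 ∈ H := Subgroup.subset_closure (Or.inl ⟨hc2, by rw [p2, e2z]⟩)
  set p := r3 * c2 * r1
  have hp : p ∈ H := mul_mem (mul_mem hr3 hc2H) hr1
  have hHz : ∀ x ∈ H, act (C.π x) z = z := by
    intro x hx
    induction hx using Subgroup.closure_induction with
    | mem x hx => exact hx.elim (fun h => h.2) (hRz x)
    | one => simp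
    | mul x y _ _ hx hy => rw [map_mul, act_mul, hy, hx]
    | inv x _ hx => conv_lhs => rw [map_inv, ← hx, act_inv_act]
  have hpd : act (C.π (p * d)) (ev m F last) = ev m F last := by
    rw [map_mul, map_mul, map_mul, act_mul, ← hv, act_mul, act_mul, p1, p2, p3, e1, hy, e2, e3]
  have hpdB : p * d ∈ D.B := mul_mem (hHB hp) hd
  have hpdM : p * d ∈ D.M := by
    refine D.goodB.pull D.M_le_B hpdB (D.goodM.map (Blk_step_top c ?_ ?_))
    · rw [show D.l - 2 + 1 = D.l - 1 by omega]; exact D.π_B hpdB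
    · rw [show D.k + 1 + (D.l - 2) = last by omega]; exact hpd
  have hpdz : act (C.π (p * d)) z = z := by rw [map_mul, act_mul, hdz, hHz p hp]
  rw [show d = p⁻¹ * (p * d) by group]
  exact mul_mem (inv_mem hp) (Subgroup.subset_closure (Or.inl ⟨hpdM, hpdz⟩))

/-- Conjugating the stabiliser of a point of the orbit into the stabiliser of the first vector, for a point in
standard position. -/
theorem conj_short {a d : K} (ha : a ∈ D.A) (hd : d ∈ D.B)
    (hy : Ins D.k (D.k + 3) (act (C.π a) D.e)) (hfix : act (C.π d) (act (C.π a) D.e) = act (C.π a) D.e) :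
    a⁻¹ * d * a ∈ D.B := by
  have := D.hl; have := D.hkl
  set y := act (C.π a) D.e with hyd
  have h1 : Cfsg.hermForm m F q y y = 1 := by rw [hyd, herm_act, e, herm_ev c (by omega)]
  have reduce : ∀ a' ∈ D.A, act (C.π a') D.e = y → a'⁻¹ * d * a' ∈ D.B → a⁻¹ * d * a ∈ D.B := by
    intro a' ha' e' h
    have hc : a'⁻¹ * a ∈ D.M := D.mem_M (mul_mem (inv_mem ha') ha) (by
      rw [map_mul, act_mul, ← hyd, map_inv, ← e', act_inv_act])
    rw [show a⁻¹ * d * a = (a'⁻¹ * a)⁻¹ * (a'⁻¹ * d * a') * (a'⁻¹ * a) by group]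
    exact mul_mem (mul_mem (inv_mem (D.M_le_B hc)) h) (D.M_le_B hc)
  by_cases hiso : nm c (co y D.k) = 1 ∧ co y (D.k + 1) ≠ 0
  · -- the middle part is isotropic
    obtain ⟨hk1, hy1⟩ := hiso
    set z := y + (-co y D.k) • D.e with hzd
    have hzc : ∀ j, co z j = co y j + if j = D.k then -co y D.k else 0 := fun j => by
      rw [hzd, co_add, co_smul, e, co_ev (by omega), mul_ite, mul_one, mul_zero]
    have hz : Ins (D.k + 1) (D.k + 3) z := fun j hj => by
      rw [hzc]
      by_cases hjk : j = D.k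
      · rw [if_pos hjk, hjk]; ring
      · rw [if_neg hjk, hy j (by omega), add_zero]
    have hzz : Cfsg.hermForm m F q z z = 0 := by
      have ek : D.e = Pi.single (⟨D.k, by omega⟩ : Fin m) 1 := ev_eq_single ⟨D.k, by omega⟩
      rw [hzd, c.add_left, c.add_right, c.add_right, c.smul_left, c.smul_left, c.smul_right, c.smul_right, h1, ek,
        c.single_right, c.single_right, c.single_left, ← co_mk y]
      simp only [nm] at hk1
      simp only [map_neg, Pi.single_eq_same]
      linear_combination -hk1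
    obtain ⟨g, hg, hge⟩ := move_two' c D.hF (show 2 ≤ 3 by omega) (i := D.k) (by omega) (x := D.e) (y := y)
      (fun j hj => by rw [hy j hj, e, co_ev (by omega), if_neg (by omega)]) (by rw [h1, e, herm_ev c (by omega)])
      (by
        rw [← herm_win c D.k (by omega) (x := D.e) (y := y)
          (fun j hj => by rw [hy j hj, e, co_ev (by omega), if_neg (by omega)])
          (by rw [h1, e, herm_ev c (by omega)])]
        simp [c.herm_apply, Fin.sum_univ_three, win, e, ev, shift])
    obtain ⟨t, ht, rfl⟩ := D.exists_T hg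
    refine reduce t (D.T_le_A ht) hge ?_
    have hdz : act (C.π d) z = z := by rw [hzd, act_add, act_smul, hfix, D.B_fix hd]
    have hdH := D.stab_iso hz hzz (by rw [hzc, if_neg (by omega), add_zero]; exact hy1) hd hdz
    have hcl : ∀ x ∈ Subgroup.closure ({x | x ∈ D.M ∧ act (C.π x) z = z} ∪ (D.R : Set K)),
        t⁻¹ * x * t ∈ D.B := by
      intro x hx
      induction hx using Subgroup.closure_induction with
      | mem x hx =>
        rcases hx with ⟨hxM, hxz⟩ | hx
        · refine D.M_le_B (D.mem_M (mul_mem (mul_mem (inv_mem (D.T_le_A ht)) (D.M_le_A hxM)) (D.T_le_A ht)) ?_)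
          have hxy : act (C.π x) y = y := by
            have h := hxz
            rw [hzd, act_add, act_smul, D.B_fix (D.M_le_B hxM)] at h
            exact add_right_cancel h
          rw [map_mul, map_mul, act_mul, act_mul, hge, hxy, map_inv, ← hge, act_inv_act]
        · rw [mul_assoc, ← (D.comm_T_R ht hx).eq, inv_mul_cancel_left]
          exact D.R_le_B hx
      | one => simp
      | mul x x' _ _ hx hx' =>
        rw [show t⁻¹ * (x * x') * t = (t⁻¹ * x * t) * (t⁻¹ * x' * t) by group]; exact mul_mem hx hx'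
      | inv x _ hx => rw [show t⁻¹ * x⁻¹ * t = (t⁻¹ * x * t)⁻¹ by group]; exact inv_mem hx
    exact hcl d hdH
  -- the point lies in the first small block
  obtain ⟨y', hy', h1', c₁, hc₁, hc₁y⟩ : ∃ y' : Fin m → F, Ins D.k (D.k + 2) y' ∧
      Cfsg.hermForm m F q y' y' = 1 ∧ ∃ c₁ ∈ D.M, act (C.π c₁) y = y' := by
    by_cases hz : co y (D.k + 1) = 0 ∧ co y (D.k + 2) = 0
    · exact ⟨y, fun j hj => by
        by_cases hj2 : j = D.k + 2
        · rw [hj2]; exact hz.2
        · exact hy j (by omega), h1, 1, one_mem _, by simp⟩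
    obtain ⟨μ, hμ⟩ := exists_nm c (k := 1 - nm c (co y D.k)) (by rw [map_sub, map_one, nm_fixed])
    have hsum : nm c (co y D.k) + (nm c (co y (D.k + 1)) + nm c (co y (D.k + 2))) = 1 := by
      rw [← h1, ← T_eq_herm (k := D.k) (fun j hj => hy j (Or.inl hj)), T_succ c D.k, T_succ c (D.k + 1),
        T_succ c (D.k + 1 + 1), T_congr (y := (0 : Fin m → F)) (fun l hl => by rw [hy l (by omega), co_zero])]
      simp [T_eq_sum c, nm]
    have hμ0 : μ ≠ 0 := by
      intro e0
      rw [e0, nm_zero] at hμ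
      have hk1 : nm c (co y D.k) = 1 := by linear_combination hμ
      have hy1 : co y (D.k + 1) = 0 := by_contra fun h => hiso ⟨hk1, h⟩
      rw [hk1, hy1, nm_zero, zero_add] at hsum
      exact hz ⟨hy1, (nm_eq_zero c).1 (by linear_combination hsum)⟩
    set y' := co y D.k • ev m F D.k + μ • ev m F (D.k + 1)
    have hy'c : ∀ j, co y' j = if j = D.k then co y D.k else if j = D.k + 1 then μ else 0 := fun j => by
      rw [co_add, co_smul, co_smul, co_ev (by omega), co_ev (by omega)]
      by_cases hj : j = D.k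
      · simp [hj]
      · by_cases hj' : j = D.k + 1 <;> simp [hj, hj']
    have hy' : Ins D.k (D.k + 2) y' := fun j hj => by rw [hy'c, if_neg (by omega), if_neg (by omega)]
    have h1' : Cfsg.hermForm m F q y' y' = 1 := by
      rw [herm_pair c (by omega) hy', hy'c, hy'c, if_pos rfl, if_neg (by omega), if_pos rfl]
      simp only [nm] at hμ
      linear_combination hμ
    obtain ⟨g, hg, hge⟩ := move_three c D.hF (show 3 ≤ D.l - 2 by omega) (i := D.k + 1) (by omega) (x := y) (y := y')
      (fun j hj => by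
        by_cases hjk : j = D.k
        · rw [hjk, hy'c, if_pos rfl]
        · rw [hy j (by omega), hy' j (by omega)])
      (h1.trans h1'.symm)
      (fun h0 => hz ⟨by_contra fun h => win_ne_zero _ le_rfl (by omega) h h0,
        by_contra fun h => win_ne_zero _ (show D.k + 1 ≤ D.k + 2 by omega) (by omega) h h0⟩)
      (win_ne_zero _ le_rfl (by omega) (by rw [hy'c, if_neg (by omega), if_pos rfl]; exact hμ0))
    obtain ⟨c₁, hc₁, rfl⟩ := D.goodM.exists_of_mem hg
    exact ⟨y', hy', h1', c₁, hc₁, hge⟩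
  set d' := c₁ * d * c₁⁻¹ with hd'
  have hd'B : d' ∈ D.B := mul_mem (mul_mem (D.M_le_B hc₁) hd) (inv_mem (D.M_le_B hc₁))
  have hfix' : act (C.π d') y' = y' := by
    rw [hd', map_mul, map_mul, act_mul, act_mul, map_inv, ← hc₁y, act_inv_act, hfix]
  obtain ⟨g, hg, hge⟩ := move_two' c D.hF le_rfl (i := D.k) (by omega) (x := D.e) (y := y')
    (fun j hj => by rw [hy' j hj, e, co_ev (by omega), if_neg (by omega)]) (by rw [h1', e, herm_ev c (by omega)])
    (by
      rw [← herm_win c D.k (by omega) (x := D.e) (y := y')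
        (fun j hj => by rw [hy' j hj, e, co_ev (by omega), if_neg (by omega)])
        (by rw [h1', e, herm_ev c (by omega)])]
      simp [c.herm_apply, Fin.sum_univ_two, win, e, ev, shift])
  obtain ⟨s, hs, rfl⟩ := D.exists_P hg
  have key : s⁻¹ * d' * s ∈ D.B := by
    have hUc : ∀ x ∈ D.U, s⁻¹ * x * s ∈ D.B := fun x hx => by
      rw [mul_assoc, ← (D.comm_P_U hs hx).eq, inv_mul_cancel_left]; exact D.U_le_B hx
    by_cases hy1 : co y' (D.k + 1) = 0
    · -- the whole stabiliser of the first vector fixes the point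
      have hy0 : y' = co y' D.k • D.e := eq_smul_ev (by omega) fun j hj => by
        rcases (show j = D.k + 1 ∨ (j < D.k ∨ D.k + 2 ≤ j) by omega) with rfl | h
        · exact hy1
        · exact hy' j h
      suffices h : D.M ⊔ D.U ≤ D.B.comap (MulAut.conj s⁻¹).toMonoidHom by
        have := h (D.B_le hd'B)
        simpa using this
      refine sup_le (fun x hx => ?_) fun x hx => ?_
      · show s⁻¹ * x * s⁻¹⁻¹ ∈ D.B
        rw [inv_inv]
        refine D.M_le_B (D.mem_M (mul_mem (mul_mem (inv_mem (D.P_le_A hs)) (D.M_le_A hx)) (D.P_le_A hs)) ?_)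
        have hxy : act (C.π x) y' = y' := by rw [hy0, act_smul, D.B_fix (D.M_le_B hx)]
        rw [map_mul, map_mul, act_mul, act_mul, hge, hxy, map_inv, ← hge, act_inv_act]
      · show s⁻¹ * x * s⁻¹⁻¹ ∈ D.B
        rw [inv_inv]
        exact hUc x hx
    · -- it fixes the second vector
      refine hUc d' (D.goodB.pull D.U_le_B hd'B (D.goodU.map ?_))
      have hπ := D.π_B hd'B
      rw [show D.l - 1 = D.l - 2 + 1 by omega] at hπ
      refine Blk_step c hπ ?_
      have h := hfix'
      rw [eq_pair (show D.k + 1 < m by omega) hy', act_add, act_smul, act_smul] at h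
      rw [show act (C.π d') (ev m F D.k) = ev m F D.k from D.B_fix hd'B] at h
      exact smul_right_injective _ hy1 (add_left_cancel h)
  have hc : s⁻¹ * (c₁ * a) ∈ D.M := D.mem_M (mul_mem (inv_mem (D.P_le_A hs)) (mul_mem (D.M_le_A hc₁) ha)) (by
    rw [map_mul, map_mul, act_mul, act_mul, ← hyd, hc₁y, map_inv, ← hge, act_inv_act])
  rw [show a⁻¹ * d * a = (s⁻¹ * (c₁ * a))⁻¹ * (s⁻¹ * d' * s) * (s⁻¹ * (c₁ * a)) by rw [hd']; group]
  exact mul_mem (mul_mem (inv_mem (D.M_le_B hc)) key) (D.M_le_B hc)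

/-- Conjugating the stabiliser of a point of the orbit into the stabiliser of the first vector. -/
theorem conj_mem {a d : K} (ha : a ∈ D.A) (hd : d ∈ D.B)
    (hfix : act (C.π d) (act (C.π a) D.e) = act (C.π a) D.e) : a⁻¹ * d * a ∈ D.B := by
  have := D.hl; have := D.hkl
  have hy : Ins D.k (D.k + (D.l - 1)) (act (C.π a) D.e) :=
    Ins.act (D.π_A ha) le_rfl le_rfl (ins_ev (by omega) le_rfl (by omega))
  obtain ⟨g, hg, hge⟩ := exists_short c D.hF (show 3 ≤ D.l - 2 by omega) (show D.k + 1 + (D.l - 2) ≤ m by omega)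
    (act (C.π a) D.e)
  obtain ⟨c₁, hc₁, rfl⟩ := D.goodM.exists_of_mem hg
  have h := D.conj_short (a := c₁ * a) (d := c₁ * d * c₁⁻¹) (mul_mem (D.M_le_A hc₁) ha)
    (mul_mem (mul_mem (D.M_le_B hc₁) hd) (inv_mem (D.M_le_B hc₁)))
    (fun j hj => by
      rw [map_mul, act_mul]
      by_cases hjw : j < D.k + 1 ∨ D.k + 1 + (D.l - 2) ≤ j
      · rw [co_Blk c hg hjw, hy j (by omega)]
      · exact hge j (by omega) (by omega))
    (by simp only [map_mul, map_inv, act_mul, act_inv_act, hfix])
  rw [show (c₁ * a)⁻¹ * (c₁ * d * c₁⁻¹) * (c₁ * a) = a⁻¹ * d * a by group] at h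
  exact h

/-- A coset belonging to a vector. -/
def Rep (x : Fin m → F) (p : K ⧸ D.B) : Prop :=
  ∃ b ∈ D.B, ∃ a ∈ D.A, act (C.π (b * a)) D.e = x ∧ p = QuotientGroup.mk (b * a)

/-- The vectors of the orbit. -/
def Vec (x : Fin m → F) : Prop := Ins D.k (D.k + D.l) x ∧ Cfsg.hermForm m F q x x = 1

theorem exists_UA {x : Fin m → F} (hx : D.Vec x) : ∃ b ∈ D.U, ∃ a ∈ D.A, act (C.π (b * a)) D.e = x := by
  have := D.hl; have := D.hkl
  obtain ⟨g, hg, hg0⟩ := exists_short c D.hF (show 3 ≤ D.l - 2 by omega) (show D.k + 2 + (D.l - 2) ≤ m by omega) x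
  obtain ⟨b, hb, rfl⟩ := D.goodU.exists_of_mem hg
  set y := act (C.π b) x with hyd
  have hy : Ins D.k (D.k + D.l - 1) y := fun j hj => by
    by_cases hjw : j < D.k + 2 ∨ D.k + 2 + (D.l - 2) ≤ j
    · rw [hyd, co_Blk c hg hjw, hx.1 j (by omega)]
    · exact hg0 j (by omega) (by omega)
  obtain ⟨a, ha, e'⟩ := D.exists_A hy (by rw [hyd, herm_act, hx.2])
  exact ⟨b⁻¹, inv_mem hb, a, ha, by rw [map_mul, act_mul, e', hyd, map_inv, act_inv_act]⟩

theorem rep_unique {x : Fin m → F} {p p' : K ⧸ D.B} (h : D.Rep x p) (h' : D.Rep x p') : p = p' := by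
  obtain ⟨b, hb, a, ha, e, rfl⟩ := h
  obtain ⟨b', hb', a', ha', e', rfl⟩ := h'
  have := D.hl; have := D.hkl
  set y := act (C.π a) D.e with hyd
  set y' := act (C.π a') D.e with hy'd
  set d := b'⁻¹ * b with hdd
  have hd : d ∈ D.B := mul_mem (inv_mem hb') hb
  have hdy : act (C.π d) y = y' := by
    rw [hdd, map_mul, act_mul, hyd, ← act_mul (C.π b), ← map_mul, e, map_inv, ← e', map_mul, act_mul, act_inv_act]
  have hyI : ∀ a ∈ D.A, Ins D.k (D.k + (D.l - 1)) (act (C.π a) D.e) := fun a ha =>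
    Ins.act (D.π_A ha) le_rfl le_rfl (ins_ev (by omega) le_rfl (by omega))
  obtain ⟨c₁, hc₁, hc₁y⟩ : ∃ c₁ ∈ D.M, act (C.π c₁) y' = y := by
    by_cases hw : win (D.k + 1) (r := D.l - 2) (by omega) y = 0
    · refine ⟨1, one_mem _, ?_⟩
      rw [map_one, act_one, ← hdy]
      have hy0 : y = co y D.k • ev m F D.k := eq_smul_ev (by omega) fun j hj => by
        by_cases hjw : j < D.k + 1 ∨ D.k + 1 + (D.l - 2) ≤ j
        · exact hyI a ha j (by omega)
        · exact by_contra fun h => win_ne_zero _ (by omega) (by omega) h hw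
      conv_lhs => rw [hy0, act_smul]
      rw [show act (C.π d) (ev m F D.k) = ev m F D.k from D.B_fix hd, ← hy0]
    have hk : co y' D.k = co y D.k := by rw [← hdy, co_Blk c (D.π_B hd) (Or.inl (Nat.lt_succ_self _))]
    have hw' : win (D.k + 1) (r := D.l - 2) (by omega) y' ≠ 0 := fun h0 => hw (by
      have hy0 : y' = co y' D.k • ev m F D.k := eq_smul_ev (by omega) fun j hj => by
        by_cases hjw : j < D.k + 1 ∨ D.k + 1 + (D.l - 2) ≤ j
        · exact hyI a' ha' j (by omega)
        · exact by_contra fun h => win_ne_zero _ (by omega) (by omega) h h0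
      have hyy : y = y' := by
        have : act (C.π d)⁻¹ y' = y := by rw [← hdy, act_inv_act]
        rw [← this]
        conv_rhs => rw [hy0]
        conv_lhs => rw [hy0, act_smul, ← map_inv]
        rw [show act (C.π d⁻¹) (ev m F D.k) = ev m F D.k from D.B_fix (inv_mem hd)]
      rw [hyy]; exact h0)
    obtain ⟨g, hg, hge⟩ := move_three c D.hF (show 3 ≤ D.l - 2 by omega) (i := D.k + 1) (by omega) (x := y')
      (y := y) (fun j hj => by
        by_cases hjk : j = D.k
        · rw [hjk, hk]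
        · rw [hyI a ha j (by omega), hyI a' ha' j (by omega)])
      (by rw [hyd, hy'd, herm_act, herm_act]) hw' hw
    obtain ⟨c₁, hc₁, rfl⟩ := D.goodM.exists_of_mem hg
    exact ⟨c₁, hc₁, hge⟩
  have h1 : a⁻¹ * (c₁ * d) * a ∈ D.B :=
    D.conj_mem ha (mul_mem (D.M_le_B hc₁) hd) (by rw [map_mul, act_mul, ← hyd, hdy, hc₁y])
  have h2 : a⁻¹ * (c₁ * a') ∈ D.M := D.mem_M (mul_mem (inv_mem ha) (mul_mem (D.M_le_A hc₁) ha')) (by
    rw [map_mul, map_mul, act_mul, act_mul, ← hy'd, hc₁y, hyd, map_inv, act_inv_act])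
  refine QuotientGroup.eq.2 ?_
  rw [show (b * a)⁻¹ * (b' * a') = (a⁻¹ * (c₁ * d) * a)⁻¹ * (a⁻¹ * (c₁ * a')) by rw [hdd]; group]
  exact mul_mem (inv_mem h1) (D.M_le_B h2)

open Classical in
/-- The section. -/
noncomputable def kap (x : Fin m → F) : K ⧸ D.B :=
  if h : ∃ p, D.Rep x p then h.choose else QuotientGroup.mk 1

theorem kap_eq {x : Fin m → F} {p : K ⧸ D.B} (h : D.Rep x p) : D.kap x = p := by
  have he : ∃ p, D.Rep x p := ⟨p, h⟩
  rw [kap, dif_pos he]
  exact D.rep_unique he.choose_spec h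

/-- The elements compatible with the section. -/
def Stable : Subgroup K where
  carrier := {a | ∀ x, (D.Vec x ↔ D.Vec (act (C.π a) x)) ∧ (D.Vec x → a • D.kap x = D.kap (act (C.π a) x))}
  one_mem' := fun x => ⟨by simp, fun _ => by simp⟩
  mul_mem' := fun {a b} ha hb x => by
    refine ⟨?_, fun hx => ?_⟩
    · rw [map_mul, act_mul]; exact (hb x).1.trans (ha _).1
    · rw [mul_smul, (hb x).2 hx, (ha _).2 ((hb x).1.1 hx), map_mul, act_mul]
  inv_mem' := fun {a} ha x => by
    have e' : act (C.π a) (act (C.π a⁻¹) x) = x := by rw [map_inv, act_act_inv]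
    refine ⟨?_, fun hx => ?_⟩
    · have := (ha (act (C.π a⁻¹) x)).1
      rw [e'] at this
      exact this.symm
    · have h := (ha (act (C.π a⁻¹) x))
      rw [e'] at h
      rw [← h.2 (h.1.2 hx), inv_smul_smul]

theorem vec_iff {g : SUg m F q} (hg : g ∈ Blk c m D.k D.l) (x : Fin m → F) : D.Vec x ↔ D.Vec (act g x) := by
  refine ⟨fun h => ⟨h.1.act hg le_rfl le_rfl, by rw [herm_act, h.2]⟩, fun h => ?_⟩
  have h' := Ins.act (inv_mem hg) le_rfl le_rfl h.1
  rw [act_inv_act] at h'
  exact ⟨h', by rw [← herm_act g, h.2]⟩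

theorem whole_le_stable : C.G D.k D.l ≤ D.Stable := by
  have := D.hl; have := D.hkl
  refine D.whole_le.trans (sup_le (fun s hs x => ?_) fun s hs x => ?_)
  · refine ⟨D.vec_iff (Blk_mono c (by omega) (by omega) (D.π_B hs)) x, fun hx => ?_⟩
    obtain ⟨b, hb, a, ha, e'⟩ := D.exists_UA hx
    rw [D.kap_eq ⟨b, D.U_le_B hb, a, ha, e', rfl⟩]
    symm
    refine D.kap_eq ⟨s * b, mul_mem hs (D.U_le_B hb), a, ha, ?_, ?_⟩
    · rw [mul_assoc, map_mul, act_mul, e']
    · rw [mul_assoc]; rfl
  · refine ⟨D.vec_iff (Blk_mono c le_rfl (by omega) hs.2) x, fun hx => ?_⟩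
    obtain ⟨b, hb, a, ha, e'⟩ := D.exists_UA hx
    rw [D.kap_eq ⟨b, D.U_le_B hb, a, ha, e', rfl⟩]
    symm
    have hcomm : b * (s * a) = s * (b * a) := by rw [← mul_assoc, ← (D.comm_P_U hs hb).eq, mul_assoc]
    refine D.kap_eq ⟨b, D.U_le_B hb, s * a, mul_mem (D.P_le_A hs) ha, ?_, ?_⟩
    · rw [hcomm, map_mul, act_mul, e']
    · rw [hcomm]; rfl

theorem good : C.Good D.k D.l := by
  have := D.hl; have := D.hkl
  refine ⟨fun a ha h1 => ?_, ?_⟩
  · have he : D.Vec D.e := ⟨ins_ev (by omega) le_rfl (by omega), herm_ev c (by omega)⟩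
    have hk : D.kap D.e = QuotientGroup.mk 1 :=
      D.kap_eq ⟨1, one_mem _, 1, one_mem _, by simp, by simp⟩
    have h := (D.whole_le_stable ha D.e).2 he
    rw [h1, act_one, hk] at h
    have hB : a ∈ D.B := by
      have h' : (QuotientGroup.mk (a * 1) : K ⧸ D.B) = QuotientGroup.mk 1 := h
      rw [mul_one, QuotientGroup.eq, mul_one] at h'
      exact inv_mem_iff.1 h'
    exact D.goodB.inj a hB h1
  · refine (Blk_le_sup c D.hF (show 4 ≤ D.l by omega) D.hkl).trans (sup_le (fun g hg => ?_) ?_)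
    · obtain ⟨x, hx, rfl⟩ := D.exists_P hg
      exact ⟨x, C.T_le_G le_rfl (by omega) hx.1, rfl⟩
    · exact D.goodB.map.trans (Subgroup.map_mono (C.G_mono (by omega) (by omega)))

end Lvl

/-- Every interval is faithfully covered. -/
theorem good (hF : Nat.card F = q ^ 2) {a l : ℕ} (hl : 3 ≤ l) (hal : a + l ≤ m) : C.Good a l := by
  induction l using Nat.strong_induction_on generalizing a with
  | h l ih =>
    by_cases h3 : l = 3
    · subst h3; exact C.good_three hal
    by_cases h4 : l = 4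
    · subst h4; exact C.good_four hF hal
    exact Lvl.good (C := C)
      { k := a, l := l, hl := by omega, hkl := hal, hG := fun a' l' h1 h2 h3 => ih l' h2 h1 h3, hF := hF }

/-- A cover is the special unitary group as soon as it is generated by the blocks. -/
theorem bijective (hF : Nat.card F = q ^ 2) (hgen : C.G 0 m = ⊤) : Function.Bijective C.π := by
  have h := C.good hF (a := 0) (show 3 ≤ m by have := C.hm; omega) (by omega)
  refine ⟨(injective_iff_map_eq_one C.π).2 fun a => h.inj a (by rw [hgen]; exact Subgroup.mem_top a), fun g => ?_⟩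
  obtain ⟨a, -, ha⟩ := h.map (show g ∈ Blk c m 0 m from fun l hl => absurd hl (by have := l.isLt; omega))
  exact ⟨a, ha⟩

end Cover3

end CfsgLib.SUPres
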