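import Cfsg.Agent.Lib.SLnPres.Model
import Cfsg.Agent.Lib.SUAmalgam.Main

/-!
The even permutation matrices inside `SU_n(q)`, and groups generated by a copy of `SU₃(q)` and of the alternating
group in which the two copies of `SU₂(q)` of the small blocks move coherently.
-/

set_option autoImplicit false
set_option linter.unusedSectionVars false

namespace CfsgLib.SUPres

open CfsgLib.SUAmalgam CfsgLib.ClassicalForms CfsgLib.SLnPres Equiv Matrix

variable {F : Type*} [Field F] {q n : ℕ}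

/-- The matrix of an even permutation. -/
noncomputable def pmU : alternatingGroup (Fin n) →* SUg n F q :=
  (pm (ι := Fin n) (F := F)).codRestrict (Cfsg.SU n F q) fun σ u v => by
    show Cfsg.hermForm n F q (Equiv.Perm.permMatrix F (σ.1⁻¹) *ᵥ u) (Equiv.Perm.permMatrix F (σ.1⁻¹) *ᵥ v) = _
    rw [Matrix.permMatrix_mulVec, Matrix.permMatrix_mulVec]
    exact Equiv.sum_comp σ.1⁻¹ fun i => u i * v i ^ q

theorem act_pmU (σ : alternatingGroup (Fin n)) (x : Fin n → F) :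
    act (pmU (q := q) σ) x = fun i => x (σ.1⁻¹ i) := Matrix.permMatrix_mulVec _

theorem act_pmU_single (σ : alternatingGroup (Fin n)) (l : Fin n) :
    act (pmU (q := q) σ) (Pi.single l (1 : F)) = Pi.single (σ.1 l) 1 := by
  rw [act_pmU]
  funext i
  simp [Pi.single_apply, Equiv.Perm.inv_def, Equiv.symm_apply_eq]

/-- The elements fixing the coordinate vectors outside a set. -/
def Fix (n : ℕ) (F : Type*) [Field F] (q : ℕ) (s : Set (Fin n)) : Subgroup (SUg n F q) where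
  carrier := {g | ∀ l, l ∉ s → act g (Pi.single l 1) = Pi.single l 1}
  one_mem' := fun l _ => by simp
  mul_mem' := fun {a b} ha hb l hl => by rw [act_mul, hb l hl, ha l hl]
  inv_mem' := fun {a} ha l hl => by conv_lhs => rw [← ha l hl, act_inv_act]

theorem map_conj_Fix (σ : alternatingGroup (Fin n)) (s : Set (Fin n)) :
    (Fix n F q s).map (MulAut.conj (pmU σ)).toMonoidHom = Fix n F q (σ.1 '' s) := by
  have key : ∀ (τ : alternatingGroup (Fin n)) (t : Set (Fin n)), ∀ g ∈ Fix n F q t,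
      pmU τ * g * (pmU τ)⁻¹ ∈ Fix n F q (τ.1 '' t) := by
    intro τ t g hg l hl
    obtain ⟨l, rfl⟩ := τ.1.surjective l
    rw [← act_pmU_single (q := q) τ l, act_mul, act_inv_act, act_mul,
      hg l fun h => hl ⟨l, h, rfl⟩]
  refine le_antisymm ?_ fun g hg => ?_
  · rintro _ ⟨g, hg, rfl⟩
    exact key σ s g hg
  · refine ⟨(pmU σ)⁻¹ * g * pmU σ, ?_, by
      show pmU σ * ((pmU σ)⁻¹ * g * pmU σ) * (pmU σ)⁻¹ = g
      group⟩
    have h := key σ⁻¹ _ g hg
    rw [map_inv, inv_inv] at h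
    have e : (σ⁻¹ : alternatingGroup (Fin n)).1 '' (σ.1 '' s) = s := by
      rw [← Set.image_comp]
      simp
    rwa [e] at h

theorem Blk_eq_Fix (c : Conj F q) (i r : ℕ) :
    Blk c n i r = Fix n F q {l | i ≤ (l : ℕ) ∧ (l : ℕ) < i + r} := by
  ext g
  refine forall_congr' fun l => ?_
  constructor <;> intro h h' <;> apply h
  · simp only [Set.mem_ofPred_eq, not_and] at h'; omega
  · simp only [Set.mem_ofPred_eq, not_and]; omega

variable {k : ℕ}

/-- The first small block inside `SU₃(q)`. -/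
noncomputable abbrev e32 (c : Conj F q) : SUg 2 F q →* SUg 3 F q := emb c 0 (show 0 + 2 ≤ 3 by omega)

/-- The involution `(0 2)(1 3)`. -/
def shiftAlt : alternatingGroup (Fin (k + 4)) :=
  ⟨swap 0 2 * swap 1 3, by
    show Perm.sign _ = 1
    rw [map_mul, Perm.sign_swap zero_ne_two', Perm.sign_swap one_ne_three']; rfl⟩

theorem shiftAlt_zero : (shiftAlt : alternatingGroup (Fin (k + 4))).1 0 = 2 := by
  simp [shiftAlt, swap_apply_of_ne_of_ne zero_ne_one' zero_ne_three']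

theorem shiftAlt_one : (shiftAlt : alternatingGroup (Fin (k + 4))).1 1 = 3 := by
  simp [shiftAlt, swap_apply_of_ne_of_ne (Ne.symm zero_ne_three') (Ne.symm two_ne_three')]

theorem c012_zero : (c012 : alternatingGroup (Fin (k + 4))).1 0 = 1 :=
  cyc3_apply_left zero_ne_one' zero_ne_two'

theorem c012_one : (c012 : alternatingGroup (Fin (k + 4))).1 1 = 2 :=
  cyc3_apply_mid one_ne_two' zero_ne_two'

theorem c012_two : (c012 : alternatingGroup (Fin (k + 4))).1 2 = 0 := cyc3_apply_right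

theorem rot3_eq : (rot3 : alternatingGroup (Fin 3)).1 = cyc3 0 1 2 := by decide

/-- The permutation matrix of the small cycle is that of the cycle `(0 1 2)`. -/
theorem emb_pmU_rot3 (c : Conj F q) :
    emb c 0 (show 0 + 3 ≤ k + 4 by omega) (pmU rot3) = (pmU c012 : SUg (k + 4) F q) := by
  refine ext_act fun l => funext fun a => ?_
  rw [act_pmU_single]
  by_cases ha : (a : ℕ) < 3
  · obtain ⟨b, eb⟩ : ∃ b : Fin 3, shift 0 (show 0 + 3 ≤ k + 4 by omega) b = a :=
      ⟨⟨a, ha⟩, Fin.ext (Nat.zero_add _)⟩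
    rw [← eb]
    rw [act_emb_shift, act_pmU]
    have hb : b = 0 ∨ b = 1 ∨ b = 2 := by omega
    have s0 : shift 0 (show 0 + 3 ≤ k + 4 by omega) (0 : Fin 3) = (0 : Fin (k + 4)) := Fin.ext rfl
    have s1 : shift 0 (show 0 + 3 ≤ k + 4 by omega) (1 : Fin 3) = (1 : Fin (k + 4)) := Fin.ext (by simp [shift])
    have s2 : shift 0 (show 0 + 3 ≤ k + 4 by omega) (2 : Fin 3) = (2 : Fin (k + 4)) :=
      Fin.ext (by simp [shift, mod_two'])
    have i0 : (rot3 : alternatingGroup (Fin 3)).1⁻¹ 0 = 2 := by decide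
    have i1 : (rot3 : alternatingGroup (Fin 3)).1⁻¹ 1 = 0 := by decide
    have i2 : (rot3 : alternatingGroup (Fin 3)).1⁻¹ 2 = 1 := by decide
    rcases hb with rfl | rfl | rfl
    · beta_reduce
      rw [i0, s2, s0, Pi.single_apply, Pi.single_apply]
      refine if_congr ?_ rfl rfl
      rw [← c012_two (k := k)]
      exact ⟨fun h => by rw [h], fun h => (c012.1).injective h⟩
    · beta_reduce
      rw [i1, s0, s1, Pi.single_apply, Pi.single_apply]
      refine if_congr ?_ rfl rfl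
      rw [← c012_zero (k := k)]
      exact ⟨fun h => by rw [h], fun h => (c012.1).injective h⟩
    · beta_reduce
      rw [i2, s1, s2, Pi.single_apply, Pi.single_apply]
      refine if_congr ?_ rfl rfl
      rw [← c012_one (k := k)]
      exact ⟨fun h => by rw [h], fun h => (c012.1).injective h⟩
  · rw [act_emb_other c 0 _ _ _ (Or.inr (by omega))]
    have hne : ∀ b : ℕ, b < 3 → (a : ℕ) ≠ b := fun b hb e => ha (e ▸ hb)
    have hfix : (c012 : alternatingGroup (Fin (k + 4))).1 a = a := cyc3_apply_other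
      (fun e => hne 0 (by omega) (by simp [e])) (fun e => hne 1 (by omega) (by rw [e, val_one']))
      (fun e => hne 2 (by omega) (by rw [e, val_two']))
    rw [Pi.single_apply, Pi.single_apply]
    refine if_congr ?_ rfl rfl
    conv_rhs => rw [← hfix]
    exact (c012.1).injective.eq_iff.symm

/-- A copy of `SU₃(q)` and a copy of the alternating group over `SU_n(q)`, with the relations that make the blocks
move coherently. -/
structure Setting (c : Conj F q) (k : ℕ) (K : Type*) [Group K] where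
  π : K →* SUg (k + 4) F q
  ρ : alternatingGroup (Fin (k + 4)) →* K
  α : SUg 3 F q →* K
  π_ρ : ∀ σ, π (ρ σ) = pmU σ
  π_α : ∀ z, π (α z) = emb c 0 (by omega) z
  cyc : α (pmU rot3) = ρ c012
  flip : ∀ z : SUg 2 F q, ∃ z', ρ flipAlt * α (e32 c z) * (ρ flipAlt)⁻¹ = α (e32 c z')
  fix : ∀ z : SUg 2 F q, ∃ z', ρ cycAlt * α (e32 c z) * (ρ cycAlt)⁻¹ = α (e32 c z')
  disj : ∀ z z' : SUg 2 F q, Commute (α (e32 c z))
    (ρ shiftAlt * α (e32 c z') * (ρ shiftAlt)⁻¹)

namespace Setting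

variable [Finite F] {c : Conj F q} {K : Type*} [Group K] (S : Setting c k K)

/-- The first small block. -/
noncomputable def S0 : Subgroup K := (S.α.comp (e32 c)).range

/-- A moved block. -/
noncomputable def P (σ : alternatingGroup (Fin (k + 4))) : Subgroup K :=
  S.S0.map (MulAut.conj (S.ρ σ)).toMonoidHom

theorem P_one : S.P 1 = S.S0 := by
  rw [P, map_one, map_one]
  exact Subgroup.map_id _

theorem P_mul (σ τ : alternatingGroup (Fin (k + 4))) :
    S.P (σ * τ) = (S.P τ).map (MulAut.conj (S.ρ σ)).toMonoidHom := by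
  rw [P, P, Subgroup.map_map, map_mul, map_mul]
  rfl

theorem finite_S0 : Finite S.S0 := Set.finite_coe_iff.2 (Set.finite_range _)

theorem P_stab {σ : alternatingGroup (Fin (k + 4))}
    (h : ∀ z : SUg 2 F q, ∃ z', S.ρ σ * S.α (e32 c z) * (S.ρ σ)⁻¹ = S.α (e32 c z')) :
    S.P σ = S.S0 := by
  have := S.finite_S0
  refine Subgroup.eq_of_le_of_card_ge ?_ ?_
  · rintro _ ⟨_, ⟨z, rfl⟩, rfl⟩
    obtain ⟨z', e⟩ := h z
    exact ⟨z', e.symm⟩
  · rw [P, Nat.card_congr (S.S0.equivMapOfInjective (MulAut.conj (S.ρ σ)).toMonoidHom (MulAut.conj (S.ρ σ)).injective).toEquiv]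

/-- The permutations fixing the first block. -/
noncomputable def Stab : Subgroup (alternatingGroup (Fin (k + 4))) where
  carrier := {σ | S.P σ = S.S0}
  one_mem' := S.P_one
  mul_mem' := fun {a b} ha hb => by
    show S.P (a * b) = S.S0
    rw [P_mul, show S.P b = S.S0 from hb]; exact ha
  inv_mem' := fun {a} ha => by
    show S.P a⁻¹ = S.S0
    conv_rhs => rw [← S.P_one, ← inv_mul_cancel a, P_mul, show S.P a = S.S0 from ha]
    rfl

theorem mem_Stab {σ : alternatingGroup (Fin (k + 4))}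
    (h : (σ.1 0 = 0 ∧ σ.1 1 = 1) ∨ (σ.1 0 = 1 ∧ σ.1 1 = 0)) : σ ∈ S.Stab := by
  have hm : σ.1 ∈ stabGen k := h.elim (fun h => mem_stabGen σ.2 h.1 h.2) fun h => mem_stabGen_swap σ.2 h.1 h.2
  have e : stabGen k = (Subgroup.closure {(flipAlt : alternatingGroup (Fin (k + 4))), cycAlt}).map
      (alternatingGroup (Fin (k + 4))).subtype := by
    rw [MonoidHom.map_closure, Set.image_pair]; rfl
  rw [e, Subgroup.mem_map] at hm
  obtain ⟨τ, hτ, hτσ⟩ := hm
  obtain rfl : τ = σ := Subtype.ext hτσ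
  refine (Subgroup.closure_le _).2 ?_ hτ
  rintro x (rfl | rfl)
  exacts [S.P_stab S.flip, S.P_stab S.fix]

/-- The moved block depends only on the pair of points. -/
theorem P_congr {σ τ : alternatingGroup (Fin (k + 4))}
    (h : (σ.1 0 = τ.1 0 ∧ σ.1 1 = τ.1 1) ∨ (σ.1 0 = τ.1 1 ∧ σ.1 1 = τ.1 0)) : S.P σ = S.P τ := by
  have e : σ = τ * (τ⁻¹ * σ) := (mul_inv_cancel_left τ σ).symm
  have hm : τ⁻¹ * σ ∈ S.Stab := S.mem_Stab (by
    simp only [Subgroup.coe_mul, Subgroup.coe_inv, Perm.mul_apply, Perm.inv_eq_iff_eq]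
    exact h)
  rw [e, P_mul, show S.P (τ⁻¹ * σ) = S.S0 from hm]
  rfl

theorem map_S0 : S.S0.map S.π = Fix (k + 4) F q {l | (l : ℕ) < 2} := by
  have h : (Blk c (k + 4) 0 2) = Fix (k + 4) F q {l | (l : ℕ) < 2} := by
    rw [Blk_eq_Fix]; simp
  rw [← h, ← range_emb c 0 (show 0 + 2 ≤ k + 4 by omega), S0, MonoidHom.map_range]
  congr 1
  exact MonoidHom.ext fun z => by
    show S.π (S.α (emb c 0 _ z)) = _
    rw [S.π_α, emb_emb]

theorem map_P (σ : alternatingGroup (Fin (k + 4))) :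
    (S.P σ).map S.π = Fix (k + 4) F q {l | l = σ.1 0 ∨ l = σ.1 1} := by
  rw [P, Subgroup.map_map, show S.π.comp (MulAut.conj (S.ρ σ)).toMonoidHom =
      ((MulAut.conj (pmU σ)).toMonoidHom).comp S.π from MonoidHom.ext fun x => by simp [S.π_ρ],
    ← Subgroup.map_map, map_S0, map_conj_Fix]
  congr 1
  ext l
  simp only [Set.mem_image, Set.mem_ofPred_eq]
  constructor
  · rintro ⟨j, hj, rfl⟩
    rcases (show (j : ℕ) = 0 ∨ (j : ℕ) = 1 by omega) with h | h
    · exact Or.inl (congrArg _ (Fin.ext h))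
    · exact Or.inr (congrArg _ (Fin.ext (by rw [val_one']; exact h)))
  · rintro (rfl | rfl)
    · exact ⟨0, by simp, rfl⟩
    · exact ⟨1, by rw [val_one']; omega, rfl⟩

theorem P_le_conj_range (σ : alternatingGroup (Fin (k + 4))) :
    S.P σ ⊔ S.P (σ * c012) ≤ S.α.range.map (MulAut.conj (S.ρ σ)).toMonoidHom := by
  have h0 : S.S0 ≤ S.α.range := by rintro _ ⟨z, rfl⟩; exact ⟨_, rfl⟩
  refine sup_le (Subgroup.map_mono h0) ?_
  rw [P_mul]
  refine Subgroup.map_mono ?_
  rintro _ ⟨_, ⟨z, rfl⟩, rfl⟩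
  exact ⟨pmU rot3 * e32 c z * (pmU rot3)⁻¹, by simp [S.cyc]⟩

/-- The block on two consecutive coordinates. -/
noncomputable def blockS (i : ℕ) : Subgroup K :=
  if h : i + 2 ≤ k + 4 then
    S.P (exists_even_pair (fin_ne (a := i) (b := i + 1) (by omega) (by omega) (by omega))).choose
  else ⊥

theorem blockS_eq {i : ℕ} (hi : i + 2 ≤ k + 4) {σ : alternatingGroup (Fin (k + 4))}
    (h : ((σ.1 0 : ℕ) = i ∧ (σ.1 1 : ℕ) = i + 1) ∨ ((σ.1 0 : ℕ) = i + 1 ∧ (σ.1 1 : ℕ) = i)) :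
    S.blockS i = S.P σ := by
  rw [blockS, dif_pos hi]
  obtain ⟨a, b⟩ := (exists_even_pair (fin_ne (a := i) (b := i + 1) (show i < k + 4 by omega)
    (show i + 1 < k + 4 by omega) (by omega))).choose_spec
  refine S.P_congr ?_
  rw [a, b]
  rcases h with ⟨h1, h2⟩ | ⟨h1, h2⟩
  · exact Or.inl ⟨Fin.ext h1.symm, Fin.ext h2.symm⟩
  · exact Or.inr ⟨Fin.ext h2.symm, Fin.ext h1.symm⟩

/-- A permutation carrying the first three points onto three consecutive ones, in one of the two orders. -/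
theorem exists_window {i : ℕ} (hi : i + 3 ≤ k + 4) :
    ∃ σ : alternatingGroup (Fin (k + 4)), (σ.1 1 : ℕ) = i + 1 ∧
      (((σ.1 0 : ℕ) = i ∧ (σ.1 2 : ℕ) = i + 2) ∨ ((σ.1 0 : ℕ) = i + 2 ∧ (σ.1 2 : ℕ) = i)) := by
  let a : Fin (k + 4) := ⟨i, by omega⟩
  let b : Fin (k + 4) := ⟨i + 1, by omega⟩
  let d : Fin (k + 4) := ⟨i + 2, by omega⟩
  obtain ⟨e, he⟩ := exists_fresh {a, b, d} (lt_of_le_of_lt Finset.card_le_three (by omega))
  simp only [Finset.mem_insert, Finset.mem_singleton, not_or] at he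
  obtain ⟨π, p0, p1, p2, -⟩ := exists_perm_four zero_ne_one' zero_ne_two' zero_ne_three' one_ne_two'
    one_ne_three' two_ne_three' (show a ≠ b from fin_ne _ _ (by omega)) (show a ≠ d from fin_ne _ _ (by omega))
    (Ne.symm he.1) (show b ≠ d from fin_ne _ _ (by omega)) (Ne.symm he.2.1) (Ne.symm he.2.2)
  rcases Int.units_eq_one_or (Perm.sign π) with hs | hs
  · exact ⟨⟨π, hs⟩, by rw [p1], Or.inl ⟨by rw [p0], by rw [p2]⟩⟩
  · refine ⟨⟨π * swap 0 2, ?_⟩, ?_, Or.inr ⟨?_, ?_⟩⟩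
    · show Perm.sign (π * swap 0 2) = 1
      rw [map_mul, hs, Perm.sign_swap zero_ne_two']; rfl
    · rw [Perm.mul_apply, swap_apply_of_ne_of_ne (Ne.symm zero_ne_one') one_ne_two', p1]
    · rw [Perm.mul_apply, swap_apply_left, p2]
    · rw [Perm.mul_apply, swap_apply_right, p0]

theorem blockS_pair {i : ℕ} (hi : i + 3 ≤ k + 4) :
    ∃ σ : alternatingGroup (Fin (k + 4)),
      S.blockS i ⊔ S.blockS (i + 1) = S.P σ ⊔ S.P (σ * c012) := by
  obtain ⟨σ, h1, h⟩ := exists_window (k := k) hi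
  have e0 : (σ * c012).1 0 = σ.1 1 := by rw [Subgroup.coe_mul, Perm.mul_apply, c012_zero]
  have e1 : (σ * c012).1 1 = σ.1 2 := by rw [Subgroup.coe_mul, Perm.mul_apply, c012_one]
  refine ⟨σ, ?_⟩
  rcases h with ⟨h0, h2⟩ | ⟨h0, h2⟩
  · rw [S.blockS_eq (by omega) (Or.inl ⟨h0, h1⟩),
      S.blockS_eq (i := i + 1) (by omega) (σ := σ * c012) (Or.inl ⟨by rw [e0, h1], by rw [e1, h2]⟩)]
  · rw [S.blockS_eq (i := i) (by omega) (σ := σ * c012) (Or.inr ⟨by rw [e0, h1], by rw [e1, h2]⟩),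
      S.blockS_eq (i := i + 1) (by omega) (σ := σ) (Or.inr ⟨h0, h1⟩), sup_comm]

theorem blockS_comm {i j : ℕ} (hij : i + 2 ≤ j) (hj : j + 2 ≤ k + 4) {a b : K} (ha : a ∈ S.blockS i)
    (hb : b ∈ S.blockS j) : a * b = b * a := by
  let p1 : Fin (k + 4) := ⟨i, by omega⟩
  let p2 : Fin (k + 4) := ⟨i + 1, by omega⟩
  let p3 : Fin (k + 4) := ⟨j, by omega⟩
  let p4 : Fin (k + 4) := ⟨j + 1, by omega⟩
  obtain ⟨π, e1, e2, e3, e4⟩ := exists_perm_four zero_ne_one' zero_ne_two' zero_ne_three' one_ne_two'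
    one_ne_three' two_ne_three' (show p1 ≠ p2 from fin_ne _ _ (by omega))
    (show p1 ≠ p3 from fin_ne _ _ (by omega)) (show p1 ≠ p4 from fin_ne _ _ (by omega))
    (show p2 ≠ p3 from fin_ne _ _ (by omega)) (show p2 ≠ p4 from fin_ne _ _ (by omega))
    (show p3 ≠ p4 from fin_ne _ _ (by omega))
  obtain ⟨σ, h0, h1, h23⟩ : ∃ σ : alternatingGroup (Fin (k + 4)), (σ.1 0 : ℕ) = i ∧ (σ.1 1 : ℕ) = i + 1 ∧
      (((σ.1 2 : ℕ) = j ∧ (σ.1 3 : ℕ) = j + 1) ∨ ((σ.1 2 : ℕ) = j + 1 ∧ (σ.1 3 : ℕ) = j)) := by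
    rcases Int.units_eq_one_or (Perm.sign π) with hs | hs
    · exact ⟨⟨π, hs⟩, by rw [e1], by rw [e2], Or.inl ⟨by rw [e3], by rw [e4]⟩⟩
    · refine ⟨⟨π * swap 2 3, ?_⟩, ?_, ?_, Or.inr ⟨?_, ?_⟩⟩
      · show Perm.sign (π * swap 2 3) = 1
        rw [map_mul, hs, Perm.sign_swap two_ne_three']; rfl
      · rw [Perm.mul_apply, swap_apply_of_ne_of_ne zero_ne_two' zero_ne_three', e1]
      · rw [Perm.mul_apply, swap_apply_of_ne_of_ne one_ne_two' one_ne_three', e2]
      · rw [Perm.mul_apply, swap_apply_left, e4]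
      · rw [Perm.mul_apply, swap_apply_right, e3]
  have e0' : (σ * shiftAlt).1 0 = σ.1 2 := by rw [Subgroup.coe_mul, Perm.mul_apply, shiftAlt_zero]
  have e1' : (σ * shiftAlt).1 1 = σ.1 3 := by rw [Subgroup.coe_mul, Perm.mul_apply, shiftAlt_one]
  rw [S.blockS_eq (by omega) (Or.inl ⟨h0, h1⟩)] at ha
  rw [S.blockS_eq hj (σ := σ * shiftAlt) (by rw [e0', e1']; exact h23), P_mul] at hb
  obtain ⟨_, ⟨x, rfl⟩, rfl⟩ := ha
  obtain ⟨_, ⟨_, ⟨y, rfl⟩, rfl⟩, rfl⟩ := hb
  exact ((S.disj x y).map (MulAut.conj (S.ρ σ)).toMonoidHom).eq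

/-- The cover by the small blocks. -/
noncomputable def cover : Cover c (k + 4) K where
  π := S.π
  S := S.blockS
  hm := by omega
  map_S i hi := by
    obtain ⟨σ, h0, h1⟩ := exists_even_pair (fin_ne (a := i) (b := i + 1) (show i < k + 4 by omega)
      (show i + 1 < k + 4 by omega) (by omega))
    rw [S.blockS_eq hi (Or.inl ⟨by rw [h0], by rw [h1]⟩), map_P, Blk_eq_Fix, h0, h1]
    congr 1
    ext l
    simp only [Set.mem_ofPred_eq, Fin.ext_iff]
    omega
  comm i j hij hj a ha b hb := S.blockS_comm hij hj ha hb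
  inj i hi := by
    obtain ⟨σ, e⟩ := S.blockS_pair hi
    rw [e]
    intro a ha h1
    obtain ⟨_, ⟨z, rfl⟩, rfl⟩ := S.P_le_conj_range σ ha
    have hz : S.π (S.α z) = 1 := by simpa using h1
    rw [S.π_α] at hz
    rw [(injective_iff_map_eq_one _).1 (emb_injective c 0 _) z hz, map_one, map_one]

theorem range_le_blocks [Fintype F] (hF : Nat.card F = q ^ 2) (hq : 3 < q) (σ : alternatingGroup (Fin (k + 4))) :
    S.α.range.map (MulAut.conj (S.ρ σ)).toMonoidHom ≤ S.P σ ⊔ S.P (σ * c012) := by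
  rw [P_mul, P, P, ← Subgroup.map_sup]
  refine Subgroup.map_mono ?_
  have htop : (⊤ : Subgroup (SUg 3 F q)) ≤ Blk c 3 0 2 ⊔ Blk c 3 1 2 := fun g _ =>
    Blk_three_le c hF hq 0 (by omega) fun l hl => absurd hl (by have := l.isLt; omega)
  rw [MonoidHom.range_eq_map]
  refine (Subgroup.map_mono htop).trans ?_
  rw [Subgroup.map_sup]
  refine sup_le_sup ?_ ?_
  · rw [← range_emb c 0 (show 0 + 2 ≤ 3 by omega), MonoidHom.map_range]
    exact le_rfl
  · have e : Blk c 3 1 2 = (Blk c 3 0 2).map (MulAut.conj (pmU (q := q) rot3)).toMonoidHom := by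
      rw [Blk_eq_Fix, Blk_eq_Fix, map_conj_Fix]
      congr 1
      ext l
      have h0 : (rot3 : alternatingGroup (Fin 3)).1 0 = 1 := by decide
      have h1 : (rot3 : alternatingGroup (Fin 3)).1 1 = 2 := by decide
      have h2 : (rot3 : alternatingGroup (Fin 3)).1 2 = 0 := by decide
      simp only [Set.mem_image, Set.mem_ofPred_eq, Fin.exists_fin_succ, IsEmpty.exists_iff]
      fin_cases l <;> simp_all
    rw [e, ← range_emb c 0 (show 0 + 2 ≤ 3 by omega)]
    rintro _ ⟨_, ⟨_, ⟨z, rfl⟩, rfl⟩, rfl⟩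
    exact ⟨_, ⟨z, rfl⟩, by simp [S.cyc]⟩

theorem P_le_Fam [Fintype F] (hF : Nat.card F = q ^ 2) (hq : 3 < q) (d : ℕ) : ∀ (i : ℕ) (_ : i + d < k + 4) (_ : 0 < d) (σ : alternatingGroup (Fin (k + 4))),
    (((σ.1 0 : ℕ) = i ∧ (σ.1 1 : ℕ) = i + d) ∨ ((σ.1 0 : ℕ) = i + d ∧ (σ.1 1 : ℕ) = i)) →
      S.P σ ≤ S.cover.Fam 0 := by
  induction d using Nat.strong_induction_on with
  | h d ih =>
    intro i hd hpos σ hσ
    rcases (show d = 1 ∨ 2 ≤ d by omega) with rfl | h2
    · rw [← S.blockS_eq (by omega) hσ]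
      exact S.cover.S_le_Fam (Nat.zero_le i) (by omega)
    -- a cycle on three consecutive points ending at `i + d`
    obtain ⟨e, rfl⟩ : ∃ e, d = e + 2 := ⟨d - 2, by omega⟩
    obtain ⟨w, w1, hw⟩ := exists_window (k := k) (i := i + e) (by omega)
    have hwin : S.P w ⊔ S.P (w * c012) ≤ S.cover.Fam 0 := by
      refine sup_le ?_ ?_
      · rcases hw with ⟨w0, -⟩ | ⟨w0, -⟩
        · rw [← S.blockS_eq (i := i + e) (by omega) (Or.inl ⟨w0, w1⟩)]
          exact S.cover.S_le_Fam (Nat.zero_le _) (by omega)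
        · rw [← S.blockS_eq (i := i + e + 1) (by omega) (Or.inr ⟨w0, w1⟩)]
          exact S.cover.S_le_Fam (Nat.zero_le _) (by omega)
      · have e0 : (w * c012).1 0 = w.1 1 := by rw [Subgroup.coe_mul, Perm.mul_apply, c012_zero]
        have e1 : (w * c012).1 1 = w.1 2 := by rw [Subgroup.coe_mul, Perm.mul_apply, c012_one]
        rcases hw with ⟨-, w2⟩ | ⟨-, w2⟩
        · rw [← S.blockS_eq (i := i + e + 1) (by omega) (σ := w * c012) (Or.inl ⟨by rw [e0, w1], by rw [e1, w2]⟩)]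
          exact S.cover.S_le_Fam (Nat.zero_le _) (by omega)
        · rw [← S.blockS_eq (i := i + e) (by omega) (σ := w * c012) (Or.inr ⟨by rw [e0, w1], by rw [e1, w2]⟩)]
          exact S.cover.S_le_Fam (Nat.zero_le _) (by omega)
    have hcyc : S.ρ (w * c012 * w⁻¹) ∈ S.cover.Fam 0 := by
      exact hwin (S.range_le_blocks hF hq w ⟨_, ⟨pmU rot3, S.cyc⟩, by simp⟩)
    set u := w * c012 * w⁻¹ with hu
    -- the powers of the cycle moving a shorter pair to the given one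
    have hmove : ∀ (j : ℕ) (v : alternatingGroup (Fin (k + 4))), v = u ∨ v = u⁻¹ →
        j + 1 ≤ e + 2 → ∀ x y : Fin (k + 4), (x : ℕ) = i → (y : ℕ) = i + j + 1 →
        ((v.1 x : ℕ) = i ∧ (v.1 y : ℕ) = i + (e + 2) ∨ (v.1 x : ℕ) = i + (e + 2) ∧ (v.1 y : ℕ) = i) →
        j + 1 < e + 2 → S.P σ ≤ S.cover.Fam 0 := by
      intro j v hv _ x y hx hy hxy hlt
      have hne : x ≠ y := fun e' => by rw [e'] at hx; omega
      obtain ⟨τ, t0, t1⟩ := exists_even_pair hne
      have hτ := ih (j + 1) hlt i (by omega) (by omega) τ (Or.inl ⟨by rw [t0, hx], by rw [t1, hy]; ring⟩)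
      have eσ : S.P σ = S.P (v * τ) := by
        refine S.P_congr ?_
        simp only [Subgroup.coe_mul, Perm.mul_apply, t0, t1]
        rcases hσ with ⟨s0, s1⟩ | ⟨s0, s1⟩ <;> rcases hxy with ⟨a, b⟩ | ⟨a, b⟩
        · exact Or.inl ⟨Fin.ext (s0.trans a.symm), Fin.ext (s1.trans b.symm)⟩
        · exact Or.inr ⟨Fin.ext (s0.trans b.symm), Fin.ext (s1.trans a.symm)⟩
        · exact Or.inr ⟨Fin.ext (s0.trans b.symm), Fin.ext (s1.trans a.symm)⟩
        · exact Or.inl ⟨Fin.ext (s0.trans a.symm), Fin.ext (s1.trans b.symm)⟩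
      have hvm : S.ρ v ∈ S.cover.Fam 0 := by
        rcases hv with rfl | rfl
        · exact hcyc
        · rw [map_inv]; exact inv_mem hcyc
      rw [eσ, P_mul]
      rintro _ ⟨z, hz, rfl⟩
      exact mul_mem (mul_mem hvm (hτ hz)) (inv_mem hvm)
    have hu' : ∀ z, u.1 (w.1 z) = w.1 (c012.1 z) := fun z => by simp [hu]
    have hui : ∀ z, (u⁻¹).1 (w.1 (c012.1 z)) = w.1 z := fun z => by
      rw [← hu', Subgroup.coe_inv, Perm.inv_def, Equiv.symm_apply_apply]
    have hout : ∀ z : Fin (k + 4), ((z : ℕ) < i + e ∨ i + e + 2 < z) → u.1 z = z ∧ (u⁻¹).1 z = z := by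
      intro z hz
      have h : u.1 z = z := by
        obtain ⟨y, rfl⟩ := w.1.surjective z
        rw [hu', show (c012 : alternatingGroup (Fin (k + 4))).1 y = y from cyc3_apply_other
          (fun e' => by subst e'; rcases hw with ⟨a, -⟩ | ⟨a, -⟩ <;> omega) (fun e' => by subst e'; omega)
          (fun e' => by subst e'; rcases hw with ⟨-, a⟩ | ⟨-, a⟩ <;> omega)]
      exact ⟨h, by rw [Subgroup.coe_inv, Perm.inv_eq_iff_eq, h]⟩
    rcases hw with ⟨w0, w2⟩ | ⟨w0, w2⟩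
    · -- the cycle goes upwards
      have m0 := hu' 0; rw [c012_zero] at m0
      have m1 := hu' 1; rw [c012_one] at m1
      rcases Nat.eq_zero_or_pos e with rfl | he
      · exact hmove 0 u⁻¹ (Or.inr rfl) (by omega) (w.1 0) (w.1 1) (by omega) (by omega)
          (Or.inr ⟨by have := hui 2; rw [c012_two] at this; rw [this]; omega,
            by have := hui 0; rw [c012_zero] at this; rw [this]; omega⟩) (by omega)
      · exact hmove e u (Or.inl rfl) (by omega) ⟨i, by omega⟩ (w.1 1) rfl (by omega)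
          (Or.inl ⟨by rw [(hout _ (Or.inl (show i < i + e by omega))).1], by rw [m1]; omega⟩) (by omega)
    · -- the cycle goes downwards
      have m1 := hu' 1; rw [c012_one] at m1
      have n1 := hui 0; rw [c012_zero] at n1
      rcases Nat.eq_zero_or_pos e with rfl | he
      · have m2 := hu' 2; rw [c012_two] at m2
        exact hmove 0 u (Or.inl rfl) (by omega) (w.1 2) (w.1 1) (by omega) (by omega)
          (Or.inr ⟨by rw [m2]; omega, by rw [m1]; omega⟩) (by omega)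
      · exact hmove e u⁻¹ (Or.inr rfl) (by omega) ⟨i, by omega⟩ (w.1 1) rfl (by omega)
          (Or.inl ⟨by rw [(hout _ (Or.inl (show i < i + e by omega))).2], by rw [n1]; omega⟩) (by omega)

/-- Any group generated by the two copies in this way is `SU_n(q)`. -/
theorem bijective [Fintype F] (hF : Nat.card F = q ^ 2) (hq : 3 < q) (hgen : S.ρ.range ⊔ S.α.range = ⊤) :
    Function.Bijective S.π := by
  refine S.cover.bijective hF hq ?_
  have hP : ∀ σ, S.P σ ≤ S.cover.Fam 0 := by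
    intro σ
    have hne : (σ.1 0 : ℕ) ≠ (σ.1 1 : ℕ) := fun e => zero_ne_one' (σ.1.injective (Fin.ext e))
    rcases Nat.lt_or_gt_of_ne hne with h | h
    · exact S.P_le_Fam hF hq ((σ.1 1 : ℕ) - σ.1 0) (σ.1 0) (by omega) (by omega) σ (Or.inl ⟨rfl, by omega⟩)
    · exact S.P_le_Fam hF hq ((σ.1 0 : ℕ) - σ.1 1) (σ.1 1) (by omega) (by omega) σ (Or.inr ⟨by omega, rfl⟩)
  have hα : ∀ σ, S.α.range.map (MulAut.conj (S.ρ σ)).toMonoidHom ≤ S.cover.Fam 0 := by
    intro σ
    refine (S.range_le_blocks hF hq σ).trans (sup_le (hP _) (hP _))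
  have hρ : ∀ σ, S.ρ σ ∈ S.cover.Fam 0 := by
    have h : Subgroup.normalClosure {(c012 : alternatingGroup (Fin (k + 4)))} ≤ (S.cover.Fam 0).comap S.ρ := by
      refine (Subgroup.closure_le _).2 ?_
      intro x hx
      rw [Group.mem_conjugatesOfSet_iff] at hx
      obtain ⟨y, rfl, hy⟩ := hx
      obtain ⟨τ, rfl⟩ := isConj_iff.1 hy
      exact hα τ ⟨_, ⟨pmU rot3, S.cyc⟩, by simp⟩
    rw [eq_top_of_cyc3_mem (N := Subgroup.normalClosure {(c012 : alternatingGroup (Fin (k + 4)))})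
      (Subgroup.subset_normalClosure rfl)] at h
    exact fun σ => h (Subgroup.mem_top σ)
  rw [eq_top_iff, ← hgen]
  refine sup_le (fun x ⟨σ, e⟩ => e ▸ hρ σ) ?_
  have := hα 1
  rw [map_one, map_one] at this
  exact le_trans (le_of_eq (Subgroup.map_id _).symm) this

end Setting

end CfsgLib.SUPres
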