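import Cfsg.Agent.Lib.SLnPres.Perm
import Cfsg.Agent.Lib.SLnPres.Model
import Cfsg.Agent.Lib.ShortPres.Carmichael

/-!
Even permutations moving triples of points: existence, the stabiliser of the first triple, and generation by the
three-cycles on consecutive points.
-/

set_option autoImplicit false
set_option linter.unusedSectionVars false

namespace CfsgLib.SUPres

open Equiv CfsgLib.SLnPres

/-- A permutation with prescribed values on an injective family. -/
theorem exists_perm_inj {α : Type*} [DecidableEq α] : ∀ {r : ℕ} (f g : Fin r → α),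
    Function.Injective f → Function.Injective g → ∃ π : Perm α, ∀ i, π (f i) = g i
  | 0, _, _, _, _ => ⟨1, fun i => i.elim0⟩
  | r + 1, f, g, hf, hg => by
    obtain ⟨π, hπ⟩ := exists_perm_inj (fun i : Fin r => f i.castSucc) (fun i => g i.castSucc)
      (hf.comp (Fin.castSucc_injective r)) (hg.comp (Fin.castSucc_injective r))
    refine ⟨swap (π (f (Fin.last r))) (g (Fin.last r)) * π, fun i => ?_⟩
    induction i using Fin.lastCases with
    | last => simp
    | cast i =>
      rw [Perm.mul_apply, hπ, swap_apply_of_ne_of_ne]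
      · intro h
        rw [← hπ] at h
        exact (Fin.castSucc_lt_last i).ne (hf (π.injective h))
      · exact fun h => (Fin.castSucc_lt_last i).ne (hg h)

/-- An even permutation with prescribed values on an injective family, up to the order of the first two. -/
theorem exists_even_inj {α : Type*} [DecidableEq α] [Fintype α] {r : ℕ} (f g : Fin (r + 2) → α)
    (hf : Function.Injective f) (hg : Function.Injective g) :
    ∃ σ : alternatingGroup α, ((σ.1 (f 0) = g 0 ∧ σ.1 (f 1) = g 1) ∨ (σ.1 (f 0) = g 1 ∧ σ.1 (f 1) = g 0)) ∧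
      ∀ i, i ≠ 0 → i ≠ 1 → σ.1 (f i) = g i := by
  obtain ⟨π, hπ⟩ := exists_perm_inj f g hf hg
  have h01 : f 0 ≠ f 1 := fun h => by simpa using hf h
  rcases Int.units_eq_one_or (Perm.sign π) with hs | hs
  · exact ⟨⟨π, hs⟩, Or.inl ⟨hπ 0, hπ 1⟩, fun i _ _ => hπ i⟩
  · refine ⟨⟨π * swap (f 0) (f 1), ?_⟩, Or.inr ⟨?_, ?_⟩, fun i h0 h1 => ?_⟩
    · show Perm.sign (π * swap (f 0) (f 1)) = 1
      rw [map_mul, hs, Perm.sign_swap h01]; rfl
    · simp [hπ]
    · simp [hπ]
    · show (π * swap (f 0) (f 1)) (f i) = g i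
      rw [Perm.mul_apply, swap_apply_of_ne_of_ne (fun h => h0 (hf h)) (fun h => h1 (hf h)), hπ]

variable {k : ℕ}

/-- The first triple of points. -/
def tri (k : ℕ) : Set (Fin (k + 1 + 4)) := {l | (l : ℕ) < 3}

/-- The image of the first triple. -/
def img (σ : alternatingGroup (Fin (k + 1 + 4))) : Set (Fin (k + 1 + 4)) := σ.1 '' tri k

theorem img_one : img (1 : alternatingGroup (Fin (k + 1 + 4))) = tri k := Set.image_id _

theorem img_mul (σ τ : alternatingGroup (Fin (k + 1 + 4))) : img (σ * τ) = σ.1 '' img τ := by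
  rw [img, img, ← Set.image_comp]
  rfl

theorem mem_img {σ : alternatingGroup (Fin (k + 1 + 4))} {l : Fin (k + 1 + 4)} :
    l ∈ img σ ↔ l = σ.1 0 ∨ l = σ.1 1 ∨ l = σ.1 2 := by
  constructor
  · rintro ⟨j, hj, rfl⟩
    have hj' : (j : ℕ) < 3 := hj
    rcases (show (j : ℕ) = 0 ∨ (j : ℕ) = 1 ∨ (j : ℕ) = 2 by omega) with h | h | h
    · exact Or.inl (congrArg _ (Fin.ext h))
    · exact Or.inr (Or.inl (congrArg _ (Fin.ext (h.trans val_one'.symm))))
    · exact Or.inr (Or.inr (congrArg _ (Fin.ext (h.trans val_two'.symm))))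
  · rintro (rfl | rfl | rfl)
    · exact ⟨0, show _ < 3 by simp, rfl⟩
    · exact ⟨1, show _ < 3 by rw [val_one']; omega, rfl⟩
    · exact ⟨2, show _ < 3 by rw [val_two']; omega, rfl⟩

/-- An even permutation with prescribed images of the first four points, up to the order of the first two. -/
theorem exists_four {p₀ p₁ p₂ p₃ : Fin (k + 1 + 4)} (h01 : p₀ ≠ p₁) (h02 : p₀ ≠ p₂) (h03 : p₀ ≠ p₃)
    (h12 : p₁ ≠ p₂) (h13 : p₁ ≠ p₃) (h23 : p₂ ≠ p₃) :
    ∃ σ : alternatingGroup (Fin (k + 1 + 4)),
      ((σ.1 0 = p₀ ∧ σ.1 1 = p₁) ∨ (σ.1 0 = p₁ ∧ σ.1 1 = p₀)) ∧ σ.1 2 = p₂ ∧ σ.1 3 = p₃ := by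
  obtain ⟨σ, h, h'⟩ := exists_even_inj (![0, 1, 2, 3] : Fin 4 → Fin (k + 1 + 4)) ![p₀, p₁, p₂, p₃] (fun i j => by
      fin_cases i <;> fin_cases j <;>
        simp [SLnPres.zero_ne_one', zero_ne_two', zero_ne_three', one_ne_two', one_ne_three', two_ne_three', Ne.symm (SLnPres.zero_ne_one' (k := k + 1)), Ne.symm (zero_ne_two' (k := k + 1)), Ne.symm (zero_ne_three' (k := k + 1)), Ne.symm (one_ne_two' (k := k + 1)), Ne.symm (one_ne_three' (k := k + 1)), Ne.symm (two_ne_three' (k := k + 1))]) (fun i j => by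
      fin_cases i <;> fin_cases j <;>
        simp [h01, h02, h03, h12, h13, h23, h01.symm, h02.symm, h03.symm, h12.symm, h13.symm, h23.symm])
  exact ⟨σ, h, h' 2 (by decide) (by decide), h' 3 (by decide) (by decide)⟩

/-- The three-cycles on consecutive points generate the alternating group. -/
theorem eq_top_of_consecutive (N : Subgroup (alternatingGroup (Fin (k + 1 + 4))))
    (h : ∀ i (h3 : i + 3 ≤ k + 1 + 4), (⟨cyc3 ⟨i, by omega⟩ ⟨i + 1, by omega⟩ ⟨i + 2, by omega⟩,
      sign_cyc3 (fin_ne _ _ (by omega)) (fin_ne _ _ (by omega))⟩ : alternatingGroup _) ∈ N) : N = ⊤ := by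
  let M := N.map (alternatingGroup _).subtype
  let p : ∀ i : ℕ, i < k + 1 + 4 → Fin (k + 1 + 4) := fun i hi => ⟨i, hi⟩
  have hw : ∀ i (h3 : i + 2 < k + 1 + 4), cyc3 (p i (by omega)) (p (i + 1) (by omega)) (p (i + 2) h3) ∈ M :=
    fun i h3 => ⟨_, h i (by omega), rfl⟩
  have hne : ∀ {i j : ℕ} (hi : i < k + 1 + 4) (hj : j < k + 1 + 4), i ≠ j → p i hi ≠ p j hj :=
    fun hi hj e => fin_ne hi hj e
  -- the cycles through the first two points
  have hstar : ∀ x (hx : x < k + 1 + 4), 2 ≤ x →
      cyc3 (p 0 (by omega)) (p 1 (by omega)) (p x hx) ∈ M := by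
    intro x hx h2
    induction x, h2 using Nat.le_induction with
    | base => exact hw 0 _
    | succ x h2 ih =>
      have ih' := ih (by omega)
      rcases eq_or_lt_of_le h2 with rfl | h3
      · have h1 := hw 1 (show 1 + 2 < k + 1 + 4 by omega)
        have h0 := hw 0 (show 0 + 2 < k + 1 + 4 by omega)
        have hc := mul_mem (mul_mem (mul_mem h0 h0) h1) (inv_mem (mul_mem h0 h0))
        rw [conj_cyc3, Perm.mul_apply, Perm.mul_apply, Perm.mul_apply] at hc
        have n01 := hne (i := 0) (j := 1) (by omega) (by omega) (by omega)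
        have n02 := hne (i := 0) (j := 2) (by omega) (by omega) (by omega)
        have n12 := hne (i := 1) (j := 2) (by omega) (by omega) (by omega)
        have n30 := hne (i := 3) (j := 0) (by omega) (by omega) (by omega)
        have n31 := hne (i := 3) (j := 1) (by omega) (by omega) (by omega)
        have n32 := hne (i := 3) (j := 2) (by omega) (by omega) (by omega)
        rw [cyc3_apply_mid n12 n02, cyc3_apply_right, cyc3_apply_left n01 n02,
          cyc3_apply_other n30 n31 n32, cyc3_apply_other n30 n31 n32] at hc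
        exact hc
      · obtain ⟨y, rfl⟩ : ∃ y, x = y + 1 := ⟨x - 1, by omega⟩
        have hc := mul_mem (mul_mem (hw y (show y + 2 < k + 1 + 4 by omega)) ih')
          (inv_mem (hw y (show y + 2 < k + 1 + 4 by omega)))
        rw [conj_cyc3,
          cyc3_apply_other (hne (i := 0) (j := y) (by omega) (by omega) (by omega))
            (hne (i := 0) (j := y + 1) (by omega) (by omega) (by omega))
            (hne (i := 0) (j := y + 2) (by omega) (by omega) (by omega)),
          cyc3_apply_other (hne (i := 1) (j := y) (by omega) (by omega) (by omega))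
            (hne (i := 1) (j := y + 1) (by omega) (by omega) (by omega))
            (hne (i := 1) (j := y + 2) (by omega) (by omega) (by omega)),
          cyc3_apply_mid (hne (i := y + 1) (j := y + 2) (by omega) (by omega) (by omega))
            (hne (i := y) (j := y + 2) (by omega) (by omega) (by omega))] at hc
        exact hc
  let e : Bool ⊕ Fin (k + 3) ≃ Fin (k + 1 + 4) :=
    { toFun := fun x => match x with
        | .inl false => p 0 (by omega)
        | .inl true => p 1 (by omega)
        | .inr i => p (i + 2) (by omega)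
      invFun := fun x => if (x : ℕ) = 0 then .inl false else if h1 : (x : ℕ) = 1 then .inl true else
        .inr ⟨(x : ℕ) - 2, by have := x.isLt; omega⟩
      left_inv := by
        rintro ((_ | _) | i) <;> simp [p]
      right_inv := by
        intro x
        by_cases h0 : (x : ℕ) = 0
        · simp only [h0, if_true]; exact Fin.ext h0.symm
        by_cases h1 : (x : ℕ) = 1
        · simp only [h0, if_false, h1, dite_true]; exact Fin.ext h1.symm
        · simp only [h0, if_false, h1, dite_false]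
          exact Fin.ext (show (x : ℕ) - 2 + 2 = x by omega) }
  let E : Perm (Bool ⊕ Fin (k + 3)) →* Perm (Fin (k + 1 + 4)) := e.permCongrHom.toMonoidHom
  have hsw : ∀ a b, E (swap a b) = swap (e a) (e b) := fun a b => by
    show e.permCongr (swap a b) = _
    ext x
    simp only [Equiv.permCongr_apply, swap_apply_def, e.symm_apply_eq]
    split_ifs <;> simp
  have key : alternatingGroup (Bool ⊕ Fin (k + 3)) ≤ M.comap E := by
    rw [← ShortPres.closure_star, Subgroup.closure_le]
    rintro _ ⟨i, rfl⟩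
    show E (swap _ _ * swap _ _) ∈ M
    rw [map_mul, hsw, hsw]
    have hs : ∀ a b d : Fin (k + 1 + 4), a ≠ b → a ≠ d → b ≠ d → swap a d * swap a b = cyc3 a b d := by
      intro a b d hab had hbd
      ext x
      simp only [cyc3, Perm.mul_apply, swap_apply_def]
      split_ifs <;> simp_all
    show swap (p 0 _) (p (i + 2) _) * swap (p 0 _) (p 1 _) ∈ M
    rw [hs _ _ _ (hne _ _ (by omega)) (hne _ _ (by omega)) (hne _ _ (by omega))]
    exact hstar _ _ (by omega)
  rw [eq_top_iff]
  intro σ _
  have hσ : e.symm.permCongr σ.1 ∈ alternatingGroup (Bool ⊕ Fin (k + 3)) := by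
    show Perm.sign _ = 1
    rw [Perm.sign_permCongr]; exact σ.2
  have := key hσ
  rw [Subgroup.mem_comap, show E (e.symm.permCongr σ.1) = σ.1 by ext x; simp [E, Equiv.permCongr_apply]] at this
  obtain ⟨τ, hτ, e'⟩ := this
  obtain rfl : τ = σ := Subtype.ext e'
  exact hτ

/-- A splitting of the points after the first `a`. -/
def splitAt {a b : ℕ} (h : a + b = k + 1 + 4) : Fin a ⊕ Fin b ≃ Fin (k + 1 + 4) :=
  finSumFinEquiv.trans (finCongr h)

theorem splitAt_inl {a b : ℕ} (h : a + b = k + 1 + 4) (x : Fin a) : ((splitAt (k := k) h (Sum.inl x) : Fin _) : ℕ) = x := by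
  simp [splitAt]

theorem splitAt_inr {a b : ℕ} (h : a + b = k + 1 + 4) (x : Fin b) :
    ((splitAt (k := k) h (Sum.inr x) : Fin _) : ℕ) = a + x := by
  simp [splitAt]

/-- Even permutations of the first four points. -/
def lowHom : alternatingGroup (Fin 4) →* alternatingGroup (Fin (k + 1 + 4)) :=
  (((splitAt (k := k) (show 4 + (k + 1) = k + 1 + 4 by omega)).permCongrHom.toMonoidHom.comp
    ((Perm.sumCongrHom (Fin 4) (Fin (k + 1))).comp (MonoidHom.inl _ _))).comp
      (alternatingGroup (Fin 4)).subtype).codRestrict _ fun σ => by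
    show Perm.sign ((splitAt (k := k) (show 4 + (k + 1) = k + 1 + 4 by omega)).permCongr (Equiv.sumCongr σ.1 1)) = 1
    rw [Perm.sign_permCongr, Perm.sign_sumCongr, map_one, mul_one]
    exact σ.2

theorem lowHom_apply_low (σ : alternatingGroup (Fin 4)) (x : Fin 4) :
    (lowHom (k := k) σ).1 (Fin.castLE (by omega) x) = Fin.castLE (by omega) (σ.1 x) := by
  have e : ∀ y : Fin 4, splitAt (k := k) (show 4 + (k + 1) = k + 1 + 4 by omega) (Sum.inl y) =
      Fin.castLE (by omega) y := fun y => Fin.ext (splitAt_inl _ y)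
  rw [← e, ← e]
  show (splitAt _).permCongr (Equiv.sumCongr σ.1 1) _ = _
  rw [Equiv.permCongr_apply, Equiv.symm_apply_apply]
  rfl

theorem lowHom_apply_high (σ : alternatingGroup (Fin 4)) {x : Fin (k + 1 + 4)} (hx : 4 ≤ (x : ℕ)) :
    (lowHom (k := k) σ).1 x = x := by
  have e : splitAt (k := k) (show 4 + (k + 1) = k + 1 + 4 by omega) (Sum.inr ⟨(x : ℕ) - 4, by omega⟩) = x :=
    Fin.ext (by rw [splitAt_inr]; show 4 + ((x : ℕ) - 4) = x; omega)
  conv_lhs => rw [← e]
  show (splitAt _).permCongr (Equiv.sumCongr σ.1 1) _ = _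
  rw [Equiv.permCongr_apply, Equiv.symm_apply_apply]
  exact e

/-- Two elements generating the alternating group of degree four. -/
def rot4 : alternatingGroup (Fin 4) := ⟨cyc3 0 1 2, sign_cyc3 (by decide) (by decide)⟩

/-- The second of them. -/
def flip4 : alternatingGroup (Fin 4) := ⟨swap 0 1 * swap 2 3, show Perm.sign _ = 1 by decide⟩

theorem closure_alt_four : Subgroup.closure ({rot4, flip4} : Set (alternatingGroup (Fin 4))) = ⊤ := by
  rw [eq_top_iff]
  intro σ _
  have h : ∀ σ : alternatingGroup (Fin 4), ∃ i j l : Fin 3,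
      σ = rot4 ^ (i : ℕ) * flip4 * rot4 ^ (j : ℕ) ∨ σ = rot4 ^ (l : ℕ) := by decide +kernel
  have hr : rot4 ∈ Subgroup.closure ({rot4, flip4} : Set (alternatingGroup (Fin 4))) :=
    Subgroup.subset_closure (Or.inl rfl)
  have hf : flip4 ∈ Subgroup.closure ({rot4, flip4} : Set (alternatingGroup (Fin 4))) :=
    Subgroup.subset_closure (Or.inr rfl)
  obtain ⟨i, j, l, h | h⟩ := h σ <;> rw [h]
  · exact mul_mem (mul_mem (pow_mem hr _) hf) (pow_mem hr _)
  · exact pow_mem hr _

/-- The odd part on the first triple. -/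
def oddPart : ℤˣ →* Perm (Fin 3) :=
  MonoidHom.mk' (fun u : ℤˣ => if u = 1 then 1 else swap 0 1) (by decide)

/-- A permutation of the later points, made even on the first triple. -/
def evTail : Perm (Fin (k + 2)) →* alternatingGroup (Fin (k + 1 + 4)) :=
  ((splitAt (k := k) (show 3 + (k + 2) = k + 1 + 4 by omega)).permCongrHom.toMonoidHom.comp
    ((Perm.sumCongrHom (Fin 3) (Fin (k + 2))).comp ((oddPart.comp Perm.sign).prod (MonoidHom.id _)))).codRestrict _
      fun μ => by
    show Perm.sign ((splitAt (k := k) (show 3 + (k + 2) = k + 1 + 4 by omega)).permCongr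
      (Equiv.sumCongr (oddPart (Perm.sign μ)) μ)) = 1
    rw [Perm.sign_permCongr, Perm.sign_sumCongr]
    rcases Int.units_eq_one_or (Perm.sign μ) with h | h <;> rw [h]
    · rw [map_one, map_one, one_mul]
    · show Perm.sign (if (-1 : ℤˣ) = 1 then 1 else swap (0 : Fin 3) 1) * -1 = 1
      rw [if_neg (by decide), Perm.sign_swap (by decide)]; rfl

theorem img_evTail (μ : Perm (Fin (k + 2))) : img (evTail (k := k) μ) = tri k := by
  set e := splitAt (k := k) (show 3 + (k + 2) = k + 1 + 4 by omega)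
  have htri : tri k = Set.range fun x : Fin 3 => e (Sum.inl x) := by
    ext l
    constructor
    · intro hl
      have hl' : (l : ℕ) < 3 := hl
      exact ⟨⟨l, hl'⟩, Fin.ext (splitAt_inl _ _)⟩
    · rintro ⟨x, rfl⟩
      show _ < 3
      rw [splitAt_inl]; exact x.isLt
  have h : ∀ x, (evTail (k := k) μ).1 (e (Sum.inl x)) = e (Sum.inl (oddPart (Perm.sign μ) x)) := fun x => by
    show e.permCongr (Equiv.sumCongr (oddPart (Perm.sign μ)) μ) _ = _
    rw [Equiv.permCongr_apply, Equiv.symm_apply_apply]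
    rfl
  rw [img, htri, ← Set.range_comp]
  simp only [Function.comp_def, h]
  exact (oddPart (Perm.sign μ)).surjective.range_comp (fun y => e (Sum.inl y))

/-- An even permutation keeping the first triple is a three-cycle power times an evened tail. -/
theorem exists_evTail {σ : alternatingGroup (Fin (k + 1 + 4))} (h : img σ = tri k) :
    ∃ (τ : alternatingGroup (Fin 4)) (μ : Perm (Fin (k + 2))), τ.1 3 = 3 ∧ σ = lowHom τ * evTail μ := by
  set e := splitAt (k := k) (show 3 + (k + 2) = k + 1 + 4 by omega)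
  have hmem : e.symm.permCongr σ.1 ∈ (Perm.sumCongrHom (Fin 3) (Fin (k + 2))).range := by
    refine Perm.mem_sumCongrHom_range_of_perm_mapsTo_inl ?_
    rintro _ ⟨x, rfl⟩
    have hx : σ.1 (e (Sum.inl x)) ∈ tri k := h ▸ ⟨e (Sum.inl x), show _ < 3 by rw [splitAt_inl]; exact x.isLt, rfl⟩
    refine ⟨⟨_, hx⟩, ?_⟩
    show _ = e.symm.permCongr σ.1 (Sum.inl x)
    rw [Equiv.permCongr_apply, Equiv.symm_symm, Equiv.eq_symm_apply]
    exact Fin.ext (splitAt_inl _ _)
  obtain ⟨⟨a, μ⟩, he⟩ := hmem
  have hsign : Perm.sign a * Perm.sign μ = 1 := by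
    have he' : Perm.sumCongr a μ = e.symm.permCongr σ.1 := he
    rw [← Perm.sign_sumCongr, he', Perm.sign_permCongr]
    exact σ.2
  have hlift : ∀ b : Perm (Fin 3), Perm.sign b = 1 →
      ∃ τ : alternatingGroup (Fin 4), τ.1 3 = 3 ∧ ∀ x : Fin 3, τ.1 x.castSucc = (b x).castSucc := by
    decide +kernel
  obtain ⟨τ, hτ3, hτ⟩ := hlift (a * (oddPart (Perm.sign μ))⁻¹) (by
    rcases Int.units_eq_one_or (Perm.sign μ) with hu | hu <;> rw [hu] at hsign ⊢
    · rw [map_one, inv_one, mul_one]; simpa using hsign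
    · show Perm.sign (a * (if (-1 : ℤˣ) = 1 then 1 else swap (0 : Fin 3) 1)⁻¹) = 1
      rw [if_neg (by decide), map_mul, map_inv, Perm.sign_swap (by decide)]
      simpa using hsign)
  refine ⟨τ, μ, hτ3, Subtype.ext (Perm.ext fun y => ?_)⟩
  obtain ⟨x, rfl⟩ := e.surjective y
  have hσ : σ.1 (e x) = e (Perm.sumCongr a μ x) := by
    have he' : Perm.sumCongr a μ = e.symm.permCongr σ.1 := he
    rw [he', Equiv.permCongr_apply]
    simp
  rw [hσ, Subgroup.coe_mul, Perm.mul_apply,
    show (evTail (k := k) μ).1 (e x) = e (Equiv.sumCongr (oddPart (Perm.sign μ)) μ x) by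
      show e.permCongr (Equiv.sumCongr (oddPart (Perm.sign μ)) μ) _ = _
      rw [Equiv.permCongr_apply, Equiv.symm_apply_apply]]
  rcases x with x | x <;> simp only [Equiv.sumCongr_apply, Sum.map_inl, Sum.map_inr]
  · have hin : ∀ z : Fin 3, e (Sum.inl z) = Fin.castLE (by omega) z.castSucc := fun z =>
      Fin.ext (by rw [splitAt_inl]; rfl)
    rw [hin, hin, lowHom_apply_low, hτ]
    simp
  · rcases Nat.eq_zero_or_pos (μ x : ℕ) with h0 | h0
    · have e3 : e (Sum.inr (μ x)) = Fin.castLE (by omega) (3 : Fin 4) :=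
        Fin.ext (by rw [splitAt_inr, h0]; rfl)
      rw [e3, lowHom_apply_low, hτ3]
    · rw [lowHom_apply_high]
      rw [splitAt_inr]; omega

/-- Two generators of the evened tails. -/
theorem evTail_mem {H : Subgroup (alternatingGroup (Fin (k + 1 + 4)))} (h1 : evTail (finRotate (k + 2)) ∈ H)
    (h2 : evTail (swap 0 (finRotate (k + 2) 0)) ∈ H) (μ : Perm (Fin (k + 2))) : evTail μ ∈ H := by
  have h := Perm.closure_cycle_adjacent_swap (isCycle_finRotate (n := k)) (support_finRotate (n := k)) 0
  have hle : Subgroup.closure ({finRotate (k + 2), swap 0 (finRotate (k + 2) 0)} : Set (Perm (Fin (k + 2)))) ≤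
      H.comap evTail := by
    rw [Subgroup.closure_le]; rintro x (rfl | rfl) <;> assumption
  exact hle (h ▸ Subgroup.mem_top μ)

end CfsgLib.SUPres
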