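import Cfsg.Agent.Lib.SUPres.Perm
import Cfsg.Agent.Lib.SUPres.QuadPerm
import Cfsg.Agent.Lib.SUPres.Cover3

/-!
Groups generated by a copy of `SU₄(q)` and of the alternating group of degree at least five in which the triple
blocks move coherently: they are `SU_n(q)`, for every `q`.
-/

set_option autoImplicit false
set_option linter.unusedSectionVars false

namespace CfsgLib.SUPres

open CfsgLib.SUAmalgam CfsgLib.ClassicalForms CfsgLib.SLnPres Equiv

variable {F : Type*} [Field F] {q n k : ℕ}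

theorem Fix_mono {s t : Set (Fin n)} (h : s ⊆ t) : Fix n F q s ≤ Fix n F q t :=
  fun _ hg l hl => hg l fun hs => hl (h hs)

theorem pmU_mem_Fix {σ : alternatingGroup (Fin n)} {s : Set (Fin n)} (h : ∀ l, l ∉ s → σ.1 l = l) :
    (pmU σ : SUg n F q) ∈ Fix n F q s := fun l hl => by rw [act_pmU_single, h l hl]

/-- An even permutation matrix of the first four points. -/
theorem emb_pmU_low (c : Conj F q) (τ : alternatingGroup (Fin 4)) :
    emb c 0 (show 0 + 4 ≤ k + 1 + 4 by omega) (pmU τ) = (pmU (lowHom (k := k) τ) : SUg (k + 1 + 4) F q) := by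
  have h4 : 4 ≤ k + 1 + 4 := by omega
  refine ext_act fun l => funext fun a => ?_
  rw [act_pmU_single]
  have hsh : ∀ x : Fin 4, shift 0 (show 0 + 4 ≤ k + 1 + 4 by omega) x = Fin.castLE (by omega) x := fun x =>
    Fin.ext (Nat.zero_add _)
  by_cases ha : (a : ℕ) < 4
  · obtain ⟨b, rfl⟩ : ∃ b : Fin 4, shift 0 (show 0 + 4 ≤ k + 1 + 4 by omega) b = a :=
      ⟨⟨a, ha⟩, Fin.ext (Nat.zero_add _)⟩
    rw [act_emb_shift, act_pmU]
    simp only [Pi.single_apply, hsh]
    refine if_congr ?_ rfl rfl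
    constructor
    · intro h
      rw [← h, lowHom_apply_low]
      simp
    · intro h
      by_cases hl : (l : ℕ) < 4
      · obtain ⟨x, rfl⟩ : ∃ x : Fin 4, Fin.castLE h4 x = l := ⟨⟨l, hl⟩, rfl⟩
        rw [lowHom_apply_low] at h
        rw [Fin.castLE_inj] at h ⊢
        simp [h]
      · rw [lowHom_apply_high τ (not_lt.1 hl)] at h
        exact absurd (h ▸ (b.isLt : (Fin.castLE (show 4 ≤ k + 1 + 4 by omega) b : ℕ) < 4)) hl
  · rw [act_emb_other c 0 _ _ _ (Or.inr (by omega)), Pi.single_apply, Pi.single_apply]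
    refine if_congr ?_ rfl rfl
    conv_rhs => rw [← lowHom_apply_high (k := k) τ (not_lt.1 ha)]
    exact ((lowHom (k := k) τ).1).injective.eq_iff.symm

theorem h44 : 4 ≤ k + 1 + 4 := Nat.le_add_left _ _

/-- A copy of `SU₄(q)` and a copy of the alternating group over `SU_n(q)`, with the relations that make the triple
blocks move coherently and the disjoint ones commute. -/
structure Setting4 (c : Conj F q) (k : ℕ) (K : Type*) [Group K] where
  π : K →* SUg (k + 1 + 4) F q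
  ρ : alternatingGroup (Fin (k + 1 + 4)) →* K
  β : SUg 4 F q →* K
  π_ρ : ∀ σ, π (ρ σ) = pmU σ
  π_β : ∀ z, π (β z) = emb c 0 (by omega) z
  low : ∀ τ, ρ (lowHom τ) = β (pmU τ)
  fix : ∀ μ : Perm (Fin (k + 2)), ∀ z : SUg 3 F q, ∃ z',
    ρ (evTail μ) * β (emb c 0 (show 0 + 3 ≤ 4 by omega) z) * (ρ (evTail μ))⁻¹ =
      β (emb c 0 (show 0 + 3 ≤ 4 by omega) z')
  sh : alternatingGroup (Fin (k + 1 + 4))
  sh_five : k = 0 → img sh = {l : Fin (k + 1 + 4) | 2 ≤ (l : ℕ)}
  sh_six : 1 ≤ k → img sh = {l : Fin (k + 1 + 4) | 3 ≤ (l : ℕ) ∧ (l : ℕ) < 6}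
  disj_five : k = 0 → ∀ (x : SUg 2 F q) (z : SUg 3 F q),
    Commute (β (emb c 0 (show 0 + 2 ≤ 4 by omega) x))
      (ρ sh * β (emb c 0 (show 0 + 3 ≤ 4 by omega) z) * (ρ sh)⁻¹)
  disj_six : 1 ≤ k → ∀ (x z : SUg 3 F q),
    Commute (β (emb c 0 (show 0 + 3 ≤ 4 by omega) x))
      (ρ sh * β (emb c 0 (show 0 + 3 ≤ 4 by omega) z) * (ρ sh)⁻¹)

namespace Setting4

variable [Finite F] {c : Conj F q} {K : Type*} [Group K] (S : Setting4 c k K)

/-- The first triple block. -/
noncomputable def T0 : Subgroup K := (S.β.comp (emb c 0 (show 0 + 3 ≤ 4 by omega))).range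

/-- A moved block. -/
noncomputable def P (σ : alternatingGroup (Fin (k + 1 + 4))) : Subgroup K :=
  S.T0.map (MulAut.conj (S.ρ σ)).toMonoidHom

/-- A moved copy of `SU₄(q)`. -/
noncomputable def Q (σ : alternatingGroup (Fin (k + 1 + 4))) : Subgroup K :=
  S.β.range.map (MulAut.conj (S.ρ σ)).toMonoidHom

theorem P_one : S.P 1 = S.T0 := by
  rw [P, map_one, map_one]
  exact Subgroup.map_id _

theorem P_mul (σ τ : alternatingGroup (Fin (k + 1 + 4))) :
    S.P (σ * τ) = (S.P τ).map (MulAut.conj (S.ρ σ)).toMonoidHom := by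
  rw [P, P, Subgroup.map_map, map_mul, map_mul]
  rfl

theorem inj_β : KerFree S.π S.β.range := by
  rintro _ ⟨z, rfl⟩ h
  rw [S.π_β] at h
  rw [(injective_iff_map_eq_one _).1 (emb_injective c 0 _) z h, map_one]

theorem inj_Q (σ : alternatingGroup (Fin (k + 1 + 4))) : KerFree S.π (S.Q σ) := by
  rintro _ ⟨x, hx, rfl⟩ h
  have h' : S.π x = 1 := by simpa using h
  rw [S.inj_β x hx h']
  simp

theorem T0_le : S.T0 ≤ S.β.range := by rintro _ ⟨z, rfl⟩; exact ⟨_, rfl⟩

theorem finite_T0 : Finite S.T0 := Set.finite_coe_iff.2 (Set.finite_range _)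

theorem map_T0 : S.T0.map S.π = Fix (k + 1 + 4) F q (tri k) := by
  have h : Blk c (k + 1 + 4) 0 3 = Fix (k + 1 + 4) F q (tri k) := by
    rw [Blk_eq_Fix]
    congr 1
    ext l
    simp [tri]
  rw [← h, ← range_emb c 0 (show 0 + 3 ≤ k + 1 + 4 by omega), T0, MonoidHom.map_range]
  congr 1
  exact MonoidHom.ext fun z => by
    show S.π (S.β (emb c 0 _ z)) = _
    rw [S.π_β, emb_emb]

theorem map_P (σ : alternatingGroup (Fin (k + 1 + 4))) :
    (S.P σ).map S.π = Fix (k + 1 + 4) F q (img σ) := by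
  rw [P, Subgroup.map_map, show S.π.comp (MulAut.conj (S.ρ σ)).toMonoidHom =
      ((MulAut.conj (pmU σ)).toMonoidHom).comp S.π from MonoidHom.ext fun x => by simp [S.π_ρ],
    ← Subgroup.map_map, map_T0, map_conj_Fix]
  rfl

/-- An element of the first copy whose image lies in the first triple block is in that block. -/
theorem mem_T0 {x : K} (hx : x ∈ S.β.range) (h : S.π x ∈ Fix (k + 1 + 4) F q (tri k)) : x ∈ S.T0 := by
  rw [← S.map_T0] at h
  obtain ⟨y, hy, e⟩ := h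
  rwa [S.inj_β.eq hx (S.T0_le hy) e.symm]

theorem P_low (τ : alternatingGroup (Fin 4)) : S.P (lowHom τ) ≤ S.β.range := by
  rintro _ ⟨_, ⟨z, rfl⟩, rfl⟩
  show S.ρ (lowHom τ) * S.β _ * (S.ρ (lowHom τ))⁻¹ ∈ S.β.range
  rw [S.low, ← map_inv, ← map_mul, ← map_mul]
  exact ⟨_, rfl⟩

theorem P_evTail (μ : Perm (Fin (k + 2))) : S.P (evTail μ) = S.T0 := by
  have := S.finite_T0
  refine Subgroup.eq_of_le_of_card_ge ?_ ?_
  · rintro _ ⟨_, ⟨z, rfl⟩, rfl⟩
    obtain ⟨z', e⟩ := S.fix μ z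
    exact ⟨z', e.symm⟩
  · rw [P, Nat.card_congr (S.T0.equivMapOfInjective (MulAut.conj (S.ρ (evTail μ))).toMonoidHom
      (MulAut.conj (S.ρ (evTail μ))).injective).toEquiv]

/-- The moved block depends only on the triple of points. -/
theorem P_congr {σ σ' : alternatingGroup (Fin (k + 1 + 4))} (h : img σ = img σ') : S.P σ = S.P σ' := by
  have hu : img (σ'⁻¹ * σ) = tri k := by
    rw [img_mul, h, img, ← Set.image_comp]
    simp
  obtain ⟨τ, μ, hτ, e⟩ := exists_evTail hu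
  have hτP : S.P (lowHom τ) = S.T0 := by
    have := S.finite_T0
    refine Subgroup.eq_of_le_of_card_ge ?_ ?_
    · intro x hx
      refine S.mem_T0 (S.P_low τ hx) ?_
      have h1 : S.π x ∈ Fix (k + 1 + 4) F q (img (lowHom τ)) := S.map_P _ ▸ ⟨x, hx, rfl⟩
      refine Fix_mono ?_ h1
      rintro _ ⟨l, hl, rfl⟩
      have hl' : (l : ℕ) < 3 := hl
      obtain ⟨y, rfl⟩ : ∃ y : Fin 4, Fin.castLE h44 y = l := ⟨⟨l, by omega⟩, rfl⟩
      rw [lowHom_apply_low]
      show ((τ.1 y : Fin 4) : ℕ) < 3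
      have hy : τ.1 y ≠ 3 := fun e' => by
        rw [← hτ] at e'
        rw [τ.1.injective e'] at hl'
        simp at hl'
      have := (τ.1 y).isLt
      have : ((τ.1 y : Fin 4) : ℕ) ≠ 3 := fun e' => hy (Fin.ext e')
      omega
    · rw [P, Nat.card_congr (S.T0.equivMapOfInjective (MulAut.conj (S.ρ (lowHom τ))).toMonoidHom
        (MulAut.conj (S.ρ (lowHom τ))).injective).toEquiv]
  rw [show σ = σ' * (lowHom τ * evTail μ) by rw [← e, mul_inv_cancel_left], P_mul,
    show S.P (lowHom τ * evTail μ) = S.T0 from ?_]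
  · rfl
  · rw [P_mul, P_evTail, ← P, hτP]

theorem P_le_Q {σ σ' : alternatingGroup (Fin (k + 1 + 4))} (τ : alternatingGroup (Fin 4))
    (h : img σ' = img (σ * lowHom τ)) : S.P σ' ≤ S.Q σ := by
  rw [S.P_congr h, P_mul]
  exact Subgroup.map_mono (S.P_low τ)

theorem P_le_Q_self (σ : alternatingGroup (Fin (k + 1 + 4))) : S.P σ ≤ S.Q σ :=
  Subgroup.map_mono S.T0_le

/-- Blocks on disjoint triples commute. -/
theorem P_comm {σ σ' : alternatingGroup (Fin (k + 1 + 4))} (h : ∀ l, l ∈ img σ → l ∉ img σ') {a b : K}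
    (ha : a ∈ S.P σ) (hb : b ∈ S.P σ') : Commute a b := by
  have hk : 1 ≤ k := by
    by_contra hk
    obtain rfl : k = 0 := by omega
    have h1 : (img σ).ncard = 3 ∧ (img σ').ncard = 3 := by
      refine ⟨?_, ?_⟩ <;>
      · rw [img, Set.ncard_image_of_injective _ (Equiv.injective _)]
        have e : tri 0 = {(0 : Fin (0 + 1 + 4)), 1, 2} := by
          ext l; fin_cases l <;> simp [tri]
        rw [e]; exact Set.ncard_eq_three.2 ⟨0, 1, 2, by decide, by decide, by decide, rfl⟩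
    have h2 := Set.ncard_union_eq (Set.disjoint_left.2 h) (Set.toFinite _) (Set.toFinite _)
    have h3 := Set.ncard_le_ncard (Set.subset_univ (img σ ∪ img σ')) (Set.toFinite _)
    rw [Set.ncard_univ, Nat.card_eq_fintype_card, Fintype.card_fin] at h3
    omega
  have p : ∀ j, j < 6 → Fin (k + 1 + 4) := fun j hj => ⟨j, by omega⟩
  set τ := σ⁻¹ * σ'
  have hτ : ∀ l, l ∈ img τ → 3 ≤ (l : ℕ) := by
    intro l hl
    by_contra hlt
    have h1 : σ.1 l ∈ img σ := ⟨l, show _ < 3 by omega, rfl⟩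
    refine h _ h1 ?_
    rw [show σ' = σ * τ by simp [τ], img_mul]
    exact ⟨l, hl, rfl⟩
  have hne : ∀ {i j : Fin 3}, i ≠ j → τ.1 (pt (k := k + 1) i) ≠ τ.1 (pt j) := fun hij e =>
    pt_ne hij (τ.1.injective e)
  have hmem : ∀ i : Fin 3, τ.1 (pt (k := k + 1) i) ∈ img τ := fun i => ⟨_, show _ < 3 from i.isLt, rfl⟩
  obtain ⟨w, hw01, hw⟩ := exists_even_inj
    (fun i : Fin 6 => (⟨i, by have := i.isLt; omega⟩ : Fin (k + 1 + 4)))
    (fun i : Fin 6 => if h : (i : ℕ) < 3 then (⟨i, by omega⟩ : Fin (k + 1 + 4))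
      else τ.1 (pt ⟨(i : ℕ) - 3, by omega⟩))
    (fun i j e => by simpa [Fin.ext_iff] using e) (fun i j e => by
      dsimp only at e
      split_ifs at e with hi hj hj
      · exact Fin.ext (by simpa [Fin.ext_iff] using e)
      · have := hτ _ (hmem ⟨(j : ℕ) - 3, by omega⟩)
        rw [← e] at this; simp at this; omega
      · have := hτ _ (hmem ⟨(i : ℕ) - 3, by omega⟩)
        rw [e] at this; simp at this; omega
      · by_contra hij
        exact hne (fun e' => hij (Fin.ext (by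
          have := congrArg Fin.val e'
          simp only at this
          omega))) e)
  have v2 : (w.1 2 : ℕ) = 2 := by
    have a2 := hw 2 (by decide) (by decide)
    rw [dif_pos (show ((2 : Fin 6) : ℕ) < 3 by decide)] at a2
    rw [show (2 : Fin (k + 1 + 4)) = ⟨((2 : Fin 6) : ℕ), by simp⟩ from Fin.ext val_two', a2]
    rfl
  have v01 : ((w.1 0 : ℕ) = 0 ∧ (w.1 1 : ℕ) = 1) ∨ ((w.1 0 : ℕ) = 1 ∧ (w.1 1 : ℕ) = 0) := by
    have e0 : (0 : Fin (k + 1 + 4)) = ⟨((0 : Fin 6) : ℕ), by simp⟩ := Fin.ext rfl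
    have e1 : (1 : Fin (k + 1 + 4)) = ⟨((1 : Fin 6) : ℕ), by simp⟩ := Fin.ext val_one'
    rw [dif_pos (show ((0 : Fin 6) : ℕ) < 3 by decide), dif_pos (show ((1 : Fin 6) : ℕ) < 3 by decide)] at hw01
    rw [e0, e1]
    rcases hw01 with ⟨a0, a1⟩ | ⟨a0, a1⟩
    · exact Or.inl ⟨by rw [a0]; rfl, by rw [a1]; rfl⟩
    · exact Or.inr ⟨by rw [a0]; rfl, by rw [a1]; rfl⟩
  have w0 : img w = tri k := by
    ext l
    rw [mem_img]
    simp only [tri, Set.mem_ofPred_eq, Fin.ext_iff, v2]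
    rcases v01 with ⟨a0, a1⟩ | ⟨a0, a1⟩ <;> rw [a0, a1] <;> omega
  have w3 : img (w * S.sh) = img τ := by
    rw [img_mul, S.sh_six hk]
    have hv : ∀ i : Fin 3, w.1 ⟨(i : ℕ) + 3, by omega⟩ = τ.1 (pt i) := fun i => by
      have := hw ⟨(i : ℕ) + 3, by omega⟩ (by rw [Ne, Fin.ext_iff]; show ¬ (i : ℕ) + 3 = 0; omega)
        (by rw [Ne, Fin.ext_iff]; show ¬ (i : ℕ) + 3 = 1; omega)
      rw [dif_neg (show ¬ ((i : ℕ) + 3 < 3) by omega)] at this
      refine this.trans (congrArg _ (congrArg pt (Fin.ext ?_)))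
      exact Nat.add_sub_cancel (i : ℕ) 3
    ext l
    constructor
    · rintro ⟨j, hj, rfl⟩
      obtain ⟨hj1, hj2⟩ : 3 ≤ (j : ℕ) ∧ (j : ℕ) < 6 := hj
      obtain ⟨i, hi⟩ : ∃ i : Fin 3, (⟨(i : ℕ) + 3, by omega⟩ : Fin (k + 1 + 4)) = j :=
        ⟨⟨(j : ℕ) - 3, by omega⟩, Fin.ext (show (j : ℕ) - 3 + 3 = j by omega)⟩
      rw [← hi, hv]; exact hmem i
    · rintro ⟨j, hj, rfl⟩
      have hj' : (j : ℕ) < 3 := hj
      refine ⟨⟨(j : ℕ) + 3, by omega⟩, show 3 ≤ (j : ℕ) + 3 ∧ (j : ℕ) + 3 < 6 by omega, ?_⟩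
      rw [hv ⟨j, hj'⟩]; rfl
  have e1 : S.P σ = (S.P 1).map (MulAut.conj (S.ρ (σ * w))).toMonoidHom := by
    rw [← P_mul, mul_one]
    exact S.P_congr (by rw [img_mul, w0]; rfl)
  have e2 : S.P σ' = (S.P S.sh).map (MulAut.conj (S.ρ (σ * w))).toMonoidHom := by
    rw [← P_mul]
    exact S.P_congr (by rw [mul_assoc, img_mul σ, w3, show σ' = σ * τ by simp [τ], img_mul])
  rw [e1, P_one] at ha
  rw [e2] at hb
  obtain ⟨_, ⟨x, rfl⟩, rfl⟩ := ha
  obtain ⟨_, ⟨_, ⟨z, rfl⟩, rfl⟩, rfl⟩ := hb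
  exact (S.disj_six hk x z).map (MulAut.conj (S.ρ (σ * w))).toMonoidHom

/-- Three consecutive points. -/
def window (k i : ℕ) : Set (Fin (k + 1 + 4)) := {l | i ≤ (l : ℕ) ∧ (l : ℕ) < i + 3}

theorem exists_window {i : ℕ} (hi : i + 3 ≤ k + 1 + 4) :
    ∃ σ : alternatingGroup (Fin (k + 1 + 4)), img σ = window k i := by
  obtain ⟨x, hx⟩ := exists_fresh (k := k + 1) {⟨i, by omega⟩, ⟨i + 1, by omega⟩, ⟨i + 2, by omega⟩}
    (lt_of_le_of_lt Finset.card_le_three (by omega))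
  simp only [Finset.mem_insert, Finset.mem_singleton, not_or] at hx
  obtain ⟨σ, h01, h2, -⟩ := exists_four (k := k) (p₀ := ⟨i, by omega⟩) (p₁ := ⟨i + 1, by omega⟩)
    (p₂ := ⟨i + 2, by omega⟩) (p₃ := x) (by simp) (by simp) (Ne.symm hx.1) (by simp)
    (Ne.symm hx.2.1) (Ne.symm hx.2.2)
  refine ⟨σ, Set.ext fun l => ?_⟩
  rw [mem_img, h2]
  simp only [window, Set.mem_ofPred_eq, Fin.ext_iff]
  rcases h01 with ⟨a, b⟩ | ⟨a, b⟩ <;> rw [a, b] <;> simp only <;> omega

/-- The block on three consecutive points. -/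
noncomputable def blockT (i : ℕ) : Subgroup K :=
  if h : i + 3 ≤ k + 1 + 4 then S.P (exists_window h).choose else ⊥

theorem blockT_eq {i : ℕ} (hi : i + 3 ≤ k + 1 + 4) {σ : alternatingGroup (Fin (k + 1 + 4))}
    (h : img σ = window k i) : S.blockT i = S.P σ := by
  rw [blockT, dif_pos hi]
  exact S.P_congr ((exists_window hi).choose_spec.trans h.symm)

theorem window_pair {i : ℕ} (hi : i + 4 ≤ k + 1 + 4) :
    ∃ σ : alternatingGroup (Fin (k + 1 + 4)), img σ = window k i ∧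
      ∃ τ : alternatingGroup (Fin 4), img (σ * lowHom τ) = window k (i + 1) := by
  obtain ⟨σ, h01, h2, h3⟩ := exists_four (k := k) (p₀ := ⟨i, by omega⟩) (p₁ := ⟨i + 1, by omega⟩)
    (p₂ := ⟨i + 2, by omega⟩) (p₃ := ⟨i + 3, by omega⟩) (by simp) (by simp) (by simp) (by simp) (by simp) (by simp)
  refine ⟨σ, Set.ext fun l => ?_, ?_⟩
  · rw [mem_img, h2]
    simp only [window, Set.mem_ofPred_eq, Fin.ext_iff]
    rcases h01 with ⟨a, b⟩ | ⟨a, b⟩ <;> rw [a, b] <;> simp only <;> omega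
  have key : ∀ e : Fin 4, e ≠ 3 → ∃ τ : alternatingGroup (Fin 4),
      ∀ y : Fin 4, y ≠ e ↔ y = τ.1 0 ∨ y = τ.1 1 ∨ y = τ.1 2 := by decide +kernel
  obtain ⟨e, he3, he⟩ : ∃ e : Fin 4, e ≠ 3 ∧ σ.1 (Fin.castLE (show 4 ≤ k + 1 + 4 by omega) e) = ⟨i, by omega⟩ := by
    rcases h01 with ⟨a, -⟩ | ⟨-, b⟩
    · exact ⟨0, by decide, by rw [← a]; rfl⟩
    · refine ⟨1, by decide, ?_⟩
      rw [← b]
      exact congrArg _ (Fin.ext val_one'.symm)
  obtain ⟨τ, hτ⟩ := key e he3
  refine ⟨τ, Set.ext fun l => ?_⟩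
  rw [img_mul, window]
  constructor
  · rintro ⟨_, ⟨j, hj, rfl⟩, rfl⟩
    have hj' : (j : ℕ) < 3 := hj
    obtain ⟨y, rfl⟩ : ∃ y : Fin 4, Fin.castLE h44 y = j := ⟨⟨j, by omega⟩, rfl⟩
    rw [lowHom_apply_low]
    set z := τ.1 y
    have hz : z ≠ e := (hτ z).2 (by
      have hy : (y : ℕ) < 3 := hj'
      rcases (show (y : ℕ) = 0 ∨ (y : ℕ) = 1 ∨ (y : ℕ) = 2 by omega) with h | h | h
      · exact Or.inl (congrArg _ (Fin.ext h))
      · exact Or.inr (Or.inl (congrArg _ (Fin.ext h)))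
      · exact Or.inr (Or.inr (congrArg _ (Fin.ext h))))
    have hlt : ∀ z : Fin 4, z = 0 ∨ z = 1 ∨ z = 2 ∨ z = 3 := by decide
    have hv : ∀ z : Fin 4, i ≤ ((σ.1 (Fin.castLE (show 4 ≤ k + 1 + 4 by omega) z) : Fin _) : ℕ) ∧
        ((σ.1 (Fin.castLE (show 4 ≤ k + 1 + 4 by omega) z) : Fin _) : ℕ) < i + 4 := by
      intro z
      rcases hlt z with rfl | rfl | rfl | rfl
      · rw [show Fin.castLE _ (0 : Fin 4) = (0 : Fin (k + 1 + 4)) from rfl]
        rcases h01 with ⟨a, -⟩ | ⟨a, -⟩ <;> rw [a] <;> simp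
      · rw [show Fin.castLE _ (1 : Fin 4) = (1 : Fin (k + 1 + 4)) from Fin.ext val_one'.symm]
        rcases h01 with ⟨-, a⟩ | ⟨-, a⟩ <;> rw [a] <;> simp
      · rw [show Fin.castLE _ (2 : Fin 4) = (2 : Fin (k + 1 + 4)) from Fin.ext val_two'.symm, h2]; simp
      · rw [show Fin.castLE _ (3 : Fin 4) = (3 : Fin (k + 1 + 4)) from Fin.ext val_three'.symm, h3]; simp
    have hne : ((σ.1 (Fin.castLE (show 4 ≤ k + 1 + 4 by omega) z) : Fin _) : ℕ) ≠ i := fun h' => hz (by
      have h'' : σ.1 (Fin.castLE (show 4 ≤ k + 1 + 4 by omega) z) = ⟨i, by omega⟩ := Fin.ext h'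
      rw [← he] at h''
      exact Fin.castLE_injective _ (σ.1.injective h''))
    have := hv z
    simp only [Set.mem_ofPred_eq]
    omega
  · rintro ⟨hl1, hl2⟩
    obtain ⟨z, hz⟩ : ∃ z : Fin 4, σ.1 (Fin.castLE (show 4 ≤ k + 1 + 4 by omega) z) = l := by
      rcases (show (l : ℕ) = i + 1 ∨ (l : ℕ) = i + 2 ∨ (l : ℕ) = i + 3 by omega) with h | h | h
      · rcases h01 with ⟨-, b⟩ | ⟨a, -⟩
        · exact ⟨1, by rw [show Fin.castLE _ (1 : Fin 4) = (1 : Fin (k + 1 + 4)) from Fin.ext val_one'.symm, b];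
                       exact Fin.ext h.symm⟩
        · exact ⟨0, by rw [show Fin.castLE _ (0 : Fin 4) = (0 : Fin (k + 1 + 4)) from rfl, a]; exact Fin.ext h.symm⟩
      · exact ⟨2, by rw [show Fin.castLE _ (2 : Fin 4) = (2 : Fin (k + 1 + 4)) from Fin.ext val_two'.symm, h2];
                     exact Fin.ext h.symm⟩
      · exact ⟨3, by rw [show Fin.castLE _ (3 : Fin 4) = (3 : Fin (k + 1 + 4)) from Fin.ext val_three'.symm, h3];
                     exact Fin.ext h.symm⟩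
    have hze : z ≠ e := fun e' => by
      subst e'
      rw [he] at hz
      rw [← hz] at hl1
      simp at hl1
    refine ⟨Fin.castLE (show 4 ≤ k + 1 + 4 by omega) z, ?_, hz⟩
    rw [mem_img]
    rcases (hτ z).1 hze with rfl | rfl | rfl
    · exact Or.inl (by rw [← lowHom_apply_low]; rfl)
    · refine Or.inr (Or.inl ?_)
      rw [← lowHom_apply_low]
      exact congrArg _ (Fin.ext val_one'.symm)
    · refine Or.inr (Or.inr ?_)
      rw [← lowHom_apply_low]
      exact congrArg _ (Fin.ext val_two'.symm)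

theorem blockT_inj {i : ℕ} (hi : i + 4 ≤ k + 1 + 4) : KerFree S.π (S.blockT i ⊔ S.blockT (i + 1)) := by
  obtain ⟨σ, h, τ, h'⟩ := window_pair hi
  intro a ha
  refine S.inj_Q σ a ((sup_le ?_ ?_ : _ ≤ S.Q σ) ha)
  · rw [S.blockT_eq (by omega) h]; exact S.P_le_Q_self σ
  · rw [S.blockT_eq (by omega) h']; exact S.P_le_Q τ rfl

theorem blockT_map {i : ℕ} (hi : i + 3 ≤ k + 1 + 4) : (S.blockT i).map S.π = Blk c (k + 1 + 4) i 3 := by
  obtain ⟨σ, h⟩ := exists_window (k := k) hi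
  rw [S.blockT_eq hi h, map_P, h, Blk_eq_Fix]
  rfl

theorem blockT_comm {i j : ℕ} (hij : i + 3 ≤ j) (hj : j + 3 ≤ k + 1 + 4) {a b : K} (ha : a ∈ S.blockT i)
    (hb : b ∈ S.blockT j) : Commute a b := by
  obtain ⟨σ, h⟩ := exists_window (k := k) (i := i) (by omega)
  obtain ⟨σ', h'⟩ := exists_window (k := k) hj
  rw [S.blockT_eq (by omega) h] at ha
  rw [S.blockT_eq hj h'] at hb
  refine S.P_comm (fun l hl hl' => ?_) ha hb
  rw [h] at hl
  rw [h'] at hl'
  simp only [window, Set.mem_ofPred_eq] at hl hl'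
  omega

/-- An element of a block with image in the block of two points commutes with a block away from those two. -/
theorem small_comm {σ σ' : alternatingGroup (Fin (k + 1 + 4))} (hk : 1 ≤ k)
    (h : ∀ l, l = σ.1 0 ∨ l = σ.1 1 ∨ l = σ.1 3 → l ∉ img σ') {a b : K} (ha : a ∈ S.P σ)
    (hπ : S.π a ∈ Fix (k + 1 + 4) F q {l | l = σ.1 0 ∨ l = σ.1 1}) (hb : b ∈ S.P σ') : Commute a b := by
  have _ := hk
  have key : ∃ τ : alternatingGroup (Fin 4), ∀ y : Fin 4, (y = 0 ∨ y = 1 ∨ y = 3) ↔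
      (y = τ.1 0 ∨ y = τ.1 1 ∨ y = τ.1 2) := by decide +kernel
  obtain ⟨τ, hτ⟩ := key
  have himg : img (σ * lowHom τ) = {l | l = σ.1 0 ∨ l = σ.1 1 ∨ l = σ.1 3} := by
    ext l
    rw [mem_img]
    have e0 : Fin.castLE (show 4 ≤ k + 1 + 4 by omega) (0 : Fin 4) = (0 : Fin (k + 1 + 4)) := rfl
    have e1 : Fin.castLE (show 4 ≤ k + 1 + 4 by omega) (1 : Fin 4) = (1 : Fin (k + 1 + 4)) := Fin.ext val_one'.symm
    have e2 : Fin.castLE (show 4 ≤ k + 1 + 4 by omega) (2 : Fin 4) = (2 : Fin (k + 1 + 4)) := Fin.ext val_two'.symm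
    have e3 : Fin.castLE (show 4 ≤ k + 1 + 4 by omega) (3 : Fin 4) = (3 : Fin (k + 1 + 4)) := Fin.ext val_three'.symm
    simp only [Subgroup.coe_mul, Perm.mul_apply, Set.mem_ofPred_eq]
    rw [← e0, ← e1, ← e2, ← e3]
    simp only [lowHom_apply_low]
    constructor
    · rintro (rfl | rfl | rfl)
      · rcases (hτ _).2 (Or.inl rfl) with e | e | e <;> rw [e] <;> simp
      · rcases (hτ _).2 (Or.inr (Or.inl rfl)) with e | e | e <;> rw [e] <;> simp
      · rcases (hτ _).2 (Or.inr (Or.inr rfl)) with e | e | e <;> rw [e] <;> simp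
    · rintro (rfl | rfl | rfl)
      · rcases (hτ 0).1 (Or.inl rfl) with e | e | e <;> rw [← e] <;> simp
      · rcases (hτ 1).1 (Or.inr (Or.inl rfl)) with e | e | e <;> rw [← e] <;> simp
      · rcases (hτ 3).1 (Or.inr (Or.inr rfl)) with e | e | e <;> rw [← e] <;> simp
  have hmem : S.π a ∈ (S.P (σ * lowHom τ)).map S.π := by
    rw [map_P, himg]
    exact Fix_mono (fun l hl => hl.elim Or.inl fun e => Or.inr (Or.inl e)) hπ
  obtain ⟨a', ha', e⟩ := hmem
  have : a = a' := (S.inj_Q σ).eq (S.P_le_Q_self σ ha) (S.P_le_Q τ rfl ha') e.symm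
  subst this
  exact S.P_comm (fun l hl => h l (by rw [himg] at hl; exact hl)) ha' hb

theorem five_comm (hk : k = 0) {a b : K} (ha : a ∈ S.T0)
    (hπ : S.π a ∈ Fix (k + 1 + 4) F q {l | (l : ℕ) < 2}) (hb : b ∈ S.P S.sh) : Commute a b := by
  obtain ⟨_, ⟨z, rfl⟩, rfl⟩ := hb
  have h : Fix (k + 1 + 4) F q {l | (l : ℕ) < 2} = Blk c (k + 1 + 4) 0 2 := by rw [Blk_eq_Fix]; simp
  rw [h, ← range_emb c 0 (show 0 + 2 ≤ k + 1 + 4 by omega)] at hπ
  obtain ⟨x, hx⟩ := hπ
  have e : a = S.β (emb c 0 (show 0 + 2 ≤ 4 by omega) x) :=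
    S.inj_β.eq (S.T0_le ha) ⟨_, rfl⟩ (by rw [S.π_β, emb_emb, ← hx])
  rw [e]
  exact S.disj_five hk x z

theorem blockT_commL {i : ℕ} (hi : i + 5 ≤ k + 1 + 4) {a b : K} (ha : a ∈ S.blockT i)
    (hπ : S.π a ∈ Blk c (k + 1 + 4) i 2) (hb : b ∈ S.blockT (i + 2)) : Commute a b := by
  rw [Blk_eq_Fix] at hπ
  obtain ⟨σ', h'⟩ := exists_window (k := k) (i := i + 2) (by omega)
  rw [S.blockT_eq (by omega) h'] at hb
  rcases Nat.eq_zero_or_pos k with hk | hk
  · obtain rfl : i = 0 := by omega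
    rw [S.blockT_eq (by omega) (σ := 1) (by rw [img_one]; ext l; simp [window, tri]), P_one] at ha
    rw [S.P_congr (σ' := S.sh) (by
      rw [h', S.sh_five hk]; ext l; simp [window]; have := l.isLt; omega)] at hb
    exact S.five_comm hk ha (by simpa using hπ) hb
  · obtain ⟨x, hx⟩ := exists_fresh (k := k + 1) {⟨i, by omega⟩, ⟨i + 1, by omega⟩, ⟨i + 2, by omega⟩,
      ⟨i + 3, by omega⟩, ⟨i + 4, by omega⟩} (lt_of_le_of_lt Finset.card_le_five (by omega))
    simp only [Finset.mem_insert, Finset.mem_singleton, not_or] at hx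
    obtain ⟨σ, h01, h2, h3⟩ := exists_four (k := k) (p₀ := ⟨i, by omega⟩) (p₁ := ⟨i + 1, by omega⟩)
      (p₂ := ⟨i + 2, by omega⟩) (p₃ := x) (by simp) (by simp) (Ne.symm hx.1) (by simp)
      (Ne.symm hx.2.1) (Ne.symm hx.2.2.1)
    have hσ : img σ = window k i := by
      ext l
      rw [mem_img, h2]
      simp only [window, Set.mem_ofPred_eq, Fin.ext_iff]
      rcases h01 with ⟨a', b'⟩ | ⟨a', b'⟩ <;> rw [a', b'] <;> simp only <;> omega
    rw [S.blockT_eq (by omega) hσ] at ha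
    refine S.small_comm hk (fun l hl => ?_) ha (Fix_mono (fun l hl => ?_) hπ) hb
    · rw [h', window]
      simp only [Set.mem_ofPred_eq]
      rw [h3] at hl
      simp only [Fin.ext_iff] at hx
      rcases h01 with ⟨a', b'⟩ | ⟨a', b'⟩ <;> rw [a', b'] at hl <;> simp only [Fin.ext_iff] at hl <;> omega
    · simp only [Set.mem_ofPred_eq] at hl ⊢
      rcases h01 with ⟨a', b'⟩ | ⟨a', b'⟩ <;> rw [a', b'] <;> simp only [Fin.ext_iff] <;> omega

theorem blockT_commR {i : ℕ} (hi : i + 5 ≤ k + 1 + 4) {a b : K} (ha : a ∈ S.blockT i) (hb : b ∈ S.blockT (i + 2))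
    (hπ : S.π b ∈ Blk c (k + 1 + 4) (i + 3) 2) : Commute a b := by
  rw [Blk_eq_Fix] at hπ
  obtain ⟨σ', h'⟩ := exists_window (k := k) (i := i) (by omega)
  rw [S.blockT_eq (by omega) h'] at ha
  rcases Nat.eq_zero_or_pos k with hk | hk
  · obtain rfl : i = 0 := by omega
    subst hk
    -- the reversal of the five points
    let ω : alternatingGroup (Fin (0 + 1 + 4)) := ⟨swap 0 4 * swap 1 3, show Perm.sign _ = 1 by decide⟩
    obtain ⟨σ, hσ⟩ := exists_window (k := 0) (i := 2) (by omega)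
    have k1 : ∀ l : Fin 5, (2 ≤ (l : ℕ) ∧ (l : ℕ) < 2 + 3) ↔
        (l = ω.1 0 ∨ l = ω.1 1 ∨ l = ω.1 2) := by decide +kernel
    have k2 : ∀ l : Fin 5, (0 ≤ (l : ℕ) ∧ (l : ℕ) < 0 + 3) ↔ ∃ j : Fin 5, 2 ≤ (j : ℕ) ∧ ω.1 j = l := by
      decide +kernel
    rw [S.blockT_eq (by omega) hσ, S.P_congr (σ' := ω) (by
      rw [hσ]; ext l; rw [mem_img]; exact k1 l)] at hb
    rw [S.P_congr (σ' := ω * S.sh) (by
      rw [h', img_mul, S.sh_five rfl]; ext l; exact k2 l), P_mul] at ha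
    obtain ⟨a', ha', rfl⟩ := ha
    obtain ⟨b', hb', rfl⟩ := hb
    have hπ' : S.π b' ∈ Fix (0 + 1 + 4) F q {l | (l : ℕ) < 2} := by
      have h1 : S.π ((MulAut.conj (S.ρ ω)).toMonoidHom b') ∈
          (Fix (0 + 1 + 4) F q {l | (l : ℕ) < 2}).map (MulAut.conj (pmU ω)).toMonoidHom := by
        rw [map_conj_Fix]
        refine Fix_mono (fun l hl => ?_) hπ
        have k3 : ∀ l : Fin 5, (0 + 3 ≤ (l : ℕ) ∧ (l : ℕ) < 0 + 3 + 2) →
            ∃ j : Fin 5, (j : ℕ) < 2 ∧ ω.1 j = l := by decide +kernel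
        exact k3 l hl
      obtain ⟨y, hy, e⟩ := h1
      have e' : y = S.π b' := by
        simp [S.π_ρ] at e
        exact e
      exact e' ▸ hy
    exact ((S.five_comm rfl hb' hπ' ha').symm).map (MulAut.conj (S.ρ ω)).toMonoidHom
  · obtain ⟨x, hx⟩ := exists_fresh (k := k + 1) {⟨i, by omega⟩, ⟨i + 1, by omega⟩, ⟨i + 2, by omega⟩,
      ⟨i + 3, by omega⟩, ⟨i + 4, by omega⟩} (lt_of_le_of_lt Finset.card_le_five (by omega))
    simp only [Finset.mem_insert, Finset.mem_singleton, not_or] at hx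
    obtain ⟨σ, h01, h2, h3⟩ := exists_four (k := k) (p₀ := ⟨i + 3, by omega⟩) (p₁ := ⟨i + 4, by omega⟩)
      (p₂ := ⟨i + 2, by omega⟩) (p₃ := x) (by simp) (by simp) (Ne.symm hx.2.2.2.1) (by simp)
      (Ne.symm hx.2.2.2.2) (Ne.symm hx.2.2.1)
    have hσ : img σ = window k (i + 2) := by
      ext l
      rw [mem_img, h2]
      simp only [window, Set.mem_ofPred_eq, Fin.ext_iff]
      rcases h01 with ⟨a', b'⟩ | ⟨a', b'⟩ <;> rw [a', b'] <;> simp only <;> omega
    rw [S.blockT_eq (by omega) hσ] at hb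
    refine (S.small_comm hk (fun l hl => ?_) hb (Fix_mono (fun l hl => ?_) hπ) ha).symm
    · rw [h', window]
      simp only [Set.mem_ofPred_eq]
      rw [h3] at hl
      simp only [Fin.ext_iff] at hx
      rcases h01 with ⟨a', b'⟩ | ⟨a', b'⟩ <;> rw [a', b'] at hl <;> simp only [Fin.ext_iff] at hl <;> omega
    · simp only [Set.mem_ofPred_eq] at hl ⊢
      rcases h01 with ⟨a', b'⟩ | ⟨a', b'⟩ <;> rw [a', b'] <;> simp only [Fin.ext_iff] <;> omega

/-- The cover by the triple blocks. -/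
noncomputable def cover : Cover3 c (k + 1 + 4) K where
  π := S.π
  T := S.blockT
  hm := by omega
  map_T _ hi := S.blockT_map hi
  inj _ hi := S.blockT_inj hi
  comm _ _ hij hj _ ha _ hb := S.blockT_comm hij hj ha hb
  commL _ hi _ ha hπ _ hb := S.blockT_commL hi ha hπ hb
  commR _ hi _ ha _ hb hπ := S.blockT_commR hi ha hb hπ

/-- Any group generated by the two copies in this way is `SU_n(q)`. -/
theorem bijective (hF : Nat.card F = q ^ 2) (hgen : S.ρ.range ⊔ S.β.range = ⊤) :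
    Function.Bijective S.π := by
  refine S.cover.bijective hF ?_
  have hT : ∀ i, i + 3 ≤ k + 1 + 4 → S.blockT i ≤ S.cover.G 0 (k + 1 + 4) := fun i hi =>
    S.cover.T_le_G (Nat.zero_le _) (by omega)
  have hβ : S.β.range ≤ S.cover.G 0 (k + 1 + 4) := by
    intro x hx
    have hπx : S.π x ∈ Blk c (k + 1 + 4) 0 4 := by
      obtain ⟨z, rfl⟩ := hx
      rw [S.π_β]; exact emb_mem_Blk c 0 _ z
    have hle : Blk c (k + 1 + 4) 0 4 ≤ (S.blockT 0 ⊔ S.blockT 1).map S.π := by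
      refine (Blk_le_sup c hF le_rfl (by omega)).trans (sup_le ?_ ?_)
      · refine (Blk_mono c (r' := 3) le_rfl (by omega)).trans ?_
        rw [← S.blockT_map (i := 0) (by omega)]
        exact Subgroup.map_mono le_sup_left
      · rw [← S.blockT_map (i := 1) (by omega)]
        exact Subgroup.map_mono le_sup_right
    obtain ⟨y, hy, e⟩ := hle hπx
    obtain ⟨σ, h, τ, h'⟩ := window_pair (k := k) (i := 0) (by omega)
    have hQ : S.blockT 0 ⊔ S.blockT (0 + 1) ≤ S.β.range := by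
      have hQ1 : ∀ σ', img σ' = window k 0 → S.P σ' ≤ S.β.range := fun σ' e' => by
        rw [S.P_congr (σ' := 1) (by rw [e', img_one]; ext l; simp [window, tri]), P_one]
        exact S.T0_le
      refine sup_le ?_ ?_
      · rw [S.blockT_eq (by omega) h]; exact hQ1 σ h
      · have key : ∃ τ : alternatingGroup (Fin 4), ∀ y : Fin 4, y ≠ 0 ↔ y = τ.1 0 ∨ y = τ.1 1 ∨ y = τ.1 2 := by
          decide +kernel
        obtain ⟨τ', hτ'⟩ := key
        rw [S.blockT_eq (i := 0 + 1) (by omega) (σ := lowHom τ') ?_]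
        · exact S.P_low τ'
        · ext l
          constructor
          · rintro ⟨j, hj, rfl⟩
            have hj' : (j : ℕ) < 3 := hj
            obtain ⟨y, rfl⟩ : ∃ y : Fin 4, Fin.castLE h44 y = j := ⟨⟨j, by omega⟩, rfl⟩
            rw [lowHom_apply_low]
            have hz : τ'.1 y ≠ 0 := (hτ' _).2 (by
              have hy : (y : ℕ) < 3 := hj'
              rcases (show (y : ℕ) = 0 ∨ (y : ℕ) = 1 ∨ (y : ℕ) = 2 by omega) with e' | e' | e'
              · exact Or.inl (congrArg _ (Fin.ext e'))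
              · exact Or.inr (Or.inl (congrArg _ (Fin.ext e')))
              · exact Or.inr (Or.inr (congrArg _ (Fin.ext e'))))
            have := (τ'.1 y).isLt
            have : ((τ'.1 y : Fin 4) : ℕ) ≠ 0 := fun e' => hz (Fin.ext e')
            simp only [window, Set.mem_ofPred_eq, Fin.val_castLE]
            omega
          · rintro ⟨hl1, hl2⟩
            obtain ⟨y, rfl⟩ : ∃ y : Fin 4, Fin.castLE h44 y = l := ⟨⟨l, by omega⟩, rfl⟩
            rw [mem_img]
            rcases (hτ' y).1 (fun e' => by rw [e'] at hl1; simp at hl1) with rfl | rfl | rfl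
            · exact Or.inl (by rw [← lowHom_apply_low]; rfl)
            · refine Or.inr (Or.inl ?_)
              rw [← lowHom_apply_low]
              exact congrArg _ (Fin.ext val_one'.symm)
            · refine Or.inr (Or.inr ?_)
              rw [← lowHom_apply_low]
              exact congrArg _ (Fin.ext val_two'.symm)
    rw [S.inj_β.eq hx (hQ hy) e.symm]
    exact sup_le (hT 0 (by omega)) (hT 1 (by omega)) hy
  have hρ : ∀ σ, S.ρ σ ∈ S.cover.G 0 (k + 1 + 4) := by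
    have h : (S.cover.G 0 (k + 1 + 4)).comap S.ρ = ⊤ := by
      refine eq_top_of_consecutive _ fun i h3 => ?_
      rw [Subgroup.mem_comap]
      obtain ⟨σ, hσ⟩ := exists_window (k := k) h3
      set γ : alternatingGroup (Fin (k + 1 + 4)) :=
        ⟨cyc3 ⟨i, by omega⟩ ⟨i + 1, by omega⟩ ⟨i + 2, by omega⟩,
          sign_cyc3 (fin_ne _ _ (by omega)) (fin_ne _ _ (by omega))⟩
      have hfix : ∀ l, l ∉ window k i → γ.1 l = l := fun l hl => by
        simp only [window, Set.mem_ofPred_eq] at hl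
        exact cyc3_apply_other (fun e => by rw [e] at hl; simp at hl)
          (fun e => by rw [e] at hl; simp at hl) (fun e => by rw [e] at hl; simp at hl)
      have hlow : ∀ u : alternatingGroup (Fin (k + 1 + 4)), (∀ l, l ∉ tri k → u.1 l = l) → S.ρ u ∈ S.T0 := by
        intro u hu
        have hu' : img u = tri k := by
          rw [img]
          refine Set.Subset.antisymm ?_ fun l hl => ?_
          · rintro _ ⟨l, hl, rfl⟩
            by_contra hn
            exact hn (by rw [u.1.injective (hu _ hn)]; exact hl)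
          · refine ⟨u.1⁻¹ l, by_contra fun hn => ?_, by simp⟩
            have := hu _ hn
            rw [Perm.inv_def, Equiv.apply_symm_apply] at this
            exact hn (by rw [Perm.inv_def, ← this]; exact hl)
        obtain ⟨τ, μ, -, e⟩ := exists_evTail hu'
        have hμ : μ = 1 := by
          refine Perm.ext fun x => ?_
          have he : ∀ y, (evTail (k := k) μ).1 (splitAt (show 3 + (k + 2) = k + 1 + 4 by omega) (Sum.inr y)) =
              splitAt (show 3 + (k + 2) = k + 1 + 4 by omega) (Sum.inr (μ y)) := fun y => by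
            show (splitAt _).permCongr (Equiv.sumCongr (oddPart (Perm.sign μ)) μ) _ = _
            rw [Equiv.permCongr_apply, Equiv.symm_apply_apply]
            rfl
          have h1 := hu (splitAt (show 3 + (k + 2) = k + 1 + 4 by omega) (Sum.inr x)) (by
            simp only [tri, Set.mem_ofPred_eq, splitAt_inr]; omega)
          rw [e, Subgroup.coe_mul, Perm.mul_apply, he] at h1
          by_cases h0 : (μ x : ℕ) = 0
          · by_contra hne
            have e3 : splitAt (show 3 + (k + 2) = k + 1 + 4 by omega) (Sum.inr (μ x)) =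
                Fin.castLE (by omega) (3 : Fin 4) := Fin.ext (by rw [splitAt_inr, h0]; rfl)
            rw [e3, lowHom_apply_low] at h1
            have := congrArg Fin.val h1
            rw [splitAt_inr, Fin.val_castLE] at this
            have := (τ.1 3).isLt
            exact hne (Fin.ext (show (μ x : ℕ) = x by omega))
          · rw [lowHom_apply_high _ (by rw [splitAt_inr]; omega)] at h1
            exact Sum.inr_injective ((splitAt _).injective h1)
        rw [hμ, map_one, mul_one] at e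
        subst e
        rw [S.low]
        refine S.mem_T0 ⟨_, rfl⟩ ?_
        rw [S.π_β, emb_pmU_low]
        exact pmU_mem_Fix hu
      have : S.ρ γ ∈ S.P σ := by
        refine ⟨S.ρ (σ⁻¹ * γ * σ), hlow _ fun l hl => ?_, by simp [mul_assoc]⟩
        simp only [Subgroup.coe_mul, Perm.mul_apply]
        rw [hfix (σ.1 l) (hσ ▸ fun ⟨j, hj, e⟩ => hl (σ.1.injective e ▸ hj))]
        simp
      rw [← S.blockT_eq h3 hσ] at this
      exact hT i h3 this
    exact fun σ => Subgroup.mem_comap.1 (h ▸ Subgroup.mem_top σ)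
  rw [eq_top_iff, ← hgen]
  exact sup_le (fun x ⟨σ, e⟩ => e ▸ hρ σ) hβ

end Setting4

end CfsgLib.SUPres
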