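import Cfsg.Agent.Lib.SUAmalgam.Coord
import Cfsg.Agent.Lib.ClassicalForms.Unitary.Simple
import Cfsg.Agent.Lib.ClassicalForms.Unitary.Center

/-!
Transitivity of the blocks of `SU_m(q)` on vectors of given norm, for every field order, and the decompositions of a
block into smaller ones that follow from it.
-/

set_option autoImplicit false
set_option linter.unusedSectionVars false

open Matrix

namespace CfsgLib.SUPres

open CfsgLib.SUAmalgam CfsgLib.ClassicalForms CfsgLib.Geometric

variable {F : Type*} [Field F] [Finite F] {q r m : ℕ} (c : Conj F q)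
include c

theorem herm_smul_self (a : F) (x : Fin r → F) :
    Cfsg.hermForm r F q (a • x) (a • x) = nm c a * Cfsg.hermForm r F q x x := by
  rw [c.smul_left, c.smul_right, nm]; ring

theorem act_suOfGU (g : Cfsg.GU r F q) (hg : guDet r F q g = 1) (x : Fin r → F) :
    act (suOfGU g hg) x = ap (g : GL (Fin r) F) x := rfl

/-- `SU_r(q)`, `r ≥ 2`, is transitive on the vectors of a given nonzero norm. -/
theorem exists_su_norm (hF : Nat.card F = q ^ 2) (hr : 2 ≤ r) {u w : Fin r → F}
    (h : Cfsg.hermForm r F q u u = Cfsg.hermForm r F q w w) (hne : Cfsg.hermForm r F q u u ≠ 0) :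
    ∃ g : SUg r F q, act g u = w := by
  obtain ⟨l, hl⟩ := exists_nm c (k := Cfsg.hermForm r F q u u) (c.herm_self u)
  have hl0 : l ≠ 0 := fun e => hne (by rw [← hl, e, nm_zero])
  have hunit : ∀ x : Fin r → F, Cfsg.hermForm r F q x x = Cfsg.hermForm r F q u u →
      Cfsg.hermForm r F q (l⁻¹ • x) (l⁻¹ • x) = 1 := fun x hx => by
    rw [herm_smul_self c, hx, ← hl, ← nm_mul, inv_mul_cancel₀ hl0, nm_one]
  set i0 : Fin r := ⟨0, by omega⟩
  set i1 : Fin r := ⟨1, by omega⟩
  have hi : i1 ≠ i0 := fun e => by simpa [i0, i1] using congrArg Fin.val e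
  have he : ∀ i : Fin r, Cfsg.hermForm r F q (Pi.single i (1 : F)) (Pi.single i 1) = 1 := fun i => by
    rw [c.single_right]; simp
  obtain ⟨gu, hgu⟩ := exists_gu_move hF (he i0) (hunit u rfl)
  obtain ⟨gw, hgw⟩ := exists_gu_move hF (he i0) (hunit w h.symm)
  set δ : F := ((guDet r F q (gw⁻¹ * gu) : Fˣ) : F) with hδ
  have hδ1 : δ * c.σ δ = 1 := by
    have := det_gu_norm c (gw⁻¹ * gu)
    exact this
  have hk : 1 + (δ - 1) * Cfsg.hermForm r F q (Pi.single i1 (1 : F)) (Pi.single i1 1) ≠ 0 := by
    rw [he, mul_one, add_sub_cancel]; exact left_ne_zero_of_mul_eq_one hδ1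
  have hk' : δ - 1 + c.σ (δ - 1) + (δ - 1) * c.σ (δ - 1) *
      Cfsg.hermForm r F q (Pi.single i1 (1 : F)) (Pi.single i1 1) = 0 := by
    rw [he, map_sub, map_one]; linear_combination hδ1
  set D := pref c (Pi.single i1 (1 : F)) (δ - 1) hk hk'
  have hD : guDet r F q D = guDet r F q (gw⁻¹ * gu) := Units.ext (by
    rw [det_pref, he, mul_one, add_sub_cancel])
  have hdet : guDet r F q (gw * D * gu⁻¹) = 1 := by
    rw [map_mul, map_mul, hD, map_mul, map_inv, map_inv]
    simp [mul_assoc, mul_comm, mul_left_comm]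
  refine ⟨suOfGU _ hdet, ?_⟩
  have hu' : ap (gu⁻¹ : Cfsg.GU r F q).1 (l⁻¹ • u) = Pi.single i0 1 := by
    rw [← hgu, Subgroup.coe_inv, ap_inv_ap]
  have hD0 : ap (D : GL (Fin r) F) (Pi.single i0 1) = Pi.single i0 1 := by
    rw [ap_pref, c.single_right]
    simp [hi]
  have key : act (suOfGU _ hdet) (l⁻¹ • u) = l⁻¹ • w := by
    rw [act_suOfGU c, Subgroup.coe_mul, Subgroup.coe_mul, ap_mul, ap_mul, hu', hD0, hgw]
  rw [act_smul] at key
  exact smul_right_injective _ (inv_ne_zero hl0) key

/-- `SU_r(q)`, `r ≥ 3`, is transitive on the nonzero isotropic vectors. -/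
theorem exists_su_isotropic (hF : Nat.card F = q ^ 2) (hr : 3 ≤ r) {u w : Fin r → F}
    (hu : Cfsg.hermForm r F q u u = 0) (hw : Cfsg.hermForm r F q w w = 0) (hu0 : u ≠ 0) (hw0 : w ≠ 0) :
    ∃ g : SUg r F q, act g u = w := by
  classical
  have := Fintype.ofFinite F
  obtain ⟨σ, -, hh⟩ := isUnitaryForm_hermForm (F := F) r q (by rw [← Nat.card_eq_fintype_card, hF])
  obtain ⟨ζ, hζ, hf⟩ := exists_skewForm_of_unitary hh
  obtain ⟨g, hg, hgu⟩ := exists_move_isotropic hf (by simpa using hr) (x := u) (y := w)
    (by rw [hu, mul_zero]) (by rw [hw, mul_zero]) hu0 hw0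
  exact ⟨(suEquivIsomSL hζ).symm ⟨g, hg⟩, hgu⟩

/-- The coordinates in a window. -/
def win (i : ℕ) (hi : i + r ≤ m) (x : Fin m → F) : Fin r → F := fun a => x (shift i hi a)

omit c in
theorem win_ne_zero {i j : ℕ} (hi : i + r ≤ m) {x : Fin m → F} (h1 : i ≤ j) (h2 : j < i + r)
    (h : co x j ≠ 0) : win i hi x ≠ 0 := by
  intro e
  apply h
  rw [co_mk x (show j < m by omega)]
  have := congrFun e ⟨j - i, by omega⟩
  refine Eq.trans (congrArg x ?_) this
  exact Fin.ext (show j = i + (j - i) by omega)

theorem herm_win (i : ℕ) (hi : i + r ≤ m) {x y : Fin m → F}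
    (hout : ∀ j, j < i ∨ i + r ≤ j → co x j = co y j)
    (h : Cfsg.hermForm m F q x x = Cfsg.hermForm m F q y y) :
    Cfsg.hermForm r F q (win i hi x) (win i hi x) = Cfsg.hermForm r F q (win i hi y) (win i hi y) := by
  rw [herm_split c i hi x x, herm_split c i hi y y] at h
  have e : ∀ k : ↥(Set.range (shift (r := r) (m := m) i hi))ᶜ, x k = y k := fun k => by
    have := hout _ ((notMem_range_shift i hi).1 k.2)
    rwa [co_apply, co_apply] at this
  simp only [e] at h
  exact add_right_cancel h

theorem act_emb_eq {i : ℕ} (hi : i + r ≤ m) {x y : Fin m → F}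
    (hout : ∀ j, j < i ∨ i + r ≤ j → co x j = co y j) {g : SUg r F q}
    (hg : act g (win i hi x) = win i hi y) : act (emb c i hi g) x = y := by
  funext l
  by_cases hl : l ∈ Set.range (shift (r := r) (m := m) i hi)
  · obtain ⟨a, rfl⟩ := hl
    rw [act_emb_shift]
    exact congrFun hg a
  · have hl' := (notMem_range_shift i hi).1 hl
    rw [act_emb_other c i hi _ _ hl', ← co_apply x, hout _ hl', co_apply]

/-- A block on two or more coordinates moves a window of nonzero norm. -/
theorem move_two' (hF : Nat.card F = q ^ 2) (hr : 2 ≤ r) {i : ℕ} (hi : i + r ≤ m) {x y : Fin m → F}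
    (hout : ∀ j, j < i ∨ i + r ≤ j → co x j = co y j)
    (h : Cfsg.hermForm m F q x x = Cfsg.hermForm m F q y y)
    (hne : Cfsg.hermForm r F q (win i hi y) (win i hi y) ≠ 0) : ∃ g ∈ Blk c m i r, act g x = y := by
  have e := herm_win c i hi hout h
  obtain ⟨g, hg⟩ := exists_su_norm c hF hr e (by rw [e]; exact hne)
  exact ⟨emb c i hi g, emb_mem_Blk c i hi g, act_emb_eq c hi hout hg⟩

/-- A block on three or more coordinates moves a nonzero window. -/
theorem move_three (hF : Nat.card F = q ^ 2) (hr : 3 ≤ r) {i : ℕ} (hi : i + r ≤ m) {x y : Fin m → F}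
    (hout : ∀ j, j < i ∨ i + r ≤ j → co x j = co y j)
    (h : Cfsg.hermForm m F q x x = Cfsg.hermForm m F q y y)
    (hx : win i hi x ≠ 0) (hy : win i hi y ≠ 0) : ∃ g ∈ Blk c m i r, act g x = y := by
  by_cases hne : Cfsg.hermForm r F q (win i hi y) (win i hi y) = 0
  · obtain ⟨g, hg⟩ := exists_su_isotropic c hF hr ((herm_win c i hi hout h).trans hne) hne hx hy
    exact ⟨emb c i hi g, emb_mem_Blk c i hi g, act_emb_eq c hi hout hg⟩
  · exact move_two' c hF (by omega) hi hout h hne

/-- Supported in a window. -/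
def Ins (a b : ℕ) (x : Fin m → F) : Prop := ∀ j, j < a ∨ b ≤ j → co x j = 0

variable {c}

omit c in
theorem Ins.mono {a b a' b' : ℕ} {x : Fin m → F} (h : Ins a b x) (ha : a' ≤ a) (hb : b ≤ b') :
    Ins a' b' x := fun j hj => h j (by omega)

theorem Ins.act {a b i r : ℕ} {g : SUg m F q} (hg : g ∈ Blk c m i r) (ha : a ≤ i) (hb : i + r ≤ b)
    {x : Fin m → F} (hx : Ins a b x) : Ins a b (act g x) := fun j hj => by
  rw [co_Blk c hg (by omega), hx j hj]

omit c in
theorem ins_ev {a b i : ℕ} (hi : i < m) (ha : a ≤ i) (hb : i < b) : Ins a b (ev m F i) := fun j hj => by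
  rw [co_ev hi, if_neg (by omega)]

variable (c)

theorem herm_ev {i : ℕ} (hi : i < m) : Cfsg.hermForm m F q (ev m F i) (ev m F i) = 1 := by
  rw [show ev m F i = Pi.single (⟨i, hi⟩ : Fin m) 1 from ev_eq_single ⟨i, hi⟩, c.single_right]
  simp

omit c in
/-- A vector with one nonzero coordinate. -/
theorem eq_smul_ev {a : ℕ} (ha : a < m) {x : Fin m → F} (hx : Ins a (a + 1) x) :
    x = co x a • ev m F a := co_ext fun j hj => by
  rw [co_smul, co_ev ha]
  by_cases h : j = a
  · rw [h, if_pos rfl, mul_one]
  · rw [if_neg h, mul_zero, hx j (by omega)]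

omit c in
/-- A vector with two nonzero coordinates. -/
theorem eq_pair {a : ℕ} (ha : a + 1 < m) {x : Fin m → F} (hx : Ins a (a + 2) x) :
    x = co x a • ev m F a + co x (a + 1) • ev m F (a + 1) := co_ext fun j hj => by
  rw [co_add, co_smul, co_smul, co_ev (by omega), co_ev ha]
  by_cases h : j = a
  · rw [h, if_pos rfl, if_neg (by omega), mul_one, mul_zero, add_zero]
  · rw [if_neg h, mul_zero, zero_add]
    by_cases h' : j = a + 1
    · rw [h', if_pos rfl, mul_one]
    · rw [if_neg h', mul_zero, hx j (by omega)]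

theorem herm_pair {a : ℕ} (ha : a + 1 < m) {x : Fin m → F} (hx : Ins a (a + 2) x) (y : Fin m → F) :
    Cfsg.hermForm m F q x y = co x a * c.σ (co y a) + co x (a + 1) * c.σ (co y (a + 1)) := by
  conv_lhs => rw [eq_pair ha hx]
  rw [c.add_left, c.smul_left, c.smul_left, show ev m F a = Pi.single (⟨a, by omega⟩ : Fin m) 1 from
    ev_eq_single ⟨a, by omega⟩, show ev m F (a + 1) = Pi.single (⟨a + 1, ha⟩ : Fin m) 1 from
    ev_eq_single ⟨a + 1, ha⟩, c.single_left, c.single_left, ← co_mk y, ← co_mk y]

/-- A nonzero pair of any norm. -/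
theorem exists_pair_norm {d : F} (hd : c.σ d = d) : ∃ a b : F, a ≠ 0 ∧ nm c a + nm c b = d := by
  by_cases h : d = 0
  · obtain ⟨b, hb⟩ := exists_nm c (k := (-1 : F)) (by simp)
    exact ⟨1, b, one_ne_zero, by rw [nm_one, hb, h, add_neg_cancel]⟩
  · obtain ⟨a, ha⟩ := exists_nm c hd
    exact ⟨a, 0, fun e => h (by rw [← ha, e, nm_zero]), by rw [ha, nm_zero, add_zero]⟩

/-- The standard form of a vector inside a window of length at least three. -/
theorem exists_short (hF : Nat.card F = q ^ 2) (hr : 3 ≤ r) {i : ℕ} (hi : i + r ≤ m) (x : Fin m → F) :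
    ∃ g ∈ Blk c m i r, ∀ j, i + 2 ≤ j → j < i + r → co (act g x) j = 0 := by
  by_cases hx : win i hi x = 0
  · refine ⟨1, one_mem _, fun j h1 h2 => by_contra fun h => ?_⟩
    rw [act_one] at h
    exact win_ne_zero hi (by omega) h2 h hx
  obtain ⟨a, b, ha, hab⟩ := exists_pair_norm c (c.herm_self (win i hi x))
  let y : Fin m → F := fun l =>
    if (l : ℕ) = i then a else if (l : ℕ) = i + 1 then b else if i ≤ (l : ℕ) ∧ (l : ℕ) < i + r then 0 else x l
  have hy : ∀ j, j < m → co y j =
      if j = i then a else if j = i + 1 then b else if i ≤ j ∧ j < i + r then 0 else co x j := by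
    intro j hj
    rw [co_mk y hj, co_mk x hj]
  have hout : ∀ j, j < i ∨ i + r ≤ j → co x j = co y j := fun j hj => by
    by_cases hjm : j < m
    · rw [hy j hjm, if_neg (by omega), if_neg (by omega), if_neg (by omega)]
    · rw [co_of_le _ (not_lt.1 hjm), co_of_le _ (not_lt.1 hjm)]
  have hn : Cfsg.hermForm r F q (win i hi y) (win i hi y) = nm c a + nm c b := by
    have e : ∀ t : Fin r, win i hi y t = if (t : ℕ) = 0 then a else if (t : ℕ) = 1 then b else 0 := fun t => by
      have := t.isLt
      simp only [win, y, shift]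
      rcases (show (t : ℕ) = 0 ∨ (t : ℕ) = 1 ∨ 2 ≤ (t : ℕ) by omega) with h | h | h
      · simp [h]
      · simp [h]
      · rw [if_neg (by omega), if_neg (by omega), if_pos (by omega), if_neg (by omega), if_neg (by omega)]
    rw [c.herm_apply, Finset.sum_eq_add (⟨0, by omega⟩ : Fin r) ⟨1, by omega⟩ (by simp)]
    · simp [e, nm]
    · intro t _ ht
      have h0 : (t : ℕ) ≠ 0 := fun h => ht.1 (Fin.ext h)
      have h1 : (t : ℕ) ≠ 1 := fun h => ht.2 (Fin.ext h)
      simp [e, h0, h1]
    · simp
    · simp
  have hne : win i hi y ≠ 0 := win_ne_zero hi le_rfl (by omega) (by rw [hy i (by omega), if_pos rfl]; exact ha)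
  have hh : Cfsg.hermForm m F q x x = Cfsg.hermForm m F q y y := by
    rw [herm_split c i hi x x, herm_split c i hi y y]
    congr 1
    · exact (hn.trans hab).symm
    · refine finsum_congr fun k => ?_
      have := hout _ ((notMem_range_shift i hi).1 k.2)
      rw [co_apply, co_apply] at this
      rw [this]
  obtain ⟨g, hg, hgx⟩ := move_three c hF hr hi hout hh hx hne
  refine ⟨g, hg, fun j h1 h2 => ?_⟩
  rw [hgx, hy j (by omega), if_neg (by omega), if_neg (by omega), if_pos (by omega)]

theorem Blk_step_top {i r : ℕ} {g : SUg m F q} (hg : g ∈ Blk c m i (r + 1))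
    (he : act g (ev m F (i + r)) = ev m F (i + r)) : g ∈ Blk c m i r := by
  intro k hk
  by_cases hki : (k : ℕ) = i + r
  · rw [← ev_eq_single, hki]; exact he
  · exact hg k (by omega)

/-- A block of length at least four is generated by the first small block and the block after the first
coordinate. -/
theorem Blk_le_sup (hF : Nat.card F = q ^ 2) {k r : ℕ} (hr : 4 ≤ r) (hk : k + r ≤ m) :
    Blk c m k r ≤ Blk c m k 2 ⊔ Blk c m (k + 1) (r - 1) := by
  intro g hg
  set H := Blk c m k 2 ⊔ Blk c m (k + 1) (r - 1)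
  have hsmall : ∀ y : Fin m → F, Ins k (k + r) y → Cfsg.hermForm m F q y y = 1 →
      (∀ j, k + 2 ≤ j → co y j = 0) → ∃ h ∈ H, act h y = ev m F k := by
    intro y hy h1 hz
    have hy' : Ins k (k + 2) y := fun j hj => hj.elim (fun h => hy j (Or.inl h)) fun h => hz j h
    obtain ⟨s, hs, e⟩ := move_two' c hF le_rfl (i := k) (by omega) (x := y) (y := ev m F k)
      (fun j hj => by rw [hy' j hj, co_ev (by omega), if_neg (by omega)]) (by rw [h1, herm_ev c (by omega)])
      (by
        rw [← herm_win c k (by omega) (x := y) (fun j hj => by rw [hy' j hj, co_ev (by omega), if_neg (by omega)])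
          (by rw [h1, herm_ev c (by omega)])]
        intro h0
        rw [herm_pair c (by omega) hy'] at h1
        rw [c.herm_apply, Fin.sum_univ_two] at h0
        rw [co_mk _ (show k < m by omega), co_mk _ (show k + 1 < m by omega)] at h1
        exact zero_ne_one (α := F) (h0.symm.trans h1))
    exact ⟨s, Subgroup.mem_sup_left hs, e⟩
  have hmid : ∀ y : Fin m → F, Ins k (k + r) y → Cfsg.hermForm m F q y y = 1 → nm c (co y k) ≠ 1 →
      ∃ h ∈ H, act h y = ev m F k := by
    intro y hy h1 hne
    obtain ⟨μ, hμ⟩ := exists_nm c (k := 1 - nm c (co y k)) (by rw [map_sub, map_one, nm_fixed])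
    set y' := co y k • ev m F k + μ • ev m F (k + 1)
    have hy'c : ∀ j, co y' j = if j = k then co y k else if j = k + 1 then μ else 0 := fun j => by
      rw [co_add, co_smul, co_smul, co_ev (by omega), co_ev (by omega)]
      by_cases hj : j = k
      · simp [hj]
      · by_cases hj' : j = k + 1 <;> simp [hj, hj']
    have hy' : Ins k (k + 2) y' := fun j hj => by rw [hy'c, if_neg (by omega), if_neg (by omega)]
    have h1' : Cfsg.hermForm m F q y' y' = 1 := by
      rw [herm_pair c (by omega) hy', hy'c, hy'c, if_pos rfl, if_neg (by omega), if_pos rfl]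
      simp only [nm] at hμ
      linear_combination hμ
    have hμ0 : μ ≠ 0 := fun e => hne (by rw [e, nm_zero] at hμ; linear_combination hμ)
    obtain ⟨g, hg, e⟩ := move_three c hF (by omega) (i := k + 1) (r := r - 1) (by omega) (x := y) (y := y')
      (fun j hj => by
        rcases hj with hj | hj
        · by_cases hjk : j = k
          · rw [hjk, hy'c, if_pos rfl]
          · rw [hy j (by omega), hy' j (by omega)]
        · rw [hy j (by omega), hy' j (by omega)])
      (h1.trans h1'.symm)
      (fun h0 => hne (by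
        have hs : Ins k (k + 1) y := fun j hj => by
          by_cases hj' : j < k ∨ k + r ≤ j
          · exact hy j hj'
          · by_contra hj0
            exact win_ne_zero (i := k + 1) (r := r - 1) (by omega) (by omega) (by omega) hj0 h0
        rw [eq_smul_ev (by omega) hs, herm_smul_self c, herm_ev c (by omega), mul_one] at h1
        exact h1))
      (win_ne_zero _ le_rfl (by omega) (by rw [hy'c, if_neg (by omega), if_pos rfl]; exact hμ0))
    obtain ⟨h, hh, e'⟩ := hsmall y' (hy'.mono le_rfl (by omega)) h1' fun j hj => hy' j (Or.inr hj)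
    exact ⟨h * g, mul_mem hh (Subgroup.mem_sup_right hg), by rw [act_mul, e, e']⟩
  have key : ∃ h ∈ H, act h (act g (ev m F k)) = ev m F k := by
    set y := act g (ev m F k)
    have hy : Ins k (k + r) y := Ins.act hg le_rfl le_rfl (ins_ev (by omega) le_rfl (by omega))
    have h1 : Cfsg.hermForm m F q y y = 1 := by rw [herm_act, herm_ev c (by omega)]
    by_cases hne : nm c (co y k) = 1
    swap
    · exact hmid y hy h1 hne
    by_cases hw : win (k + 1) (r := r - 1) (by omega) y = 0
    · refine hsmall y hy h1 fun j hj => ?_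
      by_cases hj' : k + r ≤ j
      · exact hy j (Or.inr hj')
      · by_contra hj0
        exact win_ne_zero (i := k + 1) (r := r - 1) (by omega) (by omega) (by omega) hj0 hw
    obtain ⟨ζ, hζ⟩ := exists_nm c (k := (-1 : F)) (by simp)
    set y' := co y k • ev m F k + (ev m F (k + 2) + ζ • ev m F (k + 3))
    have hy'c : ∀ j, co y' j = (if j = k then co y k else 0) + ((if j = k + 2 then 1 else 0) +
        (if j = k + 3 then ζ else 0)) := fun j => by
      simp only [y', co_add, co_smul, co_ev (show k < m by omega), co_ev (show k + 2 < m by omega),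
        co_ev (show k + 3 < m by omega), mul_ite, mul_one, mul_zero]
    have h1' : Cfsg.hermForm m F q y' y' = 1 := by
      simp only [y', c.add_left, c.add_right, c.smul_left, c.smul_right,
        show ∀ j (hj : j < m), ev m F j = Pi.single (⟨j, hj⟩ : Fin m) (1 : F) from fun j hj => ev_eq_single ⟨j, hj⟩,
        show k < m by omega, show k + 2 < m by omega, show k + 3 < m by omega, c.single_right]
      simp only [nm] at hne hζ
      simp
      linear_combination hne + hζ
    obtain ⟨g1, hg1, e1⟩ := move_three c hF (by omega) (i := k + 1) (r := r - 1) (by omega) (x := y) (y := y')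
      (fun j hj => by
        rw [hy'c, if_neg (show j ≠ k + 2 by omega), if_neg (show j ≠ k + 3 by omega), add_zero, add_zero]
        by_cases hjk : j = k
        · rw [hjk, if_pos rfl]
        · rw [if_neg hjk, hy j (by omega)])
      (h1.trans h1'.symm) hw
      (win_ne_zero _ (show k + 1 ≤ k + 2 by omega) (by omega)
        (by rw [hy'c, if_neg (by omega), if_pos rfl, if_neg (by omega)]; simp))
    set y'' := co y k • ev m F (k + 1) + (ev m F (k + 2) + ζ • ev m F (k + 3))
    have hy''c : ∀ j, co y'' j = (if j = k + 1 then co y k else 0) + ((if j = k + 2 then 1 else 0) +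
        (if j = k + 3 then ζ else 0)) := fun j => by
      simp only [y'', co_add, co_smul, co_ev (show k + 1 < m by omega), co_ev (show k + 2 < m by omega),
        co_ev (show k + 3 < m by omega), mul_ite, mul_one, mul_zero]
    have h1'' : Cfsg.hermForm m F q y'' y'' = 1 := by
      simp only [y'', c.add_left, c.add_right, c.smul_left, c.smul_right,
        show ∀ j (hj : j < m), ev m F j = Pi.single (⟨j, hj⟩ : Fin m) (1 : F) from fun j hj => ev_eq_single ⟨j, hj⟩,
        show k + 1 < m by omega, show k + 2 < m by omega, show k + 3 < m by omega, c.single_right]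
      simp only [nm] at hne hζ
      simp
      linear_combination hne + hζ
    obtain ⟨s, hs, e2⟩ := move_two' c hF le_rfl (i := k) (by omega) (x := y') (y := y'')
      (fun j hj => by rw [hy'c, hy''c, if_neg (show j ≠ k by omega), if_neg (show j ≠ k + 1 by omega)])
      (h1'.trans h1''.symm) (by
        rw [c.herm_apply, Fin.sum_univ_two]
        simp only [win, ← co_apply y'', shift, hy''c]
        simp only [nm] at hne
        simp [hne])
    obtain ⟨h, hh, e3⟩ := hmid y'' (fun j hj => by
      rw [hy''c, if_neg (by omega), if_neg (by omega), if_neg (by omega)]; simp) h1''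
      (by rw [hy''c, if_neg (by omega), if_neg (by omega), if_neg (by omega)]; simp)
    exact ⟨h * s * g1, mul_mem (mul_mem hh (Subgroup.mem_sup_left hs)) (Subgroup.mem_sup_right hg1),
      by rw [act_mul, act_mul, e1, e2, e3]⟩
  obtain ⟨h, hh, e⟩ := key
  have hH : H ≤ Blk c m k r := sup_le (Blk_mono c le_rfl (by omega)) (Blk_mono c (by omega) (by omega))
  have hfix : h * g ∈ Blk c m (k + 1) (r - 1) :=
    Blk_step c (by rw [show r - 1 + 1 = r by omega]; exact mul_mem (hH hh) hg) (by rw [act_mul, e])
  rw [show g = h⁻¹ * (h * g) by group]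
  exact mul_mem (inv_mem hh) (Subgroup.mem_sup_right hfix)

end CfsgLib.SUPres
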